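import Mathlib
import Cfsg.Agent.Th3.Ar
import Cfsg.Agent.Fus.Transv

/-!
Subgroups of a Sylow 3-subgroup of the Thompson group by polycyclic lists of codes, and the checker for the
list of centric subgroups.
-/

set_option autoImplicit false

namespace Cfsg.Agent.Th3

open Cfsg.Agent.Spor Cfsg.Agent.Rec Subgroup

/-- Codes for the elements of `S`. -/
structure Sy {Ω : Type*} [Group Ω] (S : Subgroup Ω) extends Cod ar Ω where
  V_iff : ∀ a, V a ↔ a < 59049
  mem : ∀ x, x ∈ S ↔ ∃ a < 59049, elt a = x
  dig : ∀ t < 10, ∀ a < 3 * 3 ^ t, ∀ b < 3 * 3 ^ t,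
    mul a b < 3 * 3 ^ t ∧ mul a b / 3 ^ t = (a / 3 ^ t + b / 3 ^ t) % 3

/-- Lists of triples: a power of three `p`, a code `g` with `p ≤ g < 2 p`, and the code `i` of its inverse. -/
inductive PL : Type
  | nil : PL
  | cons (p g i : ℕ) (tl : PL) : PL

/-- The code of the commutator `a b a⁻¹ b⁻¹`. -/
noncomputable def cm (a b : ℕ) : ℕ :=
  force (mul a b) fun u => force (mul b a) fun v => force (inv v) fun w => mul u w

/-- The code of the cube. -/
noncomputable def cu (a : ℕ) : ℕ := force (mul a a) fun u => mul u a

/-- The code of `s a s'`. -/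
noncomputable def cj (s a s' : ℕ) : ℕ := force (mul s a) fun u => mul u s'

/-- The two codes commute. -/
noncomputable def cmt (a b : ℕ) : Bool := Nat.beq (mul a b) (mul b a)

/-- The largest power of three below `a`. -/
noncomputable def ld (a : ℕ) : ℕ :=
  ifLt a 243 (ifLt a 9 (ifLt a 3 1 3) (ifLt a 27 9 (ifLt a 81 27 81)))
    (ifLt a 2187 (ifLt a 729 243 729) (ifLt a 6561 2187 (ifLt a 19683 6561 19683)))

namespace PL

/-- The codes of the list. -/
def gens : PL → List ℕ
  | nil => []
  | cons _ g _ tl => g :: tl.gens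

/-- The codes of the list and of the inverses. -/
def both : PL → List ℕ
  | nil => []
  | cons _ g i tl => g :: i :: tl.both

/-- Reduction of a code by the list. -/
noncomputable def sift (L : PL) : ℕ → ℕ :=
  PL.rec (motive := fun _ => ℕ → ℕ) (fun a => a)
    (fun p g i _ ih a => ifLt a p (ih a)
      (ifLt a (Nat.mul 2 p) (force (mul a i) ih) (ifLt a (Nat.mul 3 p) (force (mul a g) ih) a))) L

/-- The membership test. -/
noncomputable def has (L : PL) (a : ℕ) : Bool := force a fun a => Nat.beq (L.sift a) 0

/-- All codes of the list pass the test. -/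
noncomputable def all (L : PL) (f : ℕ → Bool) : Bool :=
  PL.rec true (fun _ g _ _ ih => band (f g) ih) L

/-- Entry `j` of the list. -/
noncomputable def nth (L : PL) : ℕ → ℕ :=
  PL.rec (motive := fun _ => ℕ → ℕ) (fun _ => 0) (fun _ g _ _ ih j => Nat.rec g (fun j' _ => ih j') j) L

/-- The first power of three. -/
noncomputable def hd (L : PL) : ℕ := PL.rec 0 (fun p _ _ _ _ => p) L

/-- The list without its first entry. -/
noncomputable def tail (L : PL) : PL := PL.rec nil (fun _ _ _ tl _ => tl) L

/-- The list is a polycyclic sequence. -/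
noncomputable def closed (L : PL) : Bool :=
  PL.rec true (fun p g i tl ih =>
    band (band (band (Nat.beq (Nat.mod 19683 p) 0) (blt tl.hd p))
      (band (band (Nat.ble p g) (blt g (Nat.mul 2 p))) (band (Nat.ble (Nat.mul 2 p) i) (blt i (Nat.mul 3 p)))))
      (band (band (Nat.beq (mul g i) 0) (tl.has (cu g))) (band (tl.all fun h => tl.has (cj i h g)) ih))) L

/-- The test holds for all products `acc g₁ ^ e₁ … gₖ ^ eₖ` with exponents `0, 1, -1`. -/
noncomputable def allP (L : PL) (f : ℕ → Bool) : ℕ → Bool :=
  PL.rec (motive := fun _ => ℕ → Bool) f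
    (fun _ g i _ ih acc => band (ih acc) (band (force (mul acc g) ih) (force (mul acc i) ih))) L

/-- The products visited by `allP`. -/
def Prod : PL → ℕ → ℕ → Prop
  | nil, acc, t => t = acc
  | cons _ g i tl, acc, t => tl.Prod acc t ∨ tl.Prod (mul acc g) t ∨ tl.Prod (mul acc i) t

/-- The domain of the subgroup generated by the list. -/
noncomputable def dom (L : PL) : Dom := ⟨fun f => L.allP f 0, L.has⟩

/-- A new last entry. -/
noncomputable def snoc (L : PL) (p g i : ℕ) : (PL → Bool) → Bool :=
  PL.rec (motive := fun _ => (PL → Bool) → Bool) (fun k => k (cons p g i nil))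
    (fun p' g' i' _ ih k => ih fun tl => k (cons p' g' i' tl)) L

/-- The residue of `c` is added to the list. -/
noncomputable def add (L : PL) (c : ℕ) (k : PL → Bool) : Bool :=
  force (L.sift c) fun r => force (ld r) fun p => force (inv r) fun r' =>
    ifLt r (Nat.mul 2 p) (L.snoc p r r' k) (L.snoc p r' r k)

/-- The entries of `E` that are not matched by entries of `K`. -/
noncomputable def split (E : PL) : PL → (PL → Bool) → Bool :=
  PL.rec (motive := fun _ => PL → (PL → Bool) → Bool) (fun _ k => k nil)
    (fun p g i tl ih K k => Bool.rec (ih K fun B => k (cons p g i B))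
      (band (tl.has (mul (K.nth 0) i)) (PL.rec (ih nil k) (fun _ _ _ K' _ => ih K' k) K)) (Nat.beq K.hd p)) E

end PL

/-- The list with the codes packed in the fields of `A`. -/
noncomputable def dec (n : ℕ) : ℕ → PL :=
  Nat.rec (fun _ => .nil) (fun _ ih A => ifLt A 1 .nil
    (.cons (ld (Nat.land A 65535)) (Nat.land A 65535) (inv (Nat.land A 65535)) (ih (Nat.shiftRight A 16)))) n

/-- The list `dec n A`, evaluated. -/
noncomputable def decK (n : ℕ) : ℕ → (PL → Bool) → Bool :=
  Nat.rec (fun _ k => k .nil) (fun _ ih A k => ifLt A 1 (k .nil)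
    (force (Nat.land A 65535) fun g => force (ld g) fun p => force (inv g) fun i =>
      force (Nat.shiftRight A 16) fun A' => ih A' fun tl => k (.cons p g i tl))) n

/-- A list is built from the candidates described by the 20-bit fields of `A`: `ok` tests a description and `val`
is the candidate. -/
noncomputable def build (ok : PL → ℕ → Bool) (val : PL → ℕ → ℕ) (n : ℕ) : ℕ → PL → (PL → Bool) → Bool :=
  Nat.rec (fun _ L k => k L) (fun _ ih A L k => ifLt A 1 (k L)
    (force (Nat.land A 1048575) fun d => band (ok L d) (force (val L d) fun c =>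
      force (Nat.shiftRight A 20) fun A' => L.add c fun L' => ih A' L' k))) n

/-- The domain of the codes below `n`. -/
noncomputable def levD (n : ℕ) : Dom := ⟨fun f => allRange 0 n fun a => force a f, fun a => blt a n⟩

/-- The list of the letters below `t`. -/
def levL : ℕ → PL
  | 0 => .nil
  | 1 => .cons 1 1 2 .nil
  | 2 => .cons 3 3 6 (levL 1)
  | 3 => .cons 9 9 18 (levL 2)
  | 4 => .cons 27 27 54 (levL 3)
  | 5 => .cons 81 81 162 (levL 4)
  | 6 => .cons 243 243 488 (levL 5)
  | 7 => .cons 729 729 1458 (levL 6)
  | 8 => .cons 2187 2187 4379 (levL 7)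
  | 9 => .cons 6561 6561 13122 (levL 8)
  | _ + 10 => .cons 19683 19683 39366 (levL 9)

namespace Sy

variable {Ω : Type*} [Group Ω] {S : Subgroup Ω} (C : Sy S)

/-- The subgroup generated by a list. -/
def sub (L : PL) : Subgroup Ω := closure {x | ∃ g ∈ L.gens, C.elt g = x}

/-- The entries of the list are codes of elements of `H`. -/
def In (L : PL) (H : Subgroup Ω) : Prop := ∀ g ∈ L.both, g < 59049 ∧ C.elt g ∈ H

/-- The subgroup generated by the letters below `t`. -/
def lev (t : ℕ) : Subgroup Ω := C.sub (levL t)

end Sy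

end Cfsg.Agent.Th3
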