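import Mathlib
import Cfsg.Agent.Th3.Defs

/-!
The checker for one centric subgroup: its maximal subgroups, and the reason why it is not essential.
-/

set_option autoImplicit false

namespace Cfsg.Agent.Th3

open Cfsg.Agent.Spor Cfsg.Agent.Rec Subgroup

/-- The candidate described by `d`: a commutator, a cube or an explicit code. -/
noncomputable def valG (E A B L : PL) (d : ℕ) : ℕ :=
  force (Nat.land d 15) fun ty => force (Nat.land (Nat.shiftRight d 4) 15) fun i =>
    force (Nat.land (Nat.shiftRight d 8) 15) fun j =>
      ifLt ty 2 (ifLt ty 1 (cm (A.nth i) (B.nth j)) (cm (L.nth i) (E.nth j)))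
        (ifLt ty 3 (cu (L.nth i)) (ifLt ty 4 (cu (E.nth i)) (Nat.shiftRight d 4)))

/-- Candidates for the Frattini subgroup. -/
noncomputable def okF (_L : PL) (d : ℕ) : Bool := blt (Nat.land d 15) 4

/-- Candidates for the Frattini subgroup, or elements centralizing `E`. -/
noncomputable def okZ (E : PL) (_L : PL) (d : ℕ) : Bool :=
  bor (blt (Nat.land d 15) 4) (force (Nat.shiftRight d 4) fun c => band (blt c 59049) (E.all (cmt c)))

/-- Candidates for a commutator subgroup. -/
noncomputable def okC (_L : PL) (d : ℕ) : Bool := blt (Nat.land d 15) 3

/-- Candidates for the centralizer of `A` modulo `B`. -/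
noncomputable def okM (E A B : PL) (_L : PL) (c : ℕ) : Bool :=
  band (band (blt c 59049) (E.has c)) (A.all fun a => B.has (cm c a))

/-- Candidates for the subgroup generated by the elements of order three. -/
noncomputable def okO (A : PL) (_L : PL) (c : ℕ) : Bool :=
  band (band (blt c 59049) (A.has c)) (Nat.beq (cu c) 0)

/-- The entries of `B` normalize `K`, and their cubes and commutators are in `K`. -/
noncomputable def up (B K : PL) : Bool :=
  PL.rec true (fun _ g i tl ih => band (band (K.all fun k => K.has (cj i k g)) (K.has (cu g)))
    (band (tl.all fun h => K.has (cm g h)) ih)) B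

/-- Entry `i` of a list of lists. -/
noncomputable def nthP (l : List PL) (i : ℕ) : PL := nth .nil l i

/-- One more characteristic subgroup of `E`. -/
noncomputable def term (E : PL) (env : List PL) (w : ℕ) (k : PL → Bool) : Bool :=
  force (Nat.land w 15) fun ty => force (Nat.shiftRight w 12) fun D =>
    force (Nat.land (Nat.shiftRight w 4) 15) fun iA => force (Nat.land (Nat.shiftRight w 8) 15) fun iB =>
    ifLt ty 2
      (ifLt ty 1
        (build okF (valG E E E) 10 D .nil fun K => band (band K.closed (E.split K fun B => up B K)) (k K))
        (build okC (valG E (nthP env iA) (nthP env iB)) 10 D .nil fun K =>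
          band (band (band K.closed (E.all fun e => force (inv e) fun e' => K.all fun x => K.has (cj e' x e)))
            ((nthP env iA).all fun a => (nthP env iB).all fun b => K.has (cm a b))) (k K)))
      (ifLt ty 3
        (build (okM E (nthP env iA) (nthP env iB)) (fun _ c => c) 10 D .nil fun K =>
          band (band K.closed (E.split K fun B => B.allP (fun t => bor (Nat.beq t 0)
            (bneg ((nthP env iA).all fun a => (nthP env iB).has (cm t a)))) 0)) (k K))
        (build (okO (nthP env iA)) (fun _ c => c) 10 D .nil fun K =>
          band (band K.closed ((nthP env iA).allP (fun t => bor (bneg (Nat.beq (cu t) 0)) (K.has t)) 0)) (k K)))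

/-- A list of characteristic subgroups of `E`. -/
noncomputable def terms (E : PL) (ws : List ℕ) : List PL → (List PL → Bool) → Bool :=
  List.rec (motive := fun _ => List PL → (List PL → Bool) → Bool) (fun env k => k env)
    (fun w _ ih env k => term E env w fun K => ih (K :: env) k) ws

/-- The code of `x⁻¹ * (s * x * s')`. -/
noncomputable def dl (s s' x : ℕ) : ℕ := force (cj s x s') fun u => force (inv x) fun v => mul v u

/-- The subgroup `E` with the list `F` in its Frattini subgroup is not essential. -/
noncomputable def kill (E F : PL) (w : ℕ) (ws : List ℕ) : Bool :=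
  force (Nat.land w 15) fun ty => force (Nat.land (Nat.shiftRight w 4) 65535) fun s =>
    force (Nat.land (Nat.shiftRight w 20) 65535) fun s2 => force (Nat.shiftRight w 36) fun a =>
    force (inv s) fun s' => band (band (blt s 59049) (bneg (E.has s)))
      (ifLt ty 1 (E.all fun x => F.has (dl s s' x))
        (ifLt ty 2
          (terms E ws [E, .nil] fun env => band (E.all fun x => (nthP env 0).has (dl s s' x))
            ((nthP env 0).all fun x => F.has (dl s s' x)))
          (band (band (band (blt a 59049) (E.has a)) (E.all fun x => force (dl s s' x) fun c =>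
              bor (F.has c) (bor (F.has (mul c a)) (F.has (mul c (inv a))))))
            (band (band (blt s2 59049) (force (inv s2) fun s2' => E.all fun x => E.has (cj s2 x s2')))
              (band (bneg (E.has s2)) (band (bneg (E.has (mul s2 s))) (bneg (E.has (mul s2 s')))))))))

/-- The subgroup generated by `K` and `acc` is centralized by an element outside `E`, or it is conjugate into a
later subgroup of the table `T` with `n` entries. -/
noncomputable def leaf (T : ℕ → ℕ) (n j : ℕ) (E K : PL) (D : ℕ) (acc : List ℕ) (idx : ℕ) : Bool :=
  force (getP 32 4294967295 D idx) fun w => force (Nat.land w 65535) fun g => force (Nat.shiftRight w 16) fun ch =>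
    band (blt g 59049) (ifLt ch 1
      (band (bneg (E.has g)) (band (allL acc (cmt g)) (K.all (cmt g))))
      (band (band (blt j ch) (blt ch n)) (force (inv g) fun g' => force (T ch) fun A => decK 10 A fun X =>
        band (allL acc fun m => X.has (cj g m g')) (K.all fun m => X.has (cj g m g')))))

/-- All choices of `r`, `r b`, `r b'` for the entries `r` of the list. -/
noncomputable def choose (b b' : ℕ) (f : List ℕ → ℕ → Bool) (R : PL) : List ℕ → ℕ → Bool :=
  PL.rec (motive := fun _ => List ℕ → ℕ → Bool) f
    (fun _ r _ _ ih acc idx => force (Nat.mul 3 idx) fun x => band (ih (r :: acc) x)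
      (band (force (mul r b) fun r1 => ih (r1 :: acc) (Nat.add x 1))
        (force (mul r b') fun r2 => ih (r2 :: acc) (Nat.add x 2)))) R

/-- The test holds for all hyperplanes. -/
noncomputable def hyp (f : List ℕ → ℕ → Bool) (B : PL) : List ℕ → Bool :=
  PL.rec (motive := fun _ => List ℕ → Bool) (fun _ => true)
    (fun _ b b' tl ih pre => band (choose b b' f tl pre 1) (ih (b :: pre))) B

/-- The maximal subgroups of `E` above `K`. -/
noncomputable def tree (T : ℕ → ℕ) (n j : ℕ) (E K : PL) (D : ℕ) : Bool :=
  E.split K fun B => band (up B K) (hyp (leaf T n j E K D) B [])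

/-- The certificate for one subgroup. -/
structure Ct where
  (f z h k : ℕ)
  ws : List ℕ

/-- The check of subgroup `j` of the table; `sv j` says that `j` is one of the surviving subgroups. -/
noncomputable def chk (T : ℕ → ℕ) (n : ℕ) (sv : ℕ → Bool) (j : ℕ) (c : Ct) : Bool :=
  force (T j) fun A => decK 10 A fun E => band E.closed (build okF (valG E E E) 10 c.f .nil fun F =>
    band (bor (sv j) (kill E F c.k c.ws))
      (ifLt c.z 1 (tree T n j E F c.h) (build (okZ E) (valG E E E) 10 c.z .nil fun K => tree T n j E K c.h)))

/-- The check of consecutive subgroups of the table. -/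
noncomputable def chkL (T : ℕ → ℕ) (n : ℕ) (sv : ℕ → Bool) (l : List Ct) : ℕ → Bool :=
  List.rec (motive := fun _ => ℕ → Bool) (fun _ => true)
    (fun c _ ih j => band (chk T n sv j c) (force (Nat.add j 1) ih)) l

end Cfsg.Agent.Th3
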