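import Mathlib
import Cfsg.Agent.Th3.Chk
import Cfsg.Agent.GT.PGroupBasic

/-! Codes, membership tests -/

set_option autoImplicit false

namespace Cfsg.Agent.Th3

open Cfsg.Agent.Spor Cfsg.Agent.Rec Cfsg.Agent.Fus Subgroup
open scoped commutatorElement

theorem PL.all_iff (L : PL) (f : ℕ → Bool) : L.all f = true ↔ ∀ g ∈ L.gens, f g = true := by
  induction L with
  | nil => exact ⟨fun _ _ h => absurd h List.not_mem_nil, fun _ => rfl⟩
  | cons p g i tl ih =>
    show band (f g) (tl.all f) = true ↔ ∀ a ∈ g :: tl.gens, f a = true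
    rw [band_iff, ih, List.forall_mem_cons]

theorem decK_eq (n A : ℕ) (k : PL → Bool) : decK n A k = k (dec n A) := by
  induction n generalizing A k with
  | zero => rfl
  | succ n ih =>
    show ifLt A 1 (k .nil) (force (Nat.land A 65535) fun g => force (ld g) fun p => force (inv g) fun i =>
      force (Nat.shiftRight A 16) fun A' => decK n A' fun tl => k (.cons p g i tl)) = k (ifLt A 1 .nil
        (.cons (ld (Nat.land A 65535)) (Nat.land A 65535) (inv (Nat.land A 65535)) (dec n (Nat.shiftRight A 16))))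
    simp only [force_eq, ifLt_eq, ih]
    split_ifs <;> rfl

theorem closed_lev (t : ℕ) : (levL t).closed = true := by
  have h : ∀ t ≤ 10, (levL t).closed = true := by decide +kernel
  rcases le_total t 10 with h1 | h1
  · exact h t h1
  · obtain ⟨n, rfl⟩ := Nat.exists_eq_add_of_le' h1
    exact ((levL.eq_def (n + 10)).trans (levL.eq_def 10).symm : levL (n + 10) = levL 10) ▸ h 10 le_rfl

namespace PC

theorem closed_iff {p g i : ℕ} {L : PL} : (PL.cons p g i L).closed = true ↔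
    ((19683 % p = 0 ∧ L.hd < p) ∧ (p ≤ g ∧ g < 2 * p) ∧ 2 * p ≤ i ∧ i < 3 * p) ∧
      (mul g i = 0 ∧ L.has (cu g) = true) ∧ (∀ h ∈ L.gens, L.has (cj i h g) = true) ∧ L.closed = true := by
  show band (band (band (Nat.beq (Nat.mod 19683 p) 0) (blt L.hd p))
      (band (band (Nat.ble p g) (blt g (Nat.mul 2 p))) (band (Nat.ble (Nat.mul 2 p) i) (blt i (Nat.mul 3 p)))))
      (band (band (Nat.beq (mul g i) 0) (L.has (cu g))) (band (L.all fun h => L.has (cj i h g)) L.closed)) = true ↔ _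
  simp only [band_iff, blt_iff, nbeq_iff, Nat.ble_eq, PL.all_iff]
  rfl

theorem sift_cons (p g i : ℕ) (L : PL) (a : ℕ) : (PL.cons p g i L).sift a =
    if a < p then L.sift a else if a < 2 * p then L.sift (mul a i) else if a < 3 * p then L.sift (mul a g) else a := by
  show ifLt a p (L.sift a) (ifLt a (Nat.mul 2 p) (force (mul a i) L.sift)
    (ifLt a (Nat.mul 3 p) (force (mul a g) L.sift) a)) = _
  simp only [force_eq, ifLt_eq]
  rfl

theorem has_eq (L : PL) (a : ℕ) : L.has a = true ↔ L.sift a = 0 := by rw [PL.has, force_eq, nbeq_iff]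

theorem pow_of {p g i : ℕ} {L : PL} (h : (PL.cons p g i L).closed = true) : ∃ t < 10, p = 3 ^ t := by
  obtain ⟨t, h1, h2⟩ := (Nat.dvd_prime_pow (m := 9) Nat.prime_three).1
    (Nat.dvd_of_mod_eq_zero (closed_iff.1 h).1.1.1)
  exact ⟨t, by omega, h2⟩

theorem le_of {p g i : ℕ} {L : PL} (h : (PL.cons p g i L).closed = true) : 0 < p ∧ 3 * p ≤ 59049 :=
  ⟨(Nat.zero_le _).trans_lt (closed_iff.1 h).1.1.2, by
    have := Nat.le_of_dvd (by norm_num) (Nat.dvd_of_mod_eq_zero (closed_iff.1 h).1.1.1)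
    omega⟩

theorem hd_le {p g i : ℕ} {L : PL} (h : (PL.cons p g i L).closed = true) : 3 * L.hd ≤ p := by
  cases L with
  | nil => exact Nat.zero_le _
  | cons p' g' i' L =>
    obtain ⟨t, -, rfl⟩ := pow_of h
    obtain ⟨s, -, rfl⟩ := pow_of (closed_iff.1 h).2.2.2
    have h1 : 3 ^ s < 3 ^ t := (closed_iff.1 h).1.1.2
    show 3 * 3 ^ s ≤ _
    rw [← pow_succ']
    exact Nat.pow_le_pow_right (by norm_num) ((Nat.pow_lt_pow_iff_right (by norm_num)).1 h1)

theorem gens_lt {L : PL} (h : L.closed = true) : ∀ a ∈ L.gens, a < 3 * L.hd := by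
  induction L with
  | nil => exact fun _ h => absurd h List.not_mem_nil
  | cons p g i L ih =>
    have h1 := closed_iff.1 h
    have h2 := hd_le h
    refine List.forall_mem_cons.2 ⟨?_, fun a ha => ?_⟩
    · show g < 3 * p
      omega
    · have := ih h1.2.2.2 a ha
      show a < 3 * p
      omega

theorem both_of_gens {L : PL} {a : ℕ} (h : a ∈ L.gens) : a ∈ L.both := by
  induction L with
  | nil => exact h
  | cons p g i L ih =>
    rcases List.mem_cons.1 h with rfl | h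
    exacts [List.mem_cons_self, List.mem_cons_of_mem _ (List.mem_cons_of_mem _ (ih h))]

end PC

open PC

namespace Sy

variable {Ω : Type*} [Group Ω] {S : Subgroup Ω} (C : Sy S) {a b c : ℕ} {L K : PL} {H : Subgroup Ω}

theorem rep (ha : a < 59049) : C.toCod.Rep a (C.elt a) := ⟨(C.V_iff a).2 ha, rfl⟩

theorem elt_zero : C.elt 0 = 1 := C.elt_one

theorem elt_mem (ha : a < 59049) : C.elt a ∈ S := (C.mem _).2 ⟨a, ha, rfl⟩

theorem elt_inj (ha : a < 59049) (hb : b < 59049) (h : C.elt a = C.elt b) : a = b :=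
  C.inj ((C.V_iff a).2 ha) ((C.V_iff b).2 hb) h

theorem elt_eq_one (ha : a < 59049) : C.elt a = 1 ↔ a = 0 :=
  ⟨fun h => C.elt_inj ha (by norm_num) (h.trans C.elt_zero.symm), fun h => h ▸ C.elt_zero⟩

theorem bij : Function.Bijective fun a : Fin 59049 => (⟨C.elt a, C.elt_mem a.2⟩ : S) :=
  ⟨fun a b h => Fin.ext (C.elt_inj a.2 b.2 (congrArg Subtype.val h)), fun x => by
    obtain ⟨a, ha, e⟩ := (C.mem x).1 x.2
    exact ⟨⟨a, ha⟩, Subtype.ext e⟩⟩

include C in
theorem finite : Finite S := Finite.of_surjective _ C.bij.2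

include C in
theorem card : Nat.card S = 59049 := by rw [← Nat.card_congr (Equiv.ofBijective _ C.bij), Nat.card_fin]

theorem mul_ok (ha : a < 59049) (hb : b < 59049) :
    mul a b < 59049 ∧ C.elt (mul a b) = C.elt a * C.elt b :=
  ⟨(C.V_iff _).1 (C.V_mul ((C.V_iff a).2 ha) ((C.V_iff b).2 hb)), C.elt_mul ((C.V_iff a).2 ha) ((C.V_iff b).2 hb)⟩

theorem inv_ok (ha : a < 59049) : inv a < 59049 ∧ C.elt (inv a) = (C.elt a)⁻¹ :=
  ⟨(C.V_iff _).1 (C.V_inv ((C.V_iff a).2 ha)), C.elt_inv ((C.V_iff a).2 ha)⟩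

theorem cm_ok (ha : a < 59049) (hb : b < 59049) :
    cm a b < 59049 ∧ C.elt (cm a b) = ⁅C.elt a, C.elt b⁆ := by
  simp only [cm, force_eq]
  obtain ⟨h1, e1⟩ := C.mul_ok ha hb
  obtain ⟨h2, e2⟩ := C.mul_ok hb ha
  obtain ⟨h3, e3⟩ := C.inv_ok h2
  obtain ⟨h4, e4⟩ := C.mul_ok h1 h3
  exact ⟨h4, by rw [e4, e1, e3, e2, commutatorElement_def, mul_inv_rev, ← mul_assoc]⟩

theorem cu_ok (ha : a < 59049) : cu a < 59049 ∧ C.elt (cu a) = C.elt a ^ 3 := by
  simp only [cu, force_eq]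
  obtain ⟨h1, e1⟩ := C.mul_ok ha ha
  obtain ⟨h2, e2⟩ := C.mul_ok h1 ha
  exact ⟨h2, by rw [e2, e1, pow_three']⟩

theorem cj_ok (ha : a < 59049) (hb : b < 59049) (hc : c < 59049) :
    cj a b c < 59049 ∧ C.elt (cj a b c) = C.elt a * C.elt b * C.elt c := by
  simp only [cj, force_eq]
  obtain ⟨h1, e1⟩ := C.mul_ok ha hb
  obtain ⟨h2, e2⟩ := C.mul_ok h1 hc
  exact ⟨h2, by rw [e2, e1]⟩

theorem dl_ok (ha : a < 59049) (hb : b < 59049) :
    dl a (inv a) b < 59049 ∧
      C.elt (dl a (inv a) b) = (C.elt b)⁻¹ * (C.elt a * C.elt b * (C.elt a)⁻¹) := by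
  simp only [dl, force_eq]
  obtain ⟨h1, e1⟩ := C.inv_ok ha
  obtain ⟨h2, e2⟩ := C.cj_ok ha hb h1
  obtain ⟨h3, e3⟩ := C.inv_ok hb
  obtain ⟨h4, e4⟩ := C.mul_ok h3 h2
  exact ⟨h4, by rw [e4, e3, e2, e1]⟩

theorem cmt_iff (ha : a < 59049) (hb : b < 59049) :
    cmt a b = true ↔ C.elt a * C.elt b = C.elt b * C.elt a := by
  rw [cmt, nbeq_iff, ← (C.mul_ok ha hb).2, ← (C.mul_ok hb ha).2]
  exact ⟨congrArg _, C.elt_inj (C.mul_ok ha hb).1 (C.mul_ok hb ha).1⟩

theorem mem_sub (ha : a ∈ L.gens) : C.elt a ∈ C.sub L := subset_closure ⟨a, ha, rfl⟩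

theorem sub_le_iff : C.sub L ≤ H ↔ ∀ g ∈ L.gens, C.elt g ∈ H :=
  ⟨fun h _ hg => h (C.mem_sub hg), fun h => (closure_le _).2 (by rintro _ ⟨g, hg, rfl⟩; exact h g hg)⟩

theorem sub_nil : C.sub .nil = ⊥ := eq_bot_iff.2 (C.sub_le_iff.2 fun _ h => absurd h List.not_mem_nil)

theorem sub_cons (p g i : ℕ) (L : PL) : C.sub (.cons p g i L) = zpowers (C.elt g) ⊔ C.sub L :=
  le_antisymm (C.sub_le_iff.2 (List.forall_mem_cons.2
    ⟨mem_sup_left (mem_zpowers _), fun _ h => mem_sup_right (C.mem_sub h)⟩))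
    (sup_le (zpowers_le.2 (C.mem_sub List.mem_cons_self))
      (C.sub_le_iff.2 fun _ h => C.mem_sub (List.mem_cons_of_mem _ h)))

variable {C}

theorem In.gens (h : C.In L H) (ha : a ∈ L.gens) : a < 59049 ∧ C.elt a ∈ H := h a (both_of_gens ha)

theorem In.sub_le (h : C.In L H) : C.sub L ≤ H := C.sub_le_iff.2 fun _ hg => (h.gens hg).2

theorem In.mono (h : C.In L H) {H' : Subgroup Ω} (hH : H ≤ H') : C.In L H' :=
  fun g hg => ⟨(h g hg).1, hH (h g hg).2⟩

theorem in_cons {p g i : ℕ} : C.In (.cons p g i L) H ↔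
    (g < 59049 ∧ C.elt g ∈ H) ∧ (i < 59049 ∧ C.elt i ∈ H) ∧ C.In L H := by
  show (∀ a ∈ g :: i :: L.both, a < 59049 ∧ C.elt a ∈ H) ↔ _
  rw [List.forall_mem_cons, List.forall_mem_cons, In]

theorem In.nth (h : C.In L H) (j : ℕ) : L.nth j < 59049 ∧ C.elt (L.nth j) ∈ H := by
  induction L generalizing j with
  | nil => exact ⟨(by norm_num : 0 < 59049), C.elt_zero ▸ one_mem H⟩
  | cons p g i L ih =>
    cases j with
    | zero => exact (in_cons.1 h).1
    | succ j => exact ih (in_cons.1 h).2.2 j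

theorem In.sift (h : C.In L H) (ha : a < 59049) :
    L.sift a < 59049 ∧ (C.elt a)⁻¹ * C.elt (L.sift a) ∈ H := by
  induction L generalizing a with
  | nil => exact ⟨ha, (inv_mul_cancel (C.elt a)).symm ▸ one_mem H⟩
  | cons p g i L ih =>
    obtain ⟨hg, hi, h⟩ := in_cons.1 h
    have k : ∀ b, b < 59049 ∧ C.elt b ∈ H →
        L.sift (mul a b) < 59049 ∧ (C.elt a)⁻¹ * C.elt (L.sift (mul a b)) ∈ H := fun b hb => by
      obtain ⟨h1, e1⟩ := C.mul_ok ha hb.1
      obtain ⟨h2, e2⟩ := ih h h1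
      rw [e1, mul_inv_rev, mul_assoc] at e2
      exact ⟨h2, (mul_mem_cancel_left (inv_mem hb.2)).1 e2⟩
    rw [sift_cons]
    split_ifs
    exacts [ih h ha, k i hi, k g hg, ⟨ha, (inv_mul_cancel (C.elt a)).symm ▸ one_mem H⟩]

theorem In.has (h : C.In L H) (ha : a < 59049) (h1 : L.has a = true) : C.elt a ∈ H := by
  have := (h.sift ha).2
  rwa [(has_eq L a).1 h1, elt_zero, mul_one, inv_mem_iff] at this

variable (C)

theorem inv_of {p g i : ℕ} (h : (PL.cons p g i L).closed = true) :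
    g < 59049 ∧ i < 59049 ∧ C.elt i = (C.elt g)⁻¹ := by
  have h1 := closed_iff.1 h
  have h2 := le_of h
  have hg : g < 59049 := by omega
  have hi : i < 59049 := by omega
  exact ⟨hg, hi, eq_inv_of_mul_eq_one_right (by rw [← (C.mul_ok hg hi).2, h1.2.1.1, elt_zero])⟩

theorem in_sub (h : L.closed = true) : C.In L (C.sub L) := by
  induction L with
  | nil => exact fun _ h => absurd h List.not_mem_nil
  | cons p g i L ih =>
    obtain ⟨hg, hi, e⟩ := C.inv_of h
    have h1 : C.elt g ∈ C.sub (.cons p g i L) := C.mem_sub List.mem_cons_self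
    exact in_cons.2 ⟨⟨hg, h1⟩, ⟨hi, e ▸ inv_mem h1⟩,
      (ih (closed_iff.1 h).2.2.2).mono (C.sub_cons p g i L ▸ le_sup_right)⟩

theorem sub_le (h : L.closed = true) : C.sub L ≤ S :=
  C.sub_le_iff.2 fun _ hg => C.elt_mem ((C.in_sub h).gens hg).1

/-- The elements with codes below `3 ^ (t + 1)`. -/
def low {t : ℕ} (ht : t < 10) : Subgroup Ω where
  carrier := {x | ∃ a < 3 * 3 ^ t, C.elt a = x}
  one_mem' := ⟨0, by positivity, C.elt_zero⟩
  mul_mem' := by
    have h : 3 * 3 ^ t ≤ 59049 := by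
      rw [← pow_succ']; exact Nat.pow_le_pow_right (by norm_num) (i := t + 1) (j := 10) ht
    rintro _ _ ⟨a, ha, rfl⟩ ⟨b, hb, rfl⟩
    exact ⟨_, (C.dig t ht a ha b hb).1, (C.mul_ok (ha.trans_le h) (hb.trans_le h)).2⟩
  inv_mem' := by
    have h : 3 * 3 ^ t ≤ 59049 := by
      rw [← pow_succ']; exact Nat.pow_le_pow_right (by norm_num) (i := t + 1) (j := 10) ht
    rintro _ ⟨a, ha, rfl⟩
    obtain ⟨b, e⟩ := Finite.surjective_of_injective
      (f := fun b : Fin (3 * 3 ^ t) => (⟨mul a b, (C.dig t ht a ha b b.2).1⟩ : Fin (3 * 3 ^ t)))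
      (fun b b' e => by
        have := congrArg (fun x : Fin (3 * 3 ^ t) => C.elt x) e
        simp only [(C.mul_ok (ha.trans_le h) (b.2.trans_le h)).2, (C.mul_ok (ha.trans_le h) (b'.2.trans_le h)).2,
          mul_right_inj] at this
        exact Fin.ext (C.elt_inj (b.2.trans_le h) (b'.2.trans_le h) this)) ⟨0, by positivity⟩
    refine ⟨b, b.2, eq_inv_of_mul_eq_one_right ?_⟩
    rw [← (C.mul_ok (ha.trans_le h) (b.2.trans_le h)).2, show mul a b = 0 from congrArg Fin.val e, elt_zero]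

theorem tail_lt {p g i : ℕ} (h : (PL.cons p g i L).closed = true) {x : Ω} (hx : x ∈ C.sub L) :
    ∃ a < p, C.elt a = x := by
  cases L with
  | nil => exact ⟨0, (le_of h).1, by rw [sub_nil, mem_bot] at hx; rw [hx, elt_zero]⟩
  | cons p' g' i' L =>
    have h1 := (closed_iff.1 h).2.2.2
    obtain ⟨t, ht, rfl⟩ := pow_of h1
    obtain ⟨a, ha, e⟩ := (C.sub_le_iff.2 fun g hg => ⟨g, gens_lt h1 g hg, rfl⟩ : _ ≤ C.low ht) hx
    exact ⟨a, ha.trans_le (hd_le h), e⟩

theorem closed_cons_norm {p g i : ℕ} (h : (PL.cons p g i L).closed = true) :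
    C.sub (.cons p g i L) ≤ normalizer (C.sub L : Set Ω) ∧ C.elt g ^ 3 ∈ C.sub L := by
  have h1 := closed_iff.1 h
  obtain ⟨hg, hi, e⟩ := C.inv_of h
  have h2 := C.in_sub h1.2.2.2
  have := C.finite
  have : Finite (C.sub L) := Finite.of_injective _ (inclusion_injective (C.sub_le h1.2.2.2))
  refine ⟨?_, (C.cu_ok hg).2 ▸ h2.has (C.cu_ok hg).1 h1.2.1.2⟩
  rw [sub_cons]
  refine sup_le (zpowers_le.2 (inv_mem_iff.1 (mem_normalizer_fintype fun x hx => ?_))) le_normalizer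
  refine (C.sub_le_iff (H := (C.sub L).comap (MulAut.conj (C.elt g)⁻¹).toMonoidHom)).2 (fun a ha => ?_) hx
  obtain ⟨h3, e3⟩ := C.cj_ok hi (h2.gens ha).1 hg
  have := h2.has h3 (h1.2.2.1 a ha)
  rw [e3, e] at this
  simpa using this

/-- The structure of a polycyclic list. -/
theorem closed_cons {p g i : ℕ} (h : (PL.cons p g i L).closed = true) :
    L.closed = true ∧ g < 59049 ∧ i < 59049 ∧ C.elt i = (C.elt g)⁻¹ ∧ C.elt g ∉ C.sub L ∧
      ∀ x ∈ C.sub (.cons p g i L), x ∈ C.sub L ∨ (C.elt g)⁻¹ * x ∈ C.sub L ∨ C.elt g * x ∈ C.sub L := by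
  have h1 := closed_iff.1 h
  obtain ⟨hg, hi, e⟩ := C.inv_of h
  obtain ⟨hn, h3⟩ := C.closed_cons_norm h
  refine ⟨h1.2.2.2, hg, hi, e, fun k => ?_, fun x hx => ?_⟩
  · obtain ⟨a, ha, e⟩ := C.tail_lt h k
    have := C.elt_inj (by omega) hg e
    omega
  · rw [sub_cons] at hx hn
    obtain ⟨_, ⟨n, rfl⟩, y, hy, rfl⟩ := (GT.PG.mem_sup_of_le_normalizer' (le_sup_left.trans hn)).1 hx
    have h4 : C.elt g ^ (3 * (n / 3)) * y ∈ C.sub L := by
      rw [zpow_mul]
      exact mul_mem (zpow_mem (by exact_mod_cast h3) _) hy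
    rw [← Int.emod_add_mul_ediv n 3]
    rcases (by omega : n % 3 = 0 ∨ n % 3 = 1 ∨ n % 3 = 2) with k | k | k <;> simp only [k, zpow_add, mul_assoc]
    · exact .inl (by simpa using h4)
    · exact .inr (.inl (by simpa using h4))
    · refine .inr (.inr ?_)
      rw [← mul_assoc, ← zpow_one_add]
      exact mul_mem (by exact_mod_cast h3) h4

theorem has_iff (h : L.closed = true) (ha : a < 59049) : L.has a = true ↔ C.elt a ∈ C.sub L := by
  refine ⟨(C.in_sub h).has ha, fun hx => ?_⟩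
  rw [has_eq]
  induction L generalizing a with
  | nil =>
    rw [sub_nil, mem_bot] at hx
    exact (C.elt_eq_one ha).1 hx
  | cons p g i L ih =>
    obtain ⟨hL, hg, hi, e, -, h2⟩ := C.closed_cons h
    have hn := (C.closed_cons_norm h).1 (C.mem_sub List.mem_cons_self)
    have h1 := (closed_iff.1 h).1
    have h3 := le_of h
    have k : ∀ c d, c < 3 * p → d < 59049 → C.elt c * C.elt d = 1 → C.elt a * C.elt d ∈ C.sub L →
        a / p = (c / p) % 3 ∧ L.sift (mul a d) = 0 := fun c d hc hd e1 e2 => by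
      refine ⟨?_, ih hL (C.mul_ok ha hd).1 ((C.mul_ok ha hd).2 ▸ e2)⟩
      obtain ⟨b, hb, e3⟩ := C.tail_lt h e2
      obtain ⟨t, ht, rfl⟩ := pow_of h
      obtain ⟨h4, e4⟩ := C.mul_ok (a := b) (b := c) (by omega) (by omega)
      rw [C.elt_inj ha h4 (by rw [e4, e3, mul_assoc, mul_eq_one_comm.1 e1, mul_one]),
        (C.dig t ht b (by omega) c hc).2, Nat.div_eq_of_lt hb, zero_add]
    have l : ∀ c n, c / p = n ↔ n * p ≤ c ∧ c < (n + 1) * p := fun c n => by
      rw [Nat.div_eq_iff h3.1, add_mul]; omega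
    rw [sift_cons]
    rcases h2 _ hx with hx | hx | hx
    · obtain ⟨b, hb, e3⟩ := C.tail_lt h hx
      rw [if_pos (C.elt_inj (by omega) ha e3 ▸ hb)]
      exact ih hL ha hx
    · obtain ⟨k1, k2⟩ := k g i (by omega) hi (by rw [e, mul_inv_cancel]) (by
        simpa [e, mul_assoc] using (mem_normalizer_iff.1 hn _).1 hx)
      rw [(l g 1).2 (by omega), l] at k1
      rw [if_neg (by omega), if_pos (by omega), k2]
    · obtain ⟨k1, k2⟩ := k i g (by omega) hg (by rw [e, inv_mul_cancel]) (by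
        simpa [mul_assoc] using (mem_normalizer_iff.1 (inv_mem hn) _).1 hx)
      rw [(l i 2).2 (by omega), l] at k1
      rw [if_neg (by omega), if_neg (by omega), if_pos (by omega), k2]

theorem card_sub (h : L.closed = true) : Nat.card (C.sub L) = 3 ^ L.gens.length := by
  induction L with
  | nil => rw [sub_nil, card_bot]; rfl
  | cons p g i L ih =>
    obtain ⟨hL, -, -, -, h1, -⟩ := C.closed_cons h
    obtain ⟨hn, h3⟩ := C.closed_cons_norm h
    have h2 := GT.PG.relIndex_sup_zpowers Nat.prime_three (hn (C.mem_sub List.mem_cons_self)) h1 h3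
    rw [sub_cons, sup_comm, ← ((C.sub L).subgroupOf _).index_mul_card, ← relIndex, h2,
      Nat.card_congr (subgroupOfEquivOfLe le_sup_left).toEquiv, ih hL, ← pow_succ']
    rfl

end Sy

end Cfsg.Agent.Th3
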