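import Mathlib
import Cfsg.Agent.Th3.PC

/-! Loops over subgroups, building of lists -/

set_option autoImplicit false

namespace Cfsg.Agent.Th3

open Cfsg.Agent.Spor Cfsg.Agent.Rec Cfsg.Agent.Fus Subgroup
open scoped commutatorElement

namespace PC2

theorem prod_cons {p g i : ℕ} {L : PL} {acc t : ℕ} : (PL.cons p g i L).Prod acc t ↔
    L.Prod acc t ∨ L.Prod (mul acc g) t ∨ L.Prod (mul acc i) t := Iff.rfl

theorem allRange_of {len : ℕ} {f : ℕ → Bool} (h : ∀ i < len, f i = true) : allRange 0 len f = true := by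
  have e1 : Nat.shiftRight len 8 = len / 256 := Nat.shiftRight_eq_div_pow len 8
  have e2 : Nat.land len 255 = len % 256 := Nat.and_two_pow_sub_one_eq_mod len 8
  have e3 : ∀ j : ℕ, Nat.shiftLeft j 8 = j * 256 := fun j => Nat.shiftLeft_eq j 8
  delta allRange
  simp only [force_eq, e1, e2, e3, Nat.add_eq]
  rw [(allLt_iff _ _).2 fun i hi => h _ (by omega)]
  exact (allLt_iff _ _).2 fun j hj => (allLt_iff _ _).2 fun i hi => h _ (by omega)

theorem lev_gens : ∀ t ≤ 10, (levL t).gens.length = t ∧ ∀ g ∈ (levL t).gens, g < 3 ^ t := by decide +kernel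

theorem lev_sub : ∀ t ≤ 10, ∀ s ≤ t, ∀ g ∈ (levL s).gens, g ∈ (levL t).gens := by decide +kernel

theorem lev_min (t : ℕ) : levL t = levL (min t 10) := by
  rcases le_total t 10 with h | h
  · rw [min_eq_left h]
  · obtain ⟨n, rfl⟩ := Nat.exists_eq_add_of_le' h
    rw [min_eq_right h]
    exact (levL.eq_def (n + 10)).trans (levL.eq_def 10).symm

end PC2

open PC2

theorem PL.allP_iff (L : PL) (f : ℕ → Bool) (acc : ℕ) :
    L.allP f acc = true ↔ ∀ t, L.Prod acc t → f t = true := by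
  induction L generalizing acc with
  | nil => exact ⟨fun h t (e : t = acc) => e ▸ h, fun h => h acc rfl⟩
  | cons p g i tl ih =>
    show band (tl.allP f acc) (band (force (mul acc g) (tl.allP f)) (force (mul acc i) (tl.allP f))) = true ↔ _
    simp only [band_iff, force_eq, ih, prod_cons, or_imp, forall_and]

namespace Sy

variable {Ω : Type*} [Group Ω] {S : Subgroup Ω} (C : Sy S) {a b c : ℕ} {L K E : PL} {H : Subgroup Ω}

theorem prod_ok (h : C.In L H) {acc t : ℕ} (ha : acc < 59049) (ht : L.Prod acc t) :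
    t < 59049 ∧ (C.elt acc)⁻¹ * C.elt t ∈ H := by
  induction L generalizing acc with
  | nil =>
    obtain rfl : t = acc := ht
    exact ⟨ha, by rw [inv_mul_cancel]; exact one_mem _⟩
  | cons p g i tl ih =>
    obtain ⟨hg, hi, h'⟩ := in_cons.1 h
    have key : ∀ u, u < 59049 ∧ C.elt u ∈ H → tl.Prod (mul acc u) t → t < 59049 ∧ (C.elt acc)⁻¹ * C.elt t ∈ H :=
      fun u hu ht => by
        obtain ⟨h1, h2⟩ := ih h' (C.mul_ok ha hu.1).1 ht
        rw [(C.mul_ok ha hu.1).2, mul_inv_rev, mul_assoc] at h2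
        exact ⟨h1, (mul_mem_cancel_left (inv_mem hu.2)).1 h2⟩
    rcases prod_cons.1 ht with ht | ht | ht
    exacts [ih h' ha ht, key g hg ht, key i hi ht]

theorem exists_prod (h : L.closed = true) {acc : ℕ} (ha : acc < 59049) {x : Ω} (hx : x ∈ C.sub L) :
    ∃ t, L.Prod acc t ∧ C.elt t = C.elt acc * x := by
  induction L generalizing acc x with
  | nil =>
    rw [C.sub_nil, mem_bot] at hx
    exact ⟨acc, rfl, by rw [hx, mul_one]⟩
  | cons p g i tl ih =>
    obtain ⟨h1, hg, hi, e, -, h2⟩ := C.closed_cons h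
    rcases h2 x hx with h3 | h3 | h3
    · exact (ih h1 ha h3).imp fun t ht => ⟨Or.inl ht.1, ht.2⟩
    · exact (ih h1 (C.mul_ok ha hg).1 h3).imp fun t ht => ⟨Or.inr (Or.inl ht.1), by
        rw [ht.2, (C.mul_ok ha hg).2]; group⟩
    · exact (ih h1 (C.mul_ok ha hi).1 h3).imp fun t ht => ⟨Or.inr (Or.inr ht.1), by
        rw [ht.2, (C.mul_ok ha hi).2, e]; group⟩

theorem cov {x : Ω} (hx : x ∈ S) : ∃ a, C.toCod.Rep a x :=
  let ⟨a, ha, e⟩ := (C.mem x).1 hx
  ⟨a, e ▸ C.rep ha⟩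

theorem lists_dom (h : L.closed = true) : C.toCod.Lists L.dom (C.sub L : Set Ω) where
  all f := (L.allP_iff f 0).trans ⟨fun h1 a ha hx => by
    obtain ⟨t, h2, h3⟩ := C.exists_prod h (acc := 0) (by norm_num) hx
    rw [C.elt_zero, one_mul] at h3
    exact C.elt_inj (C.prod_ok (C.in_sub h) (by norm_num) h2).1 ((C.V_iff a).1 ha) h3 ▸ h1 t h2, fun h1 t ht => by
    obtain ⟨h2, h3⟩ := C.prod_ok (C.in_sub h) (by norm_num) ht
    rw [C.elt_zero, inv_one, one_mul] at h3
    exact h1 t ((C.V_iff t).2 h2) h3⟩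
  has a ha := C.has_iff h ((C.V_iff a).1 ha)
  cov _ hx := C.cov (C.sub_le h hx)

theorem mem_lev {t : ℕ} (ht : t ≤ 10) {x : Ω} : x ∈ C.lev t ↔ ∃ a < 3 ^ t, C.elt a = x := by
  classical
  have h1 : (C.lev t : Set Ω) ⊆ ((Finset.range (3 ^ t)).image C.elt : Finset Ω) := fun x hx => by
    rw [Finset.coe_image, Finset.coe_range]
    cases t with
    | zero =>
      refine ⟨0, Nat.one_pos, ?_⟩
      rw [C.elt_zero, mem_bot.1 (C.sub_le_iff.2 (fun g hg => ?_) hx)]
      obtain rfl : g = 0 := by have := (lev_gens 0 ht).2 g hg; omega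
      exact C.elt_zero
    | succ s =>
      rw [pow_succ']
      exact C.sub_le_iff (H := C.low ht) |>.2 (fun g hg => ⟨g, pow_succ' 3 s ▸ (lev_gens _ ht).2 g hg, rfl⟩) hx
  have h2 := Set.eq_of_subset_of_ncard_le h1 (by
    rw [Set.ncard_coe_finset]
    refine Finset.card_image_le.trans (le_of_eq ?_)
    rw [Finset.card_range]
    exact ((C.card_sub (closed_lev t)).trans (by rw [(lev_gens t ht).1])).symm)
  rw [← SetLike.mem_coe, h2, Finset.coe_image, Finset.coe_range]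
  rfl

theorem lev_ten : C.lev 10 = S := Subgroup.ext fun x => (C.mem_lev le_rfl).trans (C.mem x).symm

theorem lev_mono {s t : ℕ} (h : s ≤ t) : C.lev s ≤ C.lev t := C.sub_le_iff.2 fun g hg => C.mem_sub (by
  rw [lev_min] at hg ⊢
  exact lev_sub _ (min_le_right _ _) _ (min_le_min_right _ h) g hg)

theorem lists_lev {t n : ℕ} (ht : t ≤ 10) (hn : n = 3 ^ t) : C.toCod.Lists (levD n) (C.lev t : Set Ω) := by
  have h1 : n ≤ 59049 := hn ▸ Nat.pow_le_pow_right (by norm_num) (j := 10) ht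
  have h2 : ∀ a, C.V a → (a < n ↔ C.elt a ∈ C.lev t) := fun a ha => by
    rw [C.mem_lev ht, ← hn]
    exact ⟨fun h => ⟨a, h, rfl⟩, fun ⟨b, hb, e⟩ => C.elt_inj (hb.trans_le h1) ((C.V_iff a).1 ha) e ▸ hb⟩
  exact ⟨fun f => ⟨fun h a ha hx => allRange_zero h a ((h2 a ha).2 hx), fun h => allRange_of fun a ha =>
    have := (C.V_iff a).2 (ha.trans_le h1)
    h a this ((h2 a this).1 ha)⟩, fun a ha => (blt_iff _ _).trans (h2 a ha),
    fun _ hx => C.cov (C.sub_le (closed_lev t) hx)⟩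

theorem lists_top : C.toCod.Lists (levD 59049) (S : Set Ω) := by
  have := C.lists_lev (t := 10) (n := 59049) le_rfl (by norm_num)
  rwa [C.lev_ten] at this

/-- The entries `i` of the list are the inverses of the entries `g`. -/
def Inv (C : Sy S) : PL → Prop
  | .nil => True
  | .cons _ g i tl => C.elt i = (C.elt g)⁻¹ ∧ Inv C tl

theorem inv_of_closed (h : L.closed = true) : C.Inv L := by
  induction L with
  | nil => trivial
  | cons p g i tl ih => exact ⟨(C.closed_cons h).2.2.2.1, ih (C.closed_cons h).1⟩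

theorem in_sub_of_inv (h : C.In L H) (hi : C.Inv L) : C.In L (C.sub L) := by
  induction L with
  | nil => exact fun _ h => absurd h List.not_mem_nil
  | cons p g i tl ih =>
    obtain ⟨h1, h2, h3⟩ := in_cons.1 h
    have h4 : C.elt g ∈ C.sub (.cons p g i tl) := C.mem_sub List.mem_cons_self
    exact in_cons.2 ⟨⟨h1.1, h4⟩, ⟨h2.1, hi.1 ▸ inv_mem h4⟩, (ih h3 hi.2).mono (C.sub_cons p g i tl ▸ le_sup_right)⟩

theorem snoc_spec {p g i : ℕ} {k : PL → Bool} (hL : C.In L H) (hi : C.Inv L) (hg : g < 59049 ∧ C.elt g ∈ H)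
    (hi' : i < 59049) (e : C.elt i = (C.elt g)⁻¹) (h : L.snoc p g i k = true) :
    ∃ K, C.In K H ∧ C.Inv K ∧ k K = true := by
  induction L generalizing k with
  | nil => exact ⟨.cons p g i .nil, in_cons.2 ⟨hg, ⟨hi', e ▸ inv_mem hg.2⟩, hL⟩, ⟨e, trivial⟩, h⟩
  | cons p' g' i' tl ih =>
    obtain ⟨h1, h2, h3⟩ := in_cons.1 hL
    obtain ⟨K, k1, k2, k3⟩ := ih (k := fun tl => k (.cons p' g' i' tl)) h3 hi.2 h
    exact ⟨_, in_cons.2 ⟨h1, h2, k1⟩, ⟨hi.1, k2⟩, k3⟩

theorem add_spec {k : PL → Bool} (hL : C.In L H) (hi : C.Inv L) (hc : c < 59049 ∧ C.elt c ∈ H)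
    (h : L.add c k = true) : ∃ K, C.In K H ∧ C.Inv K ∧ k K = true := by
  have h : ifLt (L.sift c) (Nat.mul 2 (ld (L.sift c))) (L.snoc (ld (L.sift c)) (L.sift c) (inv (L.sift c)) k)
    (L.snoc (ld (L.sift c)) (inv (L.sift c)) (L.sift c) k) = true := h
  obtain ⟨h1, h2⟩ := hL.sift hc.1
  have h3 := (mul_mem_cancel_left (inv_mem hc.2)).1 h2
  obtain ⟨h4, h5⟩ := C.inv_ok h1
  rw [ifLt_eq] at h
  split_ifs at h
  · exact C.snoc_spec hL hi ⟨h1, h3⟩ h4 h5 h
  · exact C.snoc_spec hL hi ⟨h4, h5 ▸ inv_mem h3⟩ h1 (by rw [h5, inv_inv]) h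

theorem build_spec {ok : PL → ℕ → Bool} {val : PL → ℕ → ℕ}
    (hv : ∀ L d, C.In L H → ok L d = true → val L d < 59049 ∧ C.elt (val L d) ∈ H) {n A : ℕ} {k : PL → Bool}
    (hL : C.In L H) (hi : C.Inv L) (h : build ok val n A L k = true) :
    ∃ K, C.In K H ∧ C.Inv K ∧ k K = true := by
  induction n generalizing A L with
  | zero => exact ⟨L, hL, hi, h⟩
  | succ n ih =>
    have h : ifLt A 1 (k L) (band (ok L (Nat.land A 1048575)) (L.add (val L (Nat.land A 1048575)) fun L' =>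
      build ok val n (Nat.shiftRight A 20) L' k)) = true := h
    rw [ifLt_eq] at h
    split_ifs at h
    · exact ⟨L, hL, hi, h⟩
    · rw [band_iff] at h
      obtain ⟨K, k1, k2, k3⟩ := C.add_spec hL hi (hv _ _ hL h.1) h.2
      exact ih k1 k2 k3

/-- The products of the unmatched entries represent the cosets of `H`. -/
theorem split_spec (hE : E.closed = true) (hK : C.In K H) {k : PL → Bool} (h : E.split K k = true) :
    ∃ B, k B = true ∧ C.In B (C.sub E) ∧ C.Inv B ∧ ∀ acc < 59049, ∀ x ∈ C.sub E,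
      ∃ t, B.Prod acc t ∧ (C.elt t)⁻¹ * (C.elt acc * x) ∈ H := by
  induction E generalizing K k with
  | nil =>
    refine ⟨.nil, h, fun _ h => absurd h List.not_mem_nil, trivial, fun acc _ x hx => ⟨acc, rfl, ?_⟩⟩
    rw [C.sub_nil, mem_bot] at hx
    rw [hx, mul_one, inv_mul_cancel]; exact one_mem _
  | cons p g i tl ih =>
    obtain ⟨h1, hg, hi, e, -, h2⟩ := C.closed_cons hE
    have h3 : C.elt g ∈ C.sub (.cons p g i tl) := C.mem_sub List.mem_cons_self
    have h4 : C.sub tl ≤ C.sub (.cons p g i tl) := C.sub_cons p g i tl ▸ le_sup_right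
    have h : (Bool.rec (tl.split K fun B => k (.cons p g i B)) (band (tl.has (mul (K.nth 0) i)) (tl.split K.tail k))
        (Nat.beq K.hd p) : Bool) = true := by cases K <;> exact h
    cases hb : Nat.beq K.hd p
    · rw [hb] at h
      obtain ⟨B, b1, b2, b3, b4⟩ := ih h1 hK h
      refine ⟨_, b1, in_cons.2 ⟨⟨hg, h3⟩, ⟨hi, e ▸ inv_mem h3⟩, b2.mono h4⟩, ⟨e, b3⟩, fun acc ha x hx => ?_⟩
      rcases h2 x hx with h5 | h5 | h5
      · exact (b4 acc ha x h5).imp fun t ht => ⟨Or.inl ht.1, ht.2⟩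
      · exact (b4 _ (C.mul_ok ha hg).1 _ h5).imp fun t ht => ⟨Or.inr (Or.inl ht.1), by
          simpa only [(C.mul_ok ha hg).2, mul_assoc, mul_inv_cancel_left] using ht.2⟩
      · exact (b4 _ (C.mul_ok ha hi).1 _ h5).imp fun t ht => ⟨Or.inr (Or.inr ht.1), by
          simpa only [(C.mul_ok ha hi).2, e, mul_assoc, inv_mul_cancel_left] using ht.2⟩
    · rw [hb] at h
      obtain ⟨h5, h6⟩ := (band_iff _ _).1 h
      obtain ⟨k1, k2⟩ := hK.nth 0
      rw [C.has_iff h1 (C.mul_ok k1 hi).1, (C.mul_ok k1 hi).2, e] at h5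
      have h7 : C.In K.tail H := by
        cases K with
        | nil => exact hK
        | cons _ _ _ _ => exact (in_cons.1 hK).2.2
      obtain ⟨B, b1, b2, b3, b4⟩ := ih h1 h7 h6
      refine ⟨B, b1, b2.mono h4, b3, fun acc ha x hx => ?_⟩
      have hn := (C.closed_cons_norm hE).1
      have key : ∀ u ∈ H, x * u ∈ C.sub tl → ∃ t, B.Prod acc t ∧ (C.elt t)⁻¹ * (C.elt acc * x) ∈ H := fun u hu h8 =>
        (b4 acc ha _ h8).imp fun t ht => ⟨ht.1, (mul_mem_cancel_right hu).1 (by simpa only [mul_assoc] using ht.2)⟩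
      rcases h2 x hx with h8 | h8 | h8
      · exact b4 acc ha x h8
      · refine key _ (inv_mem k2) ?_
        have := mul_mem ((mem_normalizer_iff.1 (hn h3) _).1 h8) (inv_mem h5)
        rwa [show C.elt g * ((C.elt g)⁻¹ * x) * (C.elt g)⁻¹ * (C.elt (K.nth 0) * (C.elt g)⁻¹)⁻¹ =
          x * (C.elt (K.nth 0))⁻¹ by group] at this
      · refine key _ k2 ?_
        have := (mem_normalizer_iff.1 (hn (inv_mem h3)) _).1 (mul_mem h8 h5)
        rwa [show (C.elt g)⁻¹ * (C.elt g * x * (C.elt (K.nth 0) * (C.elt g)⁻¹)) * (C.elt g)⁻¹⁻¹ =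
          x * C.elt (K.nth 0) by group] at this

end Sy

end Cfsg.Agent.Th3
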