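import Mathlib
import Cfsg.Agent.Th3.PC2

/-!
The named elements and subgroups of a Sylow 3-subgroup of the Thompson group, and the decision procedure `C.fo`.
-/

set_option autoImplicit false

namespace Cfsg.Agent.Th3

open Cfsg.Agent.Spor Cfsg.Agent.Rec Subgroup

/-- Lists. -/
def l1 : PL := .cons 1 1 2 .nil
/-- Lists. -/
def l2 : PL := .cons 3 3 6 l1
/-- Lists. -/
def l3 : PL := .cons 9 9 18 l2
/-- Lists. -/
def l4 : PL := .cons 27 27 54 l3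
/-- Lists. -/
def l5 : PL := .cons 81 81 162 l4
/-- Lists. -/
def l6 : PL := .cons 243 243 488 l5
/-- Lists. -/
def l7 : PL := .cons 729 729 1458 l6
/-- Lists. -/
def l8 : PL := .cons 2187 2187 4379 l7
/-- Lists. -/
def l9 : PL := .cons 6561 6561 13122 l8
/-- Lists. -/
def l10 : PL := .cons 19683 19683 39366 l9

theorem levL_1 : levL 1 = l1 := by rw [levL, l1]
theorem levL_2 : levL 2 = l2 := by rw [levL, levL_1, l2]
theorem levL_3 : levL 3 = l3 := by rw [levL, levL_2, l3]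
theorem levL_4 : levL 4 = l4 := by rw [levL, levL_3, l4]
theorem levL_5 : levL 5 = l5 := by rw [levL, levL_4, l5]
theorem levL_6 : levL 6 = l6 := by rw [levL, levL_5, l6]
theorem levL_7 : levL 7 = l7 := by rw [levL, levL_6, l7]
theorem levL_8 : levL 8 = l8 := by rw [levL, levL_7, l8]
theorem levL_9 : levL 9 = l9 := by rw [levL, levL_8, l9]
theorem levL_10 : levL 10 = l10 := by rw [levL, levL_9, l10]

/-- Lists. -/
def lE2 : PL := .cons 19683 19683 39366 l8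
/-- Lists. -/
def lV3 : PL := .cons 729 729 1458 l5
/-- Lists. -/
def lSS : PL := .cons 2187 2187 4379 l6
/-- Lists. -/
def lY5 : PL := .cons 243 243 488 l4
/-- Lists. -/
def lPP : PL := .cons 6561 6561 13122 (.cons 2187 3888 5657 l5)
/-- Lists. -/
def lZp : PL := .cons 81 117 234 l2
/-- Lists. -/
def lA0 : PL := .cons 6561 6615 13157 (.cons 2187 3897 5646 lZp)
/-- Lists. -/
def lWz : PL := .cons 2187 2916 5868 l6
/-- Lists. -/
def lN2 : PL := .cons 2187 3645 5182 l6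
/-- Lists. -/
def lT1 : PL := .cons 6561 7047 13435 l5
/-- Lists. -/
def lT2 : PL := .cons 6561 9234 17881 l5
/-- Lists. -/
def lT3 : PL := .cons 6561 10935 15478 l5

theorem closed_named : allL [lE2, lV3, lSS, lY5, lPP, lZp, lA0, lWz, lN2, lT1, lT2, lT3] PL.closed = true := by
  decide +kernel

/-- The multiples of `n` below `n * m`. -/
noncomputable def trD (n m : ℕ) : Dom :=
  ⟨fun f => allLt m fun k => force (Nat.mul n k) f, fun a => band (Nat.beq (Nat.mod a n) 0) (blt a (Nat.mul n m))⟩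

theorem split243 : allRange 0 59049 (fun a => force (Nat.mod a 243) fun l =>
    Nat.beq (mul (Nat.sub a l) l) a) = true := by decide +kernel

namespace Sy

variable {Ω : Type*} [Group Ω] {S : Subgroup Ω} (C : Sy S)

/-- Letters. -/
def x : Ω := C.elt 19683
/-- Letters. -/
def y : Ω := C.elt 6561
/-- Letters. -/
def r : Ω := C.elt 2187
/-- Letters. -/
def w : Ω := C.elt 729
/-- Letters. -/
def v : Ω := C.elt 243
/-- Letters. -/
def u3 : Ω := C.elt 81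
/-- Letters. -/
def u2 : Ω := C.elt 27
/-- Letters. -/
def u1 : Ω := C.elt 9
/-- Letters. -/
def z2 : Ω := C.elt 3
/-- Letters. -/
def z1 : Ω := C.elt 1
/-- `y u2²`. -/
def a1 : Ω := C.elt 6615
/-- `r w² v u1`. -/
def a2 : Ω := C.elt 3897
/-- `u3 u2 u1`. -/
def a3 : Ω := C.elt 117
/-- `y v²`. -/
def t1 : Ω := C.elt 7047
/-- `y r v²`. -/
def t2 : Ω := C.elt 9234
/-- `y r²`. -/
def t3 : Ω := C.elt 10935

/-- `⟨y, r, w, v, U⟩ = C_S(z2)`. -/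
def E1 : Subgroup Ω := C.lev 9
/-- `⟨r, w, v, U⟩`. -/
def D : Subgroup Ω := C.lev 8
/-- `⟨w, v, U⟩`. -/
def Cc : Subgroup Ω := C.lev 7
/-- `⟨v, U⟩`. -/
def Z5 : Subgroup Ω := C.lev 6
/-- `⟨u3, u2, u1, z2, z1⟩`. -/
def U : Subgroup Ω := C.lev 5
/-- `⟨u2, u1, z2, z1⟩`. -/
def Z4 : Subgroup Ω := C.lev 4
/-- `⟨u1, z2, z1⟩`. -/
def Z3 : Subgroup Ω := C.lev 3
/-- `⟨z2, z1⟩`. -/
def Z2 : Subgroup Ω := C.lev 2
/-- `⟨z1⟩`. -/
def Z1 : Subgroup Ω := C.lev 1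
/-- `⟨x, D⟩`. -/
def E2 : Subgroup Ω := C.sub lE2
/-- `⟨w, U⟩`. -/
def V3 : Subgroup Ω := C.sub lV3
/-- `⟨r, v, U⟩`. -/
def SS : Subgroup Ω := C.sub lSS
/-- `⟨v, Z4⟩`. -/
def Y5 : Subgroup Ω := C.sub lY5
/-- `⟨y, r w² v, U⟩`. -/
def PP : Subgroup Ω := C.sub lPP
/-- `⟨a3, Z2⟩`. -/
def Zp : Subgroup Ω := C.sub lZp
/-- `⟨a1, a2, a3, Z2⟩`. -/
def A0 : Subgroup Ω := C.sub lA0
/-- `⟨r w, v, U⟩`. -/
def Wz : Subgroup Ω := C.sub lWz
/-- `⟨r w², v, U⟩`. -/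
def N2 : Subgroup Ω := C.sub lN2
/-- `⟨t1, U⟩`. -/
def T1 : Subgroup Ω := C.sub lT1
/-- `⟨t2, U⟩`. -/
def T2 : Subgroup Ω := C.sub lT2
/-- `⟨t3, U⟩`. -/
def T3 : Subgroup Ω := C.sub lT3

/-- The elements whose code is a multiple of `n` below `n * m`. -/
def tr (n m : ℕ) : Set Ω := {g | ∃ k < m, C.elt (n * k) = g}
/-- Representatives of the cosets of `U` in `S`. -/
def RS : Set Ω := C.tr 243 243
/-- Representatives of the cosets of `U` in `E1`. -/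
def R1 : Set Ω := C.tr 243 81

theorem lists_tr {n m : ℕ} (hn : 0 < n) (h : n * m ≤ 59049) : C.toCod.Lists (trD n m) (C.tr n m) := by
  have hlt : ∀ k < m, n * k < 59049 := fun k hk => lt_of_lt_of_le (Nat.mul_lt_mul_of_pos_left hk hn) h
  refine ⟨fun f => ?_, fun a ha => ?_, ?_⟩
  · show allLt m (fun k => force (Nat.mul n k) f) = true ↔ _
    rw [allLt_iff]
    refine ⟨fun h1 a ha ⟨k, hk, e⟩ => ?_, fun h1 k hk => h1 _ ((C.V_iff _).2 (hlt k hk)) ⟨k, hk, rfl⟩⟩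
    rw [← C.elt_inj (hlt k hk) ((C.V_iff a).1 ha) e]
    exact h1 k hk
  · show band (Nat.beq (a % n) 0) (blt a (n * m)) = true ↔ _
    rw [band_iff, nbeq_iff, blt_iff]
    refine ⟨fun ⟨h1, h2⟩ => ?_, fun ⟨k, hk, e⟩ => ?_⟩
    · obtain ⟨k, rfl⟩ := Nat.dvd_of_mod_eq_zero h1
      exact ⟨k, Nat.lt_of_mul_lt_mul_left h2, rfl⟩
    · rw [← C.elt_inj (hlt k hk) ((C.V_iff a).1 ha) e]
      exact ⟨Nat.mul_mod_right n k, Nat.mul_lt_mul_of_pos_left hk hn⟩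
  · rintro _ ⟨k, hk, rfl⟩
    exact ⟨_, C.rep (hlt k hk)⟩

theorem exists_tr {m : ℕ} {a : ℕ} (ha : a < 243 * m) (hm : m ≤ 243) :
    ∃ t ∈ C.tr 243 m, ∃ u ∈ C.U, C.elt a = t * u := by
  have h1 : a < 59049 := by omega
  have h2 := allRange_zero split243 a h1
  rw [force_eq, nbeq_iff] at h2
  have h3 : mul (243 * (a / 243)) (a % 243) = a := by
    rw [show 243 * (a / 243) = a - a % 243 by omega]; exact h2
  refine ⟨_, ⟨a / 243, by omega, rfl⟩, C.elt (a % 243), (C.mem_lev (by norm_num)).2 ⟨_, by omega, rfl⟩, ?_⟩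
  rw [← (C.mul_ok (by omega) (by omega)).2, h3]

theorem exists_RS {g : Ω} (hg : g ∈ S) : ∃ t ∈ C.RS, ∃ u ∈ C.U, g = t * u := by
  obtain ⟨a, ha, rfl⟩ := (C.mem g).1 hg
  exact C.exists_tr (m := 243) ha le_rfl

theorem exists_R1 {g : Ω} (hg : g ∈ C.E1) : ∃ t ∈ C.R1, ∃ u ∈ C.U, g = t * u := by
  obtain ⟨a, ha, rfl⟩ := (C.mem_lev (t := 9) (by norm_num)).1 hg
  exact C.exists_tr (m := 81) ha (by norm_num)

/-- The named sets. -/
abbrev Ks : List (Set Ω) :=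
  [(S : Set Ω), (C.E1 : Set Ω), (C.D : Set Ω), (C.Cc : Set Ω), (C.Z5 : Set Ω), (C.U : Set Ω), (C.Z4 : Set Ω),
    (C.Z3 : Set Ω), (C.Z2 : Set Ω), (C.Z1 : Set Ω), (C.E2 : Set Ω), (C.V3 : Set Ω), (C.SS : Set Ω),
    (C.Y5 : Set Ω), (C.PP : Set Ω), (C.Zp : Set Ω), (C.A0 : Set Ω), (C.Wz : Set Ω), (C.N2 : Set Ω),
    (C.T1 : Set Ω), (C.T2 : Set Ω), (C.T3 : Set Ω), C.RS, C.R1]

/-- The named elements. -/
abbrev es : List Ω :=
  [C.x, C.y, C.r, C.w, C.v, C.u3, C.u2, C.u1, C.z2, C.z1, C.a1, C.a2, C.a3, C.t1, C.t2, C.t3]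

end Sy

/-- The domains of the named sets. -/
noncomputable def Ds : List Dom :=
  [levD 59049, levD 19683, levD 6561, levD 2187, levD 729, levD 243, levD 81, levD 27, levD 9, levD 3, lE2.dom,
    lV3.dom, lSS.dom, lY5.dom, lPP.dom, lZp.dom, lA0.dom, lWz.dom, lN2.dom, lT1.dom, lT2.dom, lT3.dom,
    trD 243 243, trD 243 81]

/-- The codes of the named elements. -/
def cs : List ℕ := [19683, 6561, 2187, 729, 243, 81, 27, 9, 3, 1, 6615, 3897, 117, 7047, 9234, 10935]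

namespace Sy

variable {Ω : Type*} [Group Ω] {S : Subgroup Ω} (C : Sy S)

theorem hK : C.toCod.ListsL Ds C.Ks := by
  have h := (allL_iff _ _).1 closed_named
  simp only [List.forall_mem_cons] at h
  obtain ⟨h1, h2, h3, h4, h5, h6, h7, h8, h9, h10, h11, h12, -⟩ := h
  exact C.lists_top.cons <| (C.lists_lev (t := 9) (by norm_num) rfl).cons <|
    (C.lists_lev (t := 8) (by norm_num) rfl).cons <| (C.lists_lev (t := 7) (by norm_num) rfl).cons <|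
    (C.lists_lev (t := 6) (by norm_num) rfl).cons <| (C.lists_lev (t := 5) (by norm_num) rfl).cons <|
    (C.lists_lev (t := 4) (by norm_num) rfl).cons <| (C.lists_lev (t := 3) (by norm_num) rfl).cons <|
    (C.lists_lev (t := 2) (by norm_num) rfl).cons <| (C.lists_lev (t := 1) (by norm_num) rfl).cons <|
    (C.lists_dom h1).cons <| (C.lists_dom h2).cons <| (C.lists_dom h3).cons <| (C.lists_dom h4).cons <|
    (C.lists_dom h5).cons <| (C.lists_dom h6).cons <| (C.lists_dom h7).cons <| (C.lists_dom h8).cons <|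
    (C.lists_dom h9).cons <| (C.lists_dom h10).cons <| (C.lists_dom h11).cons <| (C.lists_dom h12).cons <|
    (C.lists_tr (by norm_num) (by norm_num)).cons <| (C.lists_tr (by norm_num) (by norm_num)).cons Cod.listsL_nil

theorem he : C.toCod.RepL cs C.es := by
  repeat first | exact Cod.repL_nil | refine Cod.Rep.cons (C.rep (by norm_num)) ?_

/-- The decision procedure: `C.fo (by decide +kernel)`. -/
theorem fo {P : Prop} {p : Fm} [RF C.Ks C.es P p] (hp : p.ev ar Ds cs = true) : P := C.hK.decide C.he hp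

theorem card_lev {t : ℕ} (ht : t ≤ 10) : Nat.card (C.lev t) = 3 ^ t := by
  rw [lev, C.card_sub (closed_lev t)]
  interval_cases t
  · rw [levL]; rfl
  all_goals simp only [levL_1, levL_2, levL_3, levL_4, levL_5, levL_6, levL_7, levL_8, levL_9, levL_10]; rfl

theorem closed_of {L : PL} (h : L ∈ [lE2, lV3, lSS, lY5, lPP, lZp, lA0, lWz, lN2, lT1, lT2, lT3]) :
    L.closed = true := (allL_iff _ _).1 closed_named L h

theorem card_E1 : Nat.card C.E1 = 3 ^ 9 := C.card_lev (by norm_num)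
theorem card_U : Nat.card C.U = 3 ^ 5 := C.card_lev (by norm_num)
theorem card_Z2 : Nat.card C.Z2 = 3 ^ 2 := C.card_lev (by norm_num)
theorem card_Z1 : Nat.card C.Z1 = 3 ^ 1 := C.card_lev (by norm_num)
theorem card_Cc : Nat.card C.Cc = 3 ^ 7 := C.card_lev (by norm_num)
theorem card_E2 : Nat.card C.E2 = 3 ^ 9 := C.card_sub (L := lE2) (closed_of (by simp))
theorem card_PP : Nat.card C.PP = 3 ^ 7 := C.card_sub (L := lPP) (closed_of (by simp))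
theorem card_A0 : Nat.card C.A0 = 3 ^ 5 := C.card_sub (L := lA0) (closed_of (by simp))
theorem card_Zp : Nat.card C.Zp = 3 ^ 3 := C.card_sub (L := lZp) (closed_of (by simp))

theorem lev_le (t : ℕ) : C.lev t ≤ S := C.sub_le (closed_lev t)
theorem E1_le : C.E1 ≤ S := C.lev_le 9
theorem E2_le : C.E2 ≤ S := C.sub_le (L := lE2) (closed_of (by simp))
theorem PP_le : C.PP ≤ S := C.sub_le (L := lPP) (closed_of (by simp))
theorem A0_le : C.A0 ≤ S := C.sub_le (L := lA0) (closed_of (by simp))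

/-- A subgroup containing the listed generators contains the named subgroup. -/
theorem le_iff {H : Subgroup Ω} :
    (S ≤ H ↔ C.x ∈ H ∧ C.E1 ≤ H) ∧ (C.E1 ≤ H ↔ C.y ∈ H ∧ C.D ≤ H) ∧ (C.D ≤ H ↔ C.r ∈ H ∧ C.Cc ≤ H) ∧
    (C.Cc ≤ H ↔ C.w ∈ H ∧ C.Z5 ≤ H) ∧ (C.Z5 ≤ H ↔ C.v ∈ H ∧ C.U ≤ H) ∧ (C.U ≤ H ↔ C.u3 ∈ H ∧ C.Z4 ≤ H) ∧
    (C.Z4 ≤ H ↔ C.u2 ∈ H ∧ C.Z3 ≤ H) ∧ (C.Z3 ≤ H ↔ C.u1 ∈ H ∧ C.Z2 ≤ H) ∧
    (C.Z2 ≤ H ↔ C.z2 ∈ H ∧ C.Z1 ≤ H) ∧ (C.Z1 ≤ H ↔ C.z1 ∈ H) ∧ (C.E2 ≤ H ↔ C.x ∈ H ∧ C.D ≤ H) ∧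
    (C.V3 ≤ H ↔ C.w ∈ H ∧ C.U ≤ H) ∧ (C.SS ≤ H ↔ C.r ∈ H ∧ C.Z5 ≤ H) ∧ (C.Y5 ≤ H ↔ C.v ∈ H ∧ C.Z4 ≤ H) ∧
    (C.Zp ≤ H ↔ C.a3 ∈ H ∧ C.Z2 ≤ H) ∧ (C.A0 ≤ H ↔ C.a1 ∈ H ∧ C.a2 ∈ H ∧ C.Zp ≤ H) := by
  have h : ∀ p g i L, C.sub (.cons p g i L) ≤ H ↔ C.elt g ∈ H ∧ C.sub L ≤ H := fun p g i L => by
    rw [C.sub_cons, sup_le_iff, zpowers_le]
  have hS : S ≤ H ↔ C.lev 10 ≤ H := by rw [C.lev_ten]
  rw [hS]
  simp only [E1, D, Cc, Z5, U, Z4, Z3, Z2, Z1, lev, levL_1, levL_2, levL_3, levL_4, levL_5, levL_6, levL_7, levL_8,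
    levL_9, levL_10]
  refine ⟨h _ _ _ l9, h _ _ _ l8, h _ _ _ l7, h _ _ _ l6, h _ _ _ l5, h _ _ _ l4, h _ _ _ l3, h _ _ _ l2,
    h _ _ _ l1, ?_, h _ _ _ l8, h _ _ _ l5, h _ _ _ l6, h _ _ _ l4, h _ _ _ l2, ?_⟩
  · exact (h 1 1 2 .nil).trans (by rw [C.sub_nil]; exact and_iff_left bot_le)
  · exact (h _ _ _ (.cons 2187 3897 5646 lZp)).trans (and_congr_right' (h _ _ _ lZp))

end Sy

end Cfsg.Agent.Th3
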