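import Mathlib
import Cfsg.Agent.Th3.PC2

/-! Characteristic subgroups -/

set_option autoImplicit false

namespace Cfsg.Agent.Th3

open Cfsg.Agent.Spor Cfsg.Agent.Rec Cfsg.Agent.Fus Subgroup
open scoped commutatorElement

namespace TermA

variable {Ω : Type*} [Group Ω]

/-- The elements normalizing `B` and centralizing `A` modulo `B`. -/
def cmd (A : Set Ω) (B : Subgroup Ω) : Subgroup Ω where
  carrier := {x | x ∈ normalizer (B : Set Ω) ∧ ∀ a ∈ A, ⁅x, a⁆ ∈ B}
  one_mem' := ⟨one_mem _, fun a _ => by simp⟩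
  mul_mem' := fun {x y} hx hy => ⟨mul_mem hx.1 hy.1, fun a ha => by
    have := mul_mem ((mem_normalizer_iff.1 hx.1 _).1 (hy.2 a ha)) (hx.2 a ha)
    convert this using 1
    simp only [commutatorElement_def]; group⟩
  inv_mem' := fun {x} hx => ⟨inv_mem hx.1, fun a ha => by
    have := (mem_normalizer_iff.1 (inv_mem hx.1) _).1 (inv_mem (hx.2 a ha))
    convert this using 1
    simp only [commutatorElement_def]; group⟩

theorem comm_closure {N : Subgroup Ω} {T T' : Set Ω} (hT : T ⊆ normalizer (N : Set Ω))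
    (hT' : T' ⊆ normalizer (N : Set Ω)) (h : ∀ a ∈ T, ∀ b ∈ T', ⁅a, b⁆ ∈ N) :
    ⁅closure T, closure T'⁆ ≤ N := by
  have h1 : closure T ≤ cmd T' N := (closure_le _).2 fun a ha => ⟨hT ha, h a ha⟩
  have h2 : closure T' ≤ cmd (closure T : Subgroup Ω) N := (closure_le _).2 fun b hb =>
    ⟨hT' hb, fun x hx => by rw [← commutatorElement_inv]; exact inv_mem ((h1 hx).2 b hb)⟩
  exact commutator_le.2 fun x hx y hy => by
    rw [← commutatorElement_inv]; exact inv_mem ((h2 hy).2 x hx)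

theorem cube_mul {N : Subgroup Ω} {x y : Ω} (hx : x ∈ normalizer (N : Set Ω))
    (hy : y ∈ normalizer (N : Set Ω)) (h : ⁅x, y⁆ ∈ N) (h1 : x ^ 3 ∈ N) (h2 : y ^ 3 ∈ N) :
    (x * y) ^ 3 ∈ N := by
  let π := QuotientGroup.mk' (N.subgroupOf (normalizer (N : Set Ω)))
  have k : ∀ z : normalizer (N : Set Ω), π z = 1 ↔ (z : Ω) ∈ N := fun z => QuotientGroup.eq_one_iff z
  have e1 : Commute (π ⟨x, hx⟩) (π ⟨y, hy⟩) := by
    rw [← commutatorElement_eq_one_iff_commute, ← map_commutatorElement, k]; exact h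
  have e2 : π (⟨x, hx⟩ ^ 3) = 1 := (k _).2 h1
  have e3 : π (⟨y, hy⟩ ^ 3) = 1 := (k _).2 h2
  refine (k ((⟨x, hx⟩ * ⟨y, hy⟩) ^ 3)).1 ?_
  rw [map_pow] at e2 e3
  rw [map_pow, map_mul, e1.mul_pow, e2, e3, mul_one]

theorem frat_closure {N : Subgroup Ω} {T : Set Ω} (hT : T ⊆ normalizer (N : Set Ω))
    (h : ∀ a ∈ T, ∀ b ∈ T, ⁅a, b⁆ ∈ N) (h3 : ∀ a ∈ T, a ^ 3 ∈ N) {H : Subgroup Ω}
    (hH : H ≤ closure T ⊔ N) : ⁅H, H⁆ ⊔ powerClosure 3 1 H ≤ N := by
  have e : closure T ⊔ N = closure (T ∪ N) := by rw [Subgroup.closure_union, closure_eq]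
  have hn : T ∪ N ⊆ normalizer (N : Set Ω) := Set.union_subset hT le_normalizer
  have k : ∀ a ∈ N, ∀ b ∈ T ∪ N, ⁅a, b⁆ ∈ N := fun a ha b hb => by
    have := mul_mem ha ((mem_normalizer_iff.1 (hn hb) _).1 (inv_mem ha))
    simpa only [commutatorElement_def, mul_assoc] using this
  have h1 : ⁅closure (T ∪ N), closure (T ∪ N)⁆ ≤ N := comm_closure hn hn fun a ha b hb => by
    rcases ha with ha | ha
    · rcases hb with hb | hb
      · exact h a ha b hb
      · rw [← commutatorElement_inv]; exact inv_mem (k b hb a (.inl ha))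
    · exact k a ha b hb
  rw [e] at hH
  refine sup_le ((commutator_mono hH hH).trans h1) (GT.PG.powerClosure_one_le_iff.2 fun x hx => ?_)
  have hx' := hH hx
  clear hx
  induction hx' using closure_induction with
  | mem x hx => exact hx.elim (h3 x) fun hx => pow_mem hx 3
  | one => simp
  | mul x y hx hy ix iy =>
    exact cube_mul ((closure_le _).2 hn hx) ((closure_le _).2 hn hy)
      (h1 (commutator_mem_commutator hx hy)) ix iy
  | inv x _ ix => rw [inv_pow]; exact inv_mem ix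

theorem le_norm {E X : Subgroup Ω} (h : InvA (⊤ : Subgroup (MulAut E)) X) :
    E ≤ normalizer (X : Set Ω) := by
  have k : ∀ g ∈ E, ∀ x ∈ X, g * x * g⁻¹ ∈ X := fun g hg x hx => by
    rw [← totA_cAut (le_normalizer hg) (h.1 hx)]; exact h.2 _ trivial x hx
  intro g hg
  refine mem_normalizer_iff.2 fun x => ⟨k g hg x, fun hx => ?_⟩
  simpa [mul_assoc] using k _ (inv_mem hg) _ hx

theorem invA_cmd {E X Y : Subgroup Ω} (hX : InvA (⊤ : Subgroup (MulAut E)) X)
    (hY : InvA (⊤ : Subgroup (MulAut E)) Y) : InvA (⊤ : Subgroup (MulAut E)) (E ⊓ cmd (X : Set Ω) Y) := by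
  refine ⟨inf_le_left, fun α _ x hx => ⟨totA_mem α hx.1, le_norm hY (totA_mem α hx.1), fun a ha => ?_⟩⟩
  have ha' := hX.2 α⁻¹ trivial a ha
  rw [← totA_totA_inv α (hX.1 ha), ← (mulOn_totA α).map_commutatorElement hx.1 (hX.1 ha')]
  exact hY.2 α trivial _ (hx.2.2 _ ha')

theorem land15 (d : ℕ) : Nat.land d 15 = d % 16 := Nat.and_two_pow_sub_one_eq_mod d 4

theorem valG_cases (E A B L : PL) (d : ℕ) : ∃ i j,
    (d % 16 = 0 → valG E A B L d = cm (A.nth i) (B.nth j)) ∧
    (d % 16 = 1 → valG E A B L d = cm (L.nth i) (E.nth j)) ∧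
    (d % 16 = 2 → valG E A B L d = cu (L.nth i)) ∧ (d % 16 = 3 → valG E A B L d = cu (E.nth i)) := by
  refine ⟨Nat.land (Nat.shiftRight d 4) 15, Nat.land (Nat.shiftRight d 8) 15, ?_, ?_, ?_, ?_⟩ <;> intro h <;>
    simp only [valG, force_eq, ifLt_eq, land15 d, h] <;> simp

theorem up_cons (p g i : ℕ) (tl K : PL) : up (.cons p g i tl) K =
    band (band (K.all fun k => K.has (cj i k g)) (K.has (cu g)))
      (band (tl.all fun h => K.has (cm g h)) (up tl K)) := rfl

theorem terms_cons (E : PL) (w : ℕ) (ws : List ℕ) (env : List PL) (k : List PL → Bool) :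
    terms E (w :: ws) env k = term E env w fun K => terms E ws (K :: env) k := rfl

end TermA

open TermA

namespace Sy

variable {Ω : Type*} [Group Ω] {S : Subgroup Ω} (C : Sy S) {L K E B : PL} {H : Subgroup Ω}

theorem valG_frat (hE : E.closed = true) (hH : ⁅C.sub E, C.sub E⁆ ⊔ powerClosure 3 1 (C.sub E) ≤ H)
    (hHE : H ≤ C.sub E) {d : ℕ} (hL : C.In L H) (hd : d % 16 < 4) :
    valG E E E L d < 59049 ∧ C.elt (valG E E E L d) ∈ H := by
  obtain ⟨i, j, h0, h1, h2, h3⟩ := valG_cases E E E L d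
  have e := C.in_sub hE
  have l := hL.mono hHE
  have k1 : ∀ {a b}, a < 59049 ∧ C.elt a ∈ C.sub E → b < 59049 ∧ C.elt b ∈ C.sub E →
      cm a b < 59049 ∧ C.elt (cm a b) ∈ H := fun ha hb =>
    ⟨(C.cm_ok ha.1 hb.1).1, (C.cm_ok ha.1 hb.1).2 ▸
      hH (mem_sup_left (commutator_mem_commutator ha.2 hb.2))⟩
  have k2 : ∀ {a}, a < 59049 ∧ C.elt a ∈ C.sub E → cu a < 59049 ∧ C.elt (cu a) ∈ H := fun ha =>
    ⟨(C.cu_ok ha.1).1, (C.cu_ok ha.1).2 ▸ hH (mem_sup_right (GT.PG.pow_mem_powerClosure_one ha.2))⟩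
  obtain h | h | h | h : d % 16 = 0 ∨ d % 16 = 1 ∨ d % 16 = 2 ∨ d % 16 = 3 := by omega
  · rw [h0 h]; exact k1 (e.nth i) (e.nth j)
  · rw [h1 h]; exact k1 (l.nth i) (e.nth j)
  · rw [h2 h]; exact k2 (l.nth i)
  · rw [h3 h]; exact k2 (e.nth i)

theorem term_norm (hK : C.In K (C.sub K)) {g i : ℕ} (hg : g < 59049) (hi : i < 59049)
    (e : C.elt i = (C.elt g)⁻¹) (h : (K.all fun k => K.has (cj i k g)) = true) :
    C.elt g ∈ normalizer (C.sub K : Set Ω) := by
  have := C.finite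
  have hle : C.sub K ≤ S := C.sub_le_iff.2 fun a ha => C.elt_mem (hK.gens ha).1
  have : Finite (C.sub K : Set Ω) := Finite.of_injective _ (inclusion_injective hle)
  rw [← inv_mem_iff]
  refine mem_normalizer_fintype fun x hx => ?_
  have : C.sub K ≤ (C.sub K).comap (MulAut.conj (C.elt g)⁻¹).toMonoidHom := C.sub_le_iff.2 fun a ha => by
    have h1 := C.cj_ok hi (hK.gens ha).1 hg
    have h2 := hK.has h1.1 ((K.all_iff _).1 h a ha)
    rw [h1.2, e] at h2
    simpa using h2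
  exact this hx

theorem term_up (hK : C.In K (C.sub K)) (hB : C.In B H) (hi : C.Inv B) (h : up B K = true) :
    ∀ a ∈ B.gens, C.elt a ∈ normalizer (C.sub K : Set Ω) ∧ C.elt a ^ 3 ∈ C.sub K ∧
      ∀ b ∈ B.gens, ⁅C.elt a, C.elt b⁆ ∈ C.sub K := by
  induction B with
  | nil => exact fun _ ha => absurd ha List.not_mem_nil
  | cons p g i tl ih =>
    simp only [up_cons, band_iff] at h
    obtain ⟨⟨h1, h2⟩, h3, h4⟩ := h
    have hg := (hB g List.mem_cons_self).1
    have hi' := (hB i (List.mem_cons_of_mem _ List.mem_cons_self)).1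
    have htl : C.In tl H := fun a ha => hB a (List.mem_cons_of_mem _ (List.mem_cons_of_mem _ ha))
    have ih := ih htl hi.2 h4
    have k : ∀ b ∈ tl.gens, ⁅C.elt g, C.elt b⁆ ∈ C.sub K := fun b hb => by
      have := C.cm_ok hg (htl.gens hb).1
      exact this.2 ▸ hK.has this.1 ((tl.all_iff _).1 h3 b hb)
    intro a ha
    rcases List.mem_cons.1 ha with rfl | ha'
    · refine ⟨C.term_norm hK hg hi' hi.1 h1, (C.cu_ok hg).2 ▸ hK.has (C.cu_ok hg).1 h2, fun b hb => ?_⟩
      rcases List.mem_cons.1 hb with rfl | hb'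
      · simp
      · exact k b hb'
    · refine ⟨(ih a ha').1, (ih a ha').2.1, fun b hb => ?_⟩
      rcases List.mem_cons.1 hb with rfl | hb'
      · rw [← commutatorElement_inv]; exact inv_mem (k a ha')
      · exact (ih a ha').2.2 b hb'

theorem frat_le (hK : C.In K (C.sub K)) (hB : C.In B H) (hi : C.Inv B) (hle : H ≤ C.sub B ⊔ C.sub K)
    (h : up B K = true) : ⁅H, H⁆ ⊔ powerClosure 3 1 H ≤ C.sub K := by
  have k := C.term_up hK hB hi h
  refine frat_closure ?_ ?_ ?_ hle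
  · rintro _ ⟨a, ha, rfl⟩; exact (k a ha).1
  · rintro _ ⟨a, ha, rfl⟩ _ ⟨b, hb, rfl⟩; exact (k a ha).2.2 b hb
  · rintro _ ⟨a, ha, rfl⟩; exact (k a ha).2.1

/-- The list is polycyclic and generates a characteristic subgroup of `C.sub E`. -/
def Chr (E L : PL) : Prop := L.closed = true ∧ InvA (⊤ : Subgroup (MulAut (C.sub E))) (C.sub L)

theorem term_in_nil : C.In .nil H := fun _ h => absurd h List.not_mem_nil

theorem term_nthP {env : List PL} (henv : ∀ L ∈ env, C.Chr E L) (i : ℕ) : C.Chr E (nthP env i) := by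
  induction env generalizing i with
  | nil => exact ⟨rfl, by rw [nthP, nth_nil, C.sub_nil]; exact invA_bot _⟩
  | cons a l ih =>
    cases i with
    | zero => exact henv a (by simp)
    | succ i => exact ih (fun L hL => henv L (by simp [hL])) i

theorem term0 (hE : E.closed = true) {D : ℕ} {k : PL → Bool}
    (h : build okF (valG E E E) 10 D .nil (fun K =>
      band (band K.closed (E.split K fun B => up B K)) (k K)) = true) :
    ∃ K, C.Chr E K ∧ k K = true := by
  have hI : InvA (⊤ : Subgroup (MulAut (C.sub E))) (⁅C.sub E, C.sub E⁆ ⊔ powerClosure 3 1 (C.sub E)) :=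
    ((invA_top _).commutator (invA_top _)).sup ((invA_top _).powerClosure 3 1)
  obtain ⟨K, hK, -, h⟩ := C.build_spec (fun L d hL hd => C.valG_frat hE le_rfl hI.1 hL (by
    simpa only [okF, blt_iff, land15] using hd)) C.term_in_nil trivial h
  simp only [band_iff] at h
  obtain ⟨⟨h1, h2⟩, h3⟩ := h
  obtain ⟨B, u, hB, hi, hx⟩ := C.split_spec hE (C.in_sub h1) h2
  refine ⟨K, ⟨h1, ?_⟩, h3⟩
  rwa [le_antisymm hK.sub_le (C.frat_le (C.in_sub h1) hB hi (fun x hx' => ?_) u)]
  obtain ⟨t, ht, e⟩ := hx 0 (by norm_num) x hx'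
  have := mul_mem_sup (C.prod_ok (C.in_sub_of_inv hB hi) (by norm_num) ht).2 e
  simpa [C.elt_zero] using this

theorem term1 {A : PL} (hE : E.closed = true) (hA : C.Chr E A) (hB : C.Chr E B) {D : ℕ} {k : PL → Bool}
    (h : build okC (valG E A B) 10 D .nil (fun K =>
      band (band (band K.closed (E.all fun e => force (inv e) fun e' => K.all fun x => K.has (cj e' x e)))
        (A.all fun a => B.all fun b => K.has (cm a b))) (k K)) = true) :
    ∃ K, C.Chr E K ∧ k K = true := by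
  have hI := hA.2.commutator hB.2
  have e := C.in_sub hE
  have a := C.in_sub hA.1
  have b := C.in_sub hB.1
  obtain ⟨K, hK, -, h⟩ := C.build_spec (H := ⁅C.sub A, C.sub B⁆) (fun L d hL hd => by
    obtain ⟨i, j, h0, h1, h2, -⟩ := valG_cases E A B L d
    simp only [okC, blt_iff, land15] at hd
    obtain h | h | h : d % 16 = 0 ∨ d % 16 = 1 ∨ d % 16 = 2 := by omega
    · have := C.cm_ok (a.nth i).1 (b.nth j).1
      rw [h0 h, this.2]
      exact ⟨this.1, commutator_mem_commutator (a.nth i).2 (b.nth j).2⟩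
    · have := C.cm_ok (hL.nth i).1 (e.nth j).1
      rw [h1 h, this.2]
      refine ⟨this.1, ?_⟩
      have := mul_mem (hL.nth i).2 ((mem_normalizer_iff.1 (le_norm hI (e.nth j).2) _).1 (inv_mem (hL.nth i).2))
      simpa only [commutatorElement_def, mul_assoc] using this
    · have := C.cu_ok (hL.nth i).1
      rw [h2 h, this.2]
      exact ⟨this.1, pow_mem (hL.nth i).2 3⟩) C.term_in_nil trivial h
  simp only [band_iff, force_eq] at h
  obtain ⟨⟨⟨h1, h2⟩, h3⟩, h4⟩ := h
  have hn : C.sub E ≤ normalizer (C.sub K : Set Ω) := C.sub_le_iff.2 fun g hg =>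
    C.term_norm (C.in_sub h1) (e.gens hg).1 (C.inv_ok (e.gens hg).1).1 (C.inv_ok (e.gens hg).1).2
      ((E.all_iff _).1 h2 g hg)
  refine ⟨K, ⟨h1, ?_⟩, h4⟩
  rwa [le_antisymm hK.sub_le (comm_closure (fun x hx => hn (hA.2.1 (subset_closure hx)))
    (fun x hx => hn (hB.2.1 (subset_closure hx))) ?_)]
  rintro _ ⟨x, hx, rfl⟩ _ ⟨y, hy, rfl⟩
  have := C.cm_ok (a.gens hx).1 (b.gens hy).1
  exact this.2 ▸ (C.in_sub h1).has this.1 ((B.all_iff _).1 ((A.all_iff _).1 h3 x hx) y hy)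

theorem term2 {A : PL} (hE : E.closed = true) (hA : C.Chr E A) (hB : C.Chr E B) {D : ℕ} {k : PL → Bool}
    (h : build (okM E A B) (fun _ c => c) 10 D .nil (fun K =>
      band (band K.closed (E.split K fun B' => B'.allP (fun t => bor (Nat.beq t 0)
        (bneg (A.all fun a => B.has (cm t a)))) 0)) (k K)) = true) :
    ∃ K, C.Chr E K ∧ k K = true := by
  have hI := invA_cmd hA.2 hB.2
  have e := C.in_sub hE
  have a := C.in_sub hA.1
  have b := C.in_sub hB.1
  obtain ⟨K, hK, -, h⟩ := C.build_spec (H := C.sub E ⊓ cmd (C.sub A : Set Ω) (C.sub B)) (fun L c _ hc => by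
    simp only [okM, band_iff, blt_iff] at hc
    obtain ⟨⟨c1, c2⟩, c3⟩ := hc
    have hcE := e.has c1 c2
    refine ⟨c1, hcE, le_norm hB.2 hcE, fun x hx => ?_⟩
    refine comm_closure (T := {C.elt c}) (by simpa using le_norm hB.2 hcE)
      (fun x hx => le_norm hB.2 (hA.2.1 (subset_closure hx))) ?_
      (commutator_mem_commutator (subset_closure rfl) hx)
    rintro _ rfl _ ⟨y, hy, rfl⟩
    have := C.cm_ok c1 (a.gens hy).1
    exact this.2 ▸ b.has this.1 ((A.all_iff _).1 c3 y hy)) C.term_in_nil trivial h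
  simp only [band_iff] at h
  obtain ⟨⟨h1, h2⟩, h3⟩ := h
  obtain ⟨B', u, hB', hi, hx⟩ := C.split_spec hE (C.in_sub h1) h2
  refine ⟨K, ⟨h1, ?_⟩, h3⟩
  rwa [le_antisymm hK.sub_le (fun x hx' => ?_)]
  obtain ⟨t, ht, e1⟩ := hx 0 (by norm_num) x hx'.1
  rw [C.elt_zero, one_mul] at e1
  have t1 := (C.prod_ok hB' (by norm_num) ht).1
  have t2 : C.elt t ∈ C.sub E ⊓ cmd (C.sub A : Set Ω) (C.sub B) := by
    simpa using mul_mem hx' (inv_mem (hK.sub_le e1))
  have := (B'.allP_iff _ _).1 u t ht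
  simp only [bor_iff, nbeq_iff, bneg_iff] at this
  rcases this with rfl | this
  · simpa [C.elt_zero] using e1
  · refine absurd ((A.all_iff _).2 fun y hy => ?_) this
    have := C.cm_ok t1 (a.gens hy).1
    exact (C.has_iff hB.1 this.1).2 (this.2 ▸ t2.2.2 _ (C.mem_sub hy))

theorem term3 {A : PL} (hA : C.Chr E A) {D : ℕ} {k : PL → Bool}
    (h : build (okO A) (fun _ c => c) 10 D .nil (fun K =>
      band (band K.closed (A.allP (fun t => bor (bneg (Nat.beq (cu t) 0)) (K.has t)) 0)) (k K)) = true) :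
    ∃ K, C.Chr E K ∧ k K = true := by
  have hI := hA.2.omegaOne 3
  have a := C.in_sub hA.1
  obtain ⟨K, hK, -, h⟩ := C.build_spec (H := omegaOne 3 (C.sub A)) (fun L c _ hc => by
    simp only [okO, band_iff, blt_iff, nbeq_iff] at hc
    obtain ⟨⟨c1, c2⟩, c3⟩ := hc
    exact ⟨c1, subset_closure ⟨a.has c1 c2, by rw [← (C.cu_ok c1).2, c3, C.elt_zero]⟩⟩)
    C.term_in_nil trivial h
  simp only [band_iff] at h
  obtain ⟨⟨h1, h2⟩, h3⟩ := h
  refine ⟨K, ⟨h1, ?_⟩, h3⟩
  rwa [le_antisymm hK.sub_le ((closure_le _).2 fun x hx => ?_)]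
  obtain ⟨t, ht, e⟩ := C.exists_prod hA.1 (acc := 0) (by norm_num) hx.1
  rw [C.elt_zero, one_mul] at e
  have t1 := (C.prod_ok a (by norm_num) ht).1
  have := (A.allP_iff _ _).1 h2 t ht
  simp only [bor_iff, nbeq_iff, bneg_iff] at this
  rcases this with this | this
  · exact absurd ((C.elt_eq_one (C.cu_ok t1).1).1 (by rw [(C.cu_ok t1).2, e, hx.2])) this
  · exact e ▸ (C.in_sub h1).has t1 this

theorem term_spec (hE : E.closed = true) {w : ℕ} {env : List PL} {k : PL → Bool}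
    (henv : ∀ L ∈ env, C.Chr E L) (h : term E env w k = true) : ∃ K, C.Chr E K ∧ k K = true := by
  rw [term, force_eq, force_eq, force_eq, force_eq, ifLt_eq, ifLt_eq, ifLt_eq] at h
  split_ifs at h
  · exact C.term0 hE h
  · exact C.term1 hE (C.term_nthP henv _) (C.term_nthP henv _) h
  · exact C.term2 hE (C.term_nthP henv _) (C.term_nthP henv _) h
  · exact C.term3 (C.term_nthP henv _) h

theorem terms_spec (hE : E.closed = true) {ws : List ℕ} {env : List PL} {k : List PL → Bool}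
    (henv : ∀ L ∈ env, C.Chr E L) (h : terms E ws env k = true) :
    ∃ env', (∀ L ∈ env', C.Chr E L) ∧ k env' = true := by
  induction ws generalizing env with
  | nil => exact ⟨env, henv, h⟩
  | cons w ws ih =>
    rw [terms_cons] at h
    obtain ⟨K, hK, h⟩ := C.term_spec hE henv h
    exact ih (fun L hL => (List.mem_cons.1 hL).elim (fun e => e ▸ hK) (henv L)) h

end Sy

end Cfsg.Agent.Th3
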