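import Mathlib
import Cfsg.Agent.Th3.Sub
import Cfsg.Agent.Th3.Term

/-! Characteristic subgroups of S -/

set_option autoImplicit false
set_option maxRecDepth 100000
set_option synthInstance.maxSize 100000
set_option synthInstance.maxHeartbeats 400000

namespace Cfsg.Agent.Th3.Sy

open Cfsg.Agent.Spor Cfsg.Agent.Rec Cfsg.Agent.Fus Cfsg.FusionSystem Subgroup
open scoped commutatorElement

theorem k0_lev : ∀ t ≤ 10, ∀ g ∈ l10.gens, g < 59049 ∧ ∀ a ∈ (levL t).gens,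
    a < 59049 ∧ cj g a (inv g) < 3 ^ t := by decide +kernel

variable {Ω : Type*} [Group Ω] {S : Subgroup Ω} (C : Sy S)

theorem le_normalizer_lev (t : ℕ) : S ≤ normalizer (C.lev t : Set Ω) := by
  have := C.finite
  have : Finite (C.lev t) := finite_of_le (C.lev_le t)
  have e : C.lev t = C.lev (min t 10) := by rw [lev, PC2.lev_min]; rfl
  have h10 : S ≤ C.sub l10 := by rw [← levL_10]; exact C.lev_ten.ge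
  refine h10.trans (C.sub_le_iff.2 fun g hg => mem_normalizer_fintype fun x hx => ?_)
  rw [SetLike.mem_coe, e] at hx ⊢
  obtain ⟨h1, h2⟩ := k0_lev _ (min_le_right t 10) g hg
  refine (C.sub_le_iff (H := (C.lev (min t 10)).comap (MulAut.conj (C.elt g)).toMonoidHom)).2 (fun a ha => ?_) hx
  obtain ⟨-, e3⟩ := C.cj_ok h1 (h2 a ha).1 (C.inv_ok h1).1
  rw [(C.inv_ok h1).2] at e3
  exact (C.mem_lev (min_le_right t 10)).2 ⟨_, (h2 a ha).2, e3⟩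

/-- `S` is generated by `x`, `y`, `w`. -/
theorem le_of_gens {H : Subgroup Ω} (hx : C.x ∈ H) (hy : C.y ∈ H) (hw : C.w ∈ H) : S ≤ H := by
  have h : C.r = ⁅C.y⁻¹, C.x⁻¹⁆ ∧ C.v = ⁅C.r⁻¹, C.x⁻¹⁆ ∧ C.u3 = ⁅C.r⁻¹, C.y⁻¹⁆ ∧ C.u2 = ⁅C.u3⁻¹, C.x⁻¹⁆ ∧
      C.u1 = ⁅C.u2⁻¹, C.x⁻¹⁆ ∧ C.z2 = ⁅C.u1⁻¹, C.y⁻¹⁆ ∧ C.z1 = ⁅C.z2⁻¹, C.x⁻¹⁆ := C.fo (by decide +kernel)
  have k : ∀ {a b : Ω}, a ∈ H → b ∈ H → ⁅a⁻¹, b⁻¹⁆ ∈ H := fun ha hb =>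
    mul_mem (mul_mem (mul_mem (inv_mem ha) (inv_mem hb)) (inv_mem (inv_mem ha))) (inv_mem (inv_mem hb))
  obtain ⟨e1, e2, e3, e4, e5, e6, e7⟩ := h
  have hr := e1 ▸ k hy hx
  have h3 := e3 ▸ k hr hy
  have h2 := e4 ▸ k h3 hx
  have h1 := e5 ▸ k h2 hx
  have z2 := e6 ▸ k h1 hy
  obtain ⟨a1, a2, a3, a4, a5, a6, a7, a8, a9, a10, -⟩ := C.le_iff (H := H)
  exact a1.2 ⟨hx, a2.2 ⟨hy, a3.2 ⟨hr, a4.2 ⟨hw, a5.2 ⟨e2 ▸ k hr hx, a6.2 ⟨h3, a7.2 ⟨h2, a8.2 ⟨h1,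
    a9.2 ⟨z2, a10.2 (e7 ▸ k z2 hx)⟩⟩⟩⟩⟩⟩⟩⟩⟩

theorem gens_mem : C.x ∈ S ∧ C.y ∈ S ∧ C.w ∈ S := C.fo (by decide +kernel)

theorem mem_Z1 {z : Ω} : z ∈ C.Z1 ↔ z = 1 ∨ z = C.z1 ∨ z = C.z1⁻¹ := by
  have h : (∀ z ∈ C.Z1, z = 1 ∨ z = C.z1 ∨ z = C.z1⁻¹) ∧ C.z1 ∈ C.Z1 := C.fo (by decide +kernel)
  refine ⟨h.1 z, ?_⟩
  rintro (rfl | rfl | rfl)
  exacts [one_mem _, h.2, inv_mem h.2]

/-- If the generators centralize level `s` modulo level `t`, then so does `S`. -/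
theorem lev_le_cmd {s t : ℕ} (h : ∀ z ∈ C.lev s, ⁅C.x, z⁆ ∈ C.lev t ∧ ⁅C.y, z⁆ ∈ C.lev t ∧ ⁅C.w, z⁆ ∈ C.lev t) :
    C.lev s ≤ TermA.cmd (S : Set Ω) (C.lev t) := fun z hz => by
  have n := C.le_normalizer_lev t
  obtain ⟨h1, h2, h3⟩ := C.gens_mem
  refine ⟨n (C.lev_le s hz), fun a ha => ?_⟩
  rw [← commutatorElement_inv]
  exact inv_mem ((C.le_of_gens (H := TermA.cmd (C.lev s : Set Ω) (C.lev t)) ⟨n h1, fun z hz => (h z hz).1⟩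
    ⟨n h2, fun z hz => (h z hz).2.1⟩ ⟨n h3, fun z hz => (h z hz).2.2⟩ ha).2 z hz)

theorem cmd_Z1 : S ⊓ TermA.cmd (S : Set Ω) C.Z1 = C.Z2 := by
  have h1 : ∀ z ∈ C.Z2, ⁅C.x, z⁆ ∈ C.Z1 ∧ ⁅C.y, z⁆ ∈ C.Z1 ∧ ⁅C.w, z⁆ ∈ C.Z1 := C.fo (by decide +kernel)
  have h2 : ∀ z ∈ C.U, ⁅C.x, z⁆ ∈ C.Z4 ∧ ⁅C.y, z⁆ ∈ C.Z4 ∧ ⁅C.w, z⁆ ∈ C.Z4 := C.fo (by decide +kernel)
  have h3 : (∀ t ∈ C.RS, ⁅t, C.x⁆ ∈ C.Z4 → ⁅t, C.y⁆ ∈ C.Z4 → ⁅t, C.w⁆ ∈ C.Z4 → t ∈ C.Z5) ∧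
      ∀ t ∈ C.Z5, ⁅t, C.x⁆ ∈ C.Z1 → ⁅t, C.y⁆ ∈ C.Z1 → ⁅t, C.w⁆ ∈ C.Z1 → t ∈ C.Z2 := C.fo (by decide +kernel)
  obtain ⟨g1, g2, g3⟩ := C.gens_mem
  refine le_antisymm (fun g hg => ?_) (le_inf (C.lev_le 2) (C.lev_le_cmd (s := 2) (t := 1) h1))
  obtain ⟨t, ht, u, hu, e⟩ := C.exists_RS hg.1
  have k : g ∈ TermA.cmd (S : Set Ω) (C.lev 4) :=
    ⟨C.le_normalizer_lev 4 hg.1, fun a ha => C.lev_mono (s := 1) (by norm_num) (hg.2.2 a ha)⟩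
  have k2 := (mul_mem_cancel_right (C.lev_le_cmd (s := 5) (t := 4) h2 hu)).1 (e ▸ k)
  have k3 : g ∈ C.Z5 := e ▸ mul_mem (h3.1 t ht (k2.2 _ g1) (k2.2 _ g2) (k2.2 _ g3))
    (C.lev_mono (s := 5) (t := 6) (by norm_num) hu)
  exact h3.2 g k3 (hg.2.2 _ g1) (hg.2.2 _ g2) (hg.2.2 _ g3)

theorem center_S : S ⊓ centralizer (S : Set Ω) = C.Z1 := by
  have h : (∀ z ∈ C.Z2, C.x * z = z * C.x → z ∈ C.Z1) ∧
      ∀ z ∈ C.Z1, z * C.x = C.x * z ∧ z * C.y = C.y * z ∧ z * C.w = C.w * z := C.fo (by decide +kernel)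
  refine le_antisymm (fun g hg => h.1 g (C.cmd_Z1.le ⟨hg.1, C.le_normalizer_lev 1 hg.1, fun a ha => ?_⟩)
    (hg.2 _ C.gens_mem.1)) (le_inf (C.lev_le 1) (le_centralizer_iff.1 ?_))
  · rw [commutatorElement_eq_one_iff_mul_comm.2 (hg.2 a ha).symm]; exact one_mem _
  · exact C.le_of_gens (fun z hz => (h.2 z hz).1) (fun z hz => (h.2 z hz).2.1) fun z hz => (h.2 z hz).2.2

theorem invS_Z1 (A : Subgroup (MulAut S)) : InvA A C.Z1 :=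
  C.center_S ▸ (invA_top A).inf_centralizer (invA_top A)

theorem invS_Z2 (A : Subgroup (MulAut S)) : InvA A C.Z2 :=
  (C.cmd_Z1 ▸ TermA.invA_cmd (invA_top ⊤) (C.invS_Z1 ⊤)).anti le_top

theorem centralizer_Z2 : S ⊓ centralizer (C.Z2 : Set Ω) = C.E1 := by
  have h : (∀ t ∈ C.RS, C.z2 * t = t * C.z2 → t ∈ C.E1) ∧ C.z2 ∈ C.Z2 ∧
      ∀ z ∈ C.Z2, (∀ t ∈ C.R1, z * t = t * z) ∧ ∀ u ∈ C.U, z * u = u * z := C.fo (by decide +kernel)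
  have hU : C.U ≤ centralizer (C.Z2 : Set Ω) := fun u hu z hz => (h.2.2 z hz).2 u hu
  refine le_antisymm (fun g hg => ?_) (le_inf C.E1_le fun g hg => ?_)
  · obtain ⟨t, ht, u, hu, e⟩ := C.exists_RS hg.1
    exact e ▸ mul_mem (h.1 t ht ((mul_mem_cancel_right (hU hu)).1 (e ▸ hg.2) _ h.2.1))
      (C.lev_mono (s := 5) (t := 9) (by norm_num) hu)
  · obtain ⟨t, ht, u, hu, e⟩ := C.exists_R1 hg
    exact e ▸ mul_mem (fun z hz => (h.2.2 z hz).1 t ht) (hU hu)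

theorem invS_E1 (A : Subgroup (MulAut S)) : InvA A C.E1 :=
  C.centralizer_Z2 ▸ (invA_top A).inf_centralizer (C.invS_Z2 A)

theorem relIndex_of_card {N K : Subgroup Ω} {t : ℕ} (h : N ≤ K) (hN : Nat.card N = 3 ^ t)
    (hK : Nat.card K = 3 ^ (t + 1)) : N.relIndex K = 3 := by
  have := card_eq_of_relIndex h
  rw [hN, hK, pow_succ'] at this
  exact (Nat.eq_of_mul_eq_mul_right (by positivity) this).symm

include C in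
theorem card_S : Nat.card S = 3 ^ (9 + 1) := C.card

theorem x_mem : C.x ∈ normalizerIn S C.E1 ∧ C.x ∉ C.E1 :=
  ⟨⟨C.gens_mem.1, C.le_normalizer_lev 9 C.gens_mem.1⟩, C.fo (by decide +kernel)⟩

theorem E1_sup : C.E1 ⊔ zpowers C.x = S :=
  GT.PG.sup_zpowers_eq_of_relIndex_prime Nat.prime_three C.E1_le (relIndex_of_card C.E1_le C.card_E1 C.card_S)
    C.gens_mem.1 C.x_mem.2

theorem le_normalizer_E2 : S ≤ normalizer (C.E2 : Set Ω) := by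
  have := C.finite
  have : Finite C.E2 := finite_of_le C.E2_le
  have h : C.y * C.x * C.y⁻¹ ∈ C.E2 ∧ C.x ∈ C.E2 ∧ C.w ∈ C.E2 ∧ C.D ≤ C.E2 := C.fo (by decide +kernel)
  refine C.le_of_gens (le_normalizer h.2.1) (mem_normalizer_fintype fun g hg => ?_) (le_normalizer h.2.2.1)
  refine (C.le_iff (H := C.E2.comap (MulAut.conj C.y).toMonoidHom)).2.2.2.2.2.2.2.2.2.2.1.2 ⟨h.1, fun d hd => ?_⟩ hg
  exact h.2.2.2 ((mem_normalizer_iff.1 (C.le_normalizer_lev 8 C.gens_mem.2.1) d).1 hd)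

theorem y_mem : C.y ∈ normalizerIn S C.E2 ∧ C.y ∉ C.E2 :=
  ⟨⟨C.gens_mem.2.1, C.le_normalizer_E2 C.gens_mem.2.1⟩, C.fo (by decide +kernel)⟩

theorem E2_sup : C.E2 ⊔ zpowers C.y = S :=
  GT.PG.sup_zpowers_eq_of_relIndex_prime Nat.prime_three C.E2_le (relIndex_of_card C.E2_le C.card_E2 C.card_S)
    C.gens_mem.2.1 C.y_mem.2

/-- Subgroups between two consecutive levels. -/
theorem eq_or_eq_lev {t : ℕ} (ht : t < 10) {X : Subgroup Ω} (h1 : C.lev t ≤ X) (h2 : X ≤ C.lev (t + 1)) :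
    X = C.lev t ∨ X = C.lev (t + 1) :=
  GT.PG.eq_or_eq_of_relIndex_prime Nat.prime_three h1 h2
    (relIndex_of_card (h1.trans h2) (C.card_lev ht.le) (C.card_lev ht))

end Cfsg.Agent.Th3.Sy
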