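import Mathlib
import Cfsg.Agent.Th3.K0

/-! Automorphisms of E1 -/

set_option autoImplicit false
set_option maxRecDepth 100000
set_option synthInstance.maxSize 100000
set_option synthInstance.maxHeartbeats 400000

namespace Cfsg.Agent.Th3.Sy

open Cfsg.Agent.Spor Cfsg.Agent.Rec Cfsg.Agent.Fus Cfsg.FusionSystem Subgroup
open scoped commutatorElement

variable {Ω : Type*} [Group Ω] {S : Subgroup Ω} (C : Sy S)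

namespace K1

theorem cube_aux {e u c : Ω} (h : u * e = c * (e * u)) (h1 : e * c = c * e) (h2 : u * c = c * u) :
    (e * u) ^ 3 = c ^ 3 * (e ^ 3 * u ^ 3) := by
  have h' : ∀ x, u * (e * x) = c * (e * (u * x)) := fun x => by rw [← mul_assoc, h]; simp only [mul_assoc]
  have h1' : ∀ x, e * (c * x) = c * (e * x) := fun x => by rw [← mul_assoc, h1, mul_assoc]
  have h2' : ∀ x, u * (c * x) = c * (u * x) := fun x => by rw [← mul_assoc, h2, mul_assoc]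
  simp only [pow_succ, pow_zero, one_mul, mul_assoc, h', h1', h2']

theorem U_le : C.U ≤ C.E1 := C.lev_mono (s := 5) (t := 9) (by norm_num)

theorem Z2_le : C.Z2 ≤ C.U := C.lev_mono (s := 2) (t := 5) (by norm_num)

theorem nU : C.E1 ≤ normalizer (C.U : Set Ω) := C.E1_le.trans (C.le_normalizer_lev 5)

theorem nZ : C.E1 ≤ normalizer (C.Z2 : Set Ω) := C.E1_le.trans (C.le_normalizer_lev 2)

theorem mems : C.y ∈ C.E1 ∧ C.r ∈ C.E1 ∧ C.w ∈ C.E1 ∧ C.v ∈ C.E1 ∧ C.t1 ∈ C.E1 ∧ C.t2 ∈ C.E1 ∧ C.t3 ∈ C.E1 ∧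
    C.u3 ∈ C.U ∧ C.u2 ∈ C.U ∧ C.u1 ∈ C.U ∧ C.z2 ∈ C.Z2 ∧ C.z1 ∈ C.Z2 ∧ ∀ t ∈ C.R1, t ∈ C.E1 :=
  C.fo (by decide +kernel)

theorem E1_le_of {H : Subgroup Ω} (hy : C.y ∈ H) (hr : C.r ∈ H) (hw : C.w ∈ H) (hv : C.v ∈ H) (hU : C.U ≤ H) :
    C.E1 ≤ H := by
  obtain ⟨-, a2, a3, a4, a5, -⟩ := C.le_iff (H := H)
  exact a2.2 ⟨hy, a3.2 ⟨hr, a4.2 ⟨hw, a5.2 ⟨hv, hU⟩⟩⟩⟩

theorem U_le_of {H : Subgroup Ω} (h3 : C.u3 ∈ H) (h2 : C.u2 ∈ H) (h1 : C.u1 ∈ H) (hZ : C.Z2 ≤ H) : C.U ≤ H := by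
  obtain ⟨-, -, -, -, -, a6, a7, a8, -⟩ := C.le_iff (H := H)
  exact a6.2 ⟨h3, a7.2 ⟨h2, a8.2 ⟨h1, hZ⟩⟩⟩

theorem Z2_comm {z e : Ω} (hz : z ∈ C.Z2) (he : e ∈ C.E1) : z * e = e * z :=
  (mem_inf.1 (C.centralizer_Z2.ge he)).2 z hz

theorem U_comm {a b : Ω} (ha : a ∈ C.U) (hb : b ∈ C.U) : a * b = b * a := by
  have h : ∀ u ∈ C.U, u * C.u3 = C.u3 * u ∧ u * C.u2 = C.u2 * u ∧ u * C.u1 = C.u1 * u := C.fo (by decide +kernel)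
  exact U_le_of C (H := centralizer (C.U : Set Ω)) (fun u hu => (h u hu).1) (fun u hu => (h u hu).2.1)
    (fun u hu => (h u hu).2.2) (fun z hz u hu => (Z2_comm C hz (U_le C hu)).symm) hb a ha

theorem comm_U {u e : Ω} (hu : u ∈ C.U) (he : e ∈ C.E1) : ⁅u, e⁆ ∈ C.Z2 := by
  have h : ∀ t ∈ C.R1, ⁅C.u3, t⁆ ∈ C.Z2 ∧ ⁅C.u2, t⁆ ∈ C.Z2 ∧ ⁅C.u1, t⁆ ∈ C.Z2 := C.fo (by decide +kernel)
  obtain ⟨-, -, -, -, -, -, -, m3, m2, m1, -⟩ := mems C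
  have k : ∀ a ∈ C.U, (∀ t ∈ C.R1, ⁅a, t⁆ ∈ C.Z2) → a ∈ TermA.cmd (C.E1 : Set Ω) C.Z2 := fun a ha h1 =>
    ⟨nZ C (U_le C ha), fun g hg => by
      obtain ⟨t, ht, u, hu, rfl⟩ := C.exists_R1 hg
      have e : ⁅a, t * u⁆ = ⁅a, t⁆ := by
        have := U_comm C ha hu
        simp only [commutatorElement_def, mul_inv_rev, mul_assoc]
        rw [← mul_assoc u, ← mul_assoc (u * a⁻¹), (Commute.inv_right (show Commute u a from this.symm)).eq,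
          mul_inv_cancel_right]
      exact e ▸ h1 t ht⟩
  refine (U_le_of C (k _ m3 fun t ht => (h t ht).1) (k _ m2 fun t ht => (h t ht).2.1)
    (k _ m1 fun t ht => (h t ht).2.2) (fun z hz => ⟨le_normalizer hz, fun g hg => ?_⟩) hu).2 e he
  rw [commutatorElement_eq_one_iff_mul_comm.2 (Z2_comm C hz hg)]
  exact one_mem _

theorem comm_mem {a b : Ω} (ha : a ∈ C.E1) (hb : b ∈ C.E1) : ⁅a, b⁆ ∈ C.U := by
  have h : ∀ t ∈ C.R1, ⁅t, C.y⁆ ∈ C.U ∧ ⁅t, C.r⁆ ∈ C.U ∧ ⁅t, C.w⁆ ∈ C.U ∧ ⁅t, C.v⁆ ∈ C.U := C.fo (by decide +kernel)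
  obtain ⟨m1, m2, m3, m4, -, -, -, -, -, -, -, -, mR⟩ := mems C
  have k : ∀ g ∈ C.E1, (∀ t ∈ C.R1, ⁅t, g⁆ ∈ C.U) → g ∈ TermA.cmd (C.E1 : Set Ω) C.U := fun g hg h1 =>
    ⟨nU C hg, fun e he => by
      obtain ⟨t, ht, u, hu, rfl⟩ := C.exists_R1 he
      have k1 : t ∈ TermA.cmd {g} C.U := ⟨nU C (mR t ht), fun _ e => e ▸ h1 t ht⟩
      have k2 : u ∈ TermA.cmd {g} C.U := ⟨le_normalizer hu, fun _ e => e ▸ Z2_le C (comm_U C hu hg)⟩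
      rw [← commutatorElement_inv]
      exact inv_mem ((mul_mem k1 k2).2 g rfl)⟩
  exact (E1_le_of C (k _ m1 fun t ht => (h t ht).1) (k _ m2 fun t ht => (h t ht).2.1)
    (k _ m3 fun t ht => (h t ht).2.2.1) (k _ m4 fun t ht => (h t ht).2.2.2)
    (fun u hu => ⟨le_normalizer hu, fun g hg => Z2_le C (comm_U C hu hg)⟩) ha).2 b hb

end K1

open K1

theorem comm_E1 : ⁅C.E1, C.E1⁆ = C.U := by
  refine le_antisymm (commutator_le.2 fun a ha b hb => comm_mem C ha hb) ?_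
  have h : (C.z1 = ⁅C.u3, C.w⁆ ∧ C.z2 = ⁅C.r, C.u2⁆) ∧ (∃ a ∈ C.R1, ∃ b ∈ C.R1, ⁅a, b⁆⁻¹ * C.u3 ∈ C.Z2) ∧
      (∃ a ∈ C.R1, ∃ b ∈ C.R1, ⁅a, b⁆⁻¹ * C.u2 ∈ C.Z2) ∧ ∃ a ∈ C.R1, ∃ b ∈ C.R1, ⁅a, b⁆⁻¹ * C.u1 ∈ C.Z2 :=
    C.fo (by decide +kernel)
  obtain ⟨-, m2, m3, -, -, -, -, n3, n2, -, -, -, mR⟩ := mems C
  have hZ : C.Z2 ≤ ⁅C.E1, C.E1⁆ := by
    obtain ⟨-, -, -, -, -, -, -, -, a9, a10, -⟩ := C.le_iff (H := ⁅C.E1, C.E1⁆)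
    exact a9.2 ⟨h.1.2 ▸ commutator_mem_commutator m2 (U_le C n2),
      a10.2 (h.1.1 ▸ commutator_mem_commutator (U_le C n3) m3)⟩
  have k : ∀ u, (∃ a ∈ C.R1, ∃ b ∈ C.R1, ⁅a, b⁆⁻¹ * u ∈ C.Z2) → u ∈ ⁅C.E1, C.E1⁆ := fun u ⟨a, ha, b, hb, e⟩ =>
    (mul_mem_cancel_left (inv_mem (commutator_mem_commutator (mR a ha) (mR b hb)))).1 (hZ e)
  exact U_le_of C (k _ h.2.1) (k _ h.2.2.1) (k _ h.2.2.2) hZ

theorem K1.cube_mul {e u : Ω} (he : e ∈ C.E1) (hu : u ∈ C.U) : (e * u) ^ 3 = e ^ 3 := by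
  have h : ∀ u ∈ C.U, u ^ 3 = 1 := C.fo (by decide +kernel)
  have hc := comm_U C hu he
  rw [cube_aux (c := ⁅u, e⁆) (by simp only [commutatorElement_def]; group) (Z2_comm C hc he).symm
    (Z2_comm C hc (U_le C hu)).symm, h _ (Z2_le C hc), h u hu, one_mul, mul_one]

theorem cube_mem_U {e : Ω} (he : e ∈ C.E1) : e ^ 3 ∈ C.U := by
  have h : ∀ t ∈ C.R1, t ∈ C.E1 ∧ t ^ 3 ∈ C.U := C.fo (by decide +kernel)
  obtain ⟨t, ht, u, hu, rfl⟩ := C.exists_R1 he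
  rw [K1.cube_mul C (h t ht).1 hu]
  exact (h t ht).2

theorem center_E1 : C.E1 ⊓ centralizer (C.E1 : Set Ω) = C.Z2 := by
  have h : (∀ t ∈ C.R1, C.u3 * t = t * C.u3 → C.u2 * t = t * C.u2 → C.u1 * t = t * C.u1 → t ∈ C.U) ∧
      ∀ u ∈ C.U, C.y * u = u * C.y → C.r * u = u * C.r → C.w * u = u * C.w → u ∈ C.Z2 := C.fo (by decide +kernel)
  obtain ⟨m1, m2, m3, -, -, -, -, n3, n2, n1, -⟩ := mems C
  refine le_antisymm (fun g hg => ?_) (le_inf ((Z2_le C).trans (U_le C)) fun z hz g hg => (Z2_comm C hz hg).symm)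
  obtain ⟨h1, h2⟩ := mem_inf.1 hg
  obtain ⟨t, ht, u, hu, e⟩ := C.exists_R1 h1
  have k : t ∈ centralizer (C.U : Set Ω) :=
    (mul_mem_cancel_right (show u ∈ centralizer (C.U : Set Ω) from fun a ha => U_comm C ha hu)).1
      (e ▸ centralizer_le (U_le C) h2)
  exact h.2 g (e ▸ mul_mem (h.1 t ht (k _ n3) (k _ n2) (k _ n1)) hu) (h2 _ m1) (h2 _ m2) (h2 _ m3)

theorem inv1U (A : Subgroup (MulAut C.E1)) : InvA A C.U :=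
  C.comm_E1 ▸ (invA_top A).commutator (invA_top A)

theorem inv1Z2 (A : Subgroup (MulAut C.E1)) : InvA A C.Z2 :=
  C.center_E1 ▸ (invA_top A).inf_centralizer (invA_top A)

theorem cube_mul {e u : Ω} (he : e ∈ C.E1) (hu : u ∈ C.U) : (e * u) ^ 3 = e ^ 3 := K1.cube_mul C he hu

namespace K1

theorem cg_mul {a b a' b' : Ω} (ha : a' ∈ C.E1) (h : a⁻¹ * b ∈ C.U) (h' : a'⁻¹ * b' ∈ C.U) :
    (a * a')⁻¹ * (b * b') ∈ C.U := by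
  have := mul_mem ((mem_normalizer_iff''.1 (nU C ha) _).1 h) h'
  convert this using 1
  group

theorem cg_cube {a b : Ω} (ha : a ∈ C.E1) (h : a⁻¹ * b ∈ C.U) : a ^ 3 = b ^ 3 := by
  rw [← C.cube_mul ha h, mul_inv_cancel_left]

/-- An automorphism fixing the line of `z` fixes the corresponding line of `E1/U`. -/
theorem line (α : MulAut C.E1) {z g : Ω} (hz : z ∈ C.E1) (h : totA α z = z ∨ totA α z = z⁻¹)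
    (hg : g ∈ C.E1 ∧ g ∉ C.U ∧ ∀ u ∈ C.U, ⁅u, g⁆ = 1 ∨ ⁅u, g⁆ = z ∨ ⁅u, g⁆ = z⁻¹)
    (hQ : ∀ t ∈ C.R1, (⁅C.u3, t⁆ = 1 ∨ ⁅C.u3, t⁆ = z ∨ ⁅C.u3, t⁆ = z⁻¹) →
      (⁅C.u2, t⁆ = 1 ∨ ⁅C.u2, t⁆ = z ∨ ⁅C.u2, t⁆ = z⁻¹) → (⁅C.u1, t⁆ = 1 ∨ ⁅C.u1, t⁆ = z ∨ ⁅C.u1, t⁆ = z⁻¹) →
      t ∈ C.U ∨ g⁻¹ * t ∈ C.U ∨ g⁻¹⁻¹ * t ∈ C.U) :
    ∃ s, (s = g ∨ s = g⁻¹) ∧ s ∈ C.E1 ∧ s⁻¹ * totA α g ∈ C.U := by
  obtain ⟨t, ht, u', hu', e⟩ := C.exists_R1 (totA_mem α hg.1)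
  have m := mulOn_totA α
  have k : ∀ u ∈ C.U, ⁅u, t⁆ = 1 ∨ ⁅u, t⁆ = z ∨ ⁅u, t⁆ = z⁻¹ := fun u hu => by
    have hu0 := (C.inv1U ⊤).mem (α := α⁻¹) trivial hu
    have e1 : ⁅u, t⁆ = totA α ⁅totA α⁻¹ u, g⁆ := by
      rw [m.map_commutatorElement (U_le C hu0) hg.1, totA_totA_inv α (U_le C hu), e]
      simp only [commutatorElement_def, mul_inv_rev, mul_assoc]
      rw [← mul_assoc u', ← mul_assoc (u' * u⁻¹), (Commute.inv_right (show Commute u' u from U_comm C hu' hu)).eq,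
        mul_inv_cancel_right]
    rw [e1]
    rcases hg.2.2 _ hu0 with e2 | e2 | e2 <;> rw [e2]
    · exact .inl m.map_one
    · exact .inr h
    · rw [m.map_inv hz]
      exact .inr (h.elim (fun h => .inr (by rw [h])) fun h => .inl (by rw [h, inv_inv]))
  obtain ⟨-, -, -, -, -, -, -, n3, n2, n1, -⟩ := mems C
  rcases hQ t ht (k _ n3) (k _ n2) (k _ n1) with h1 | h1 | h1
  · exact absurd (((C.inv1U ⊤).mem_iff (α := α) trivial hg.1).1 (e ▸ mul_mem h1 hu')) hg.2.1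
  · exact ⟨g, .inl rfl, hg.1, by rw [e, ← mul_assoc]; exact mul_mem h1 hu'⟩
  · exact ⟨g⁻¹, .inr rfl, inv_mem hg.1, by rw [e, ← mul_assoc]; exact mul_mem h1 hu'⟩

theorem signs (α : MulAut C.E1) (h1 : totA α C.z1 = C.z1 ∨ totA α C.z1 = C.z1⁻¹)
    (h2 : totA α C.z2 = C.z2 ∨ totA α C.z2 = C.z2⁻¹)
    (h3 : totA α (C.z2 * C.z1) = C.z2 * C.z1 ∨ totA α (C.z2 * C.z1) = (C.z2 * C.z1)⁻¹)
    (h4 : totA α (C.z2 * C.z1⁻¹) = C.z2 * C.z1⁻¹ ∨ totA α (C.z2 * C.z1⁻¹) = (C.z2 * C.z1⁻¹)⁻¹) :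
    ∃ s1 s2 s3 s4, (s1 = C.t1 ∨ s1 = C.t1⁻¹) ∧ (s2 = C.t2 ∨ s2 = C.t2⁻¹) ∧ (s3 = C.t3 ∨ s3 = C.t3⁻¹) ∧
      (s4 = C.w ∨ s4 = C.w⁻¹) ∧ (s1⁻¹ * totA α C.t1 ∈ C.U ∧ s2⁻¹ * totA α C.t2 ∈ C.U ∧ s3⁻¹ * totA α C.t3 ∈ C.U ∧
      s4⁻¹ * totA α C.w ∈ C.U) ∧ (s1 * s2 * s3) ^ 3 = totA α C.z1 ∧
      (s1 * s1 * s2 * s4) ^ 3 = totA α (C.z2 * C.z1⁻¹) := by
  obtain ⟨-, -, mw, -, m1, m2, m3, -, -, -, n2, n1, -⟩ := mems C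
  replace n1 := U_le C (Z2_le C n1)
  replace n2 := U_le C (Z2_le C n2)
  obtain ⟨s4, a4, b4, c4⟩ := line C α (g := C.w) n1 h1 (C.fo (by decide +kernel)) (C.fo (by decide +kernel))
  obtain ⟨s1, a1, b1, c1⟩ := line C α (g := C.t1) n2 h2 (C.fo (by decide +kernel)) (C.fo (by decide +kernel))
  obtain ⟨s2, a2, b2, c2⟩ := line C α (g := C.t2) (mul_mem n2 n1) h3 (C.fo (by decide +kernel))
    (C.fo (by decide +kernel))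
  obtain ⟨s3, a3, b3, c3⟩ := line C α (g := C.t3) (mul_mem n2 (inv_mem n1)) h4 (C.fo (by decide +kernel))
    (C.fo (by decide +kernel))
  have h : (C.t1 * C.t2 * C.t3) ^ 3 = C.z1 ∧ (C.t1 * C.t1 * C.t2 * C.w) ^ 3 = C.z2 * C.z1⁻¹ :=
    C.fo (by decide +kernel)
  have m := mulOn_totA α
  refine ⟨s1, s2, s3, s4, a1, a2, a3, a4, ⟨c1, c2, c3, c4⟩, ?_, ?_⟩
  · rw [← h.1, m.map_pow (mul_mem (mul_mem m1 m2) m3), m.map_mul (mul_mem m1 m2) m3, m.map_mul m1 m2]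
    exact cg_cube C (mul_mem (mul_mem b1 b2) b3) (cg_mul C b3 (cg_mul C b2 c1 c2) c3)
  · rw [← h.2, m.map_pow (mul_mem (mul_mem (mul_mem m1 m1) m2) mw), m.map_mul (mul_mem (mul_mem m1 m1) m2) mw,
      m.map_mul (mul_mem m1 m1) m2, m.map_mul m1 m1]
    exact cg_cube C (mul_mem (mul_mem (mul_mem b1 b1) b2) b4) (cg_mul C b4 (cg_mul C b2 (cg_mul C b1 c1 c1) c2) c4)

theorem signs3 {s1 s2 s3 : Ω} (a1 : s1 = C.t1 ∨ s1 = C.t1⁻¹) (a2 : s2 = C.t2 ∨ s2 = C.t2⁻¹)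
    (a3 : s3 = C.t3 ∨ s3 = C.t3⁻¹) : ((s1 * s2 * s3) ^ 3 = C.z1 → s1 = C.t1 ∧ s2 = C.t2 ∧ s3 = C.t3) ∧
      ((s1 * s2 * s3) ^ 3 = C.z1⁻¹ → s1 = C.t1⁻¹ ∧ s2 = C.t2⁻¹ ∧ s3 = C.t3⁻¹) := by
  rcases a1 with rfl | rfl <;> rcases a2 with rfl | rfl <;> rcases a3 with rfl | rfl <;>
    exact C.fo (by decide +kernel)

theorem signs4 {s : Ω} (a : s = C.w ∨ s = C.w⁻¹) : ((C.t1 * C.t1 * C.t2 * s) ^ 3 = C.z2 * C.z1⁻¹ → s = C.w) ∧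
    ((C.t1⁻¹ * C.t1⁻¹ * C.t2⁻¹ * s) ^ 3 = C.z2⁻¹ * C.z1⁻¹⁻¹ → s = C.w⁻¹) := by
  rcases a with rfl | rfl <;> exact C.fo (by decide +kernel)

theorem le_of_t {H : Subgroup Ω} (h1 : C.t1 ∈ H) (h2 : C.t2 ∈ H) (h3 : C.t3 ∈ H) (hw : C.w ∈ H) (hU : C.U ≤ H) :
    C.E1 ≤ H := by
  have h : (C.t1 * (C.t1 * C.t2 * C.t3))⁻¹ * C.y ∈ C.U ∧ (C.t1⁻¹ * C.t2)⁻¹ * C.r ∈ C.U ∧
      (C.t1 * C.t2 * C.t3)⁻¹ * C.v ∈ C.U := C.fo (by decide +kernel)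
  have k := mul_mem (mul_mem h1 h2) h3
  exact E1_le_of C ((mul_mem_cancel_left (inv_mem (mul_mem h1 k))).1 (hU h.1))
    ((mul_mem_cancel_left (inv_mem (mul_mem (inv_mem h1) h2))).1 (hU h.2.1)) hw
    ((mul_mem_cancel_left (inv_mem k)).1 (hU h.2.2)) hU

/-- The elements inverted modulo `U`. -/
def axisN (α : MulAut C.E1) : Subgroup Ω where
  carrier := {x | x ∈ C.E1 ∧ x * totA α x ∈ C.U}
  one_mem' := ⟨one_mem _, by rw [(mulOn_totA α).map_one, mul_one]; exact one_mem _⟩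
  mul_mem' := by
    rintro a b ⟨ha, ha'⟩ ⟨hb, hb'⟩
    refine ⟨mul_mem ha hb, ?_⟩
    have h1 := (mem_normalizer_iff.1 (nU C ha) _).1 (comm_mem C hb (totA_mem α ha))
    rw [(mulOn_totA α).map_mul ha hb]
    convert mul_mem (mul_mem h1 ha') hb' using 1
    simp only [commutatorElement_def]; group
  inv_mem' := by
    rintro a ⟨ha, ha'⟩
    refine ⟨inv_mem ha, ?_⟩
    rw [(mulOn_totA α).map_inv ha]
    convert (mem_normalizer_iff''.1 (nU C ha) _).1 (inv_mem ha') using 1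
    group

end K1

theorem scalar_one (α : MulAut C.E1) (h1 : totA α C.z1 = C.z1) (h2 : totA α C.z2 = C.z2) :
    ∀ e ∈ C.E1, e⁻¹ * totA α e ∈ C.U := by
  obtain ⟨-, -, mw, -, m1, m2, m3, -, -, -, n2, n1, -⟩ := mems C
  replace n1 := U_le C (Z2_le C n1)
  replace n2 := U_le C (Z2_le C n2)
  have m := mulOn_totA α
  have h4 : totA α (C.z2 * C.z1⁻¹) = C.z2 * C.z1⁻¹ := by rw [m.map_mul n2 (inv_mem n1), m.map_inv n1, h1, h2]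
  obtain ⟨s1, s2, s3, s4, a1, a2, a3, a4, ⟨c1, c2, c3, c4⟩, e1, e2⟩ :=
    signs C α (.inl h1) (.inl h2) (.inl (by rw [m.map_mul n2 n1, h1, h2])) (.inl h4)
  obtain ⟨rfl, rfl, rfl⟩ := (signs3 C a1 a2 a3).1 (e1.trans h1)
  obtain rfl := (signs4 C a4).1 (e2.trans h4)
  exact fun e he => (le_of_t C (H := axis α C.U (nU C)) ⟨m1, c1⟩ ⟨m2, c2⟩ ⟨m3, c3⟩ ⟨mw, c4⟩
    (fun u hu => ⟨U_le C hu, mul_mem (inv_mem hu) ((C.inv1U ⊤).mem trivial hu)⟩) he).2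

theorem scalar_neg (α : MulAut C.E1) (h1 : totA α C.z1 = C.z1⁻¹) (h2 : totA α C.z2 = C.z2⁻¹) :
    ∀ e ∈ C.E1, e * totA α e ∈ C.U := by
  obtain ⟨-, -, mw, -, m1, m2, m3, -, -, -, n2', n1', -⟩ := mems C
  have n1 := U_le C (Z2_le C n1')
  have n2 := U_le C (Z2_le C n2')
  have m := mulOn_totA α
  have h4 : totA α (C.z2 * C.z1⁻¹) = C.z2⁻¹ * C.z1⁻¹⁻¹ := by rw [m.map_mul n2 (inv_mem n1), m.map_inv n1, h1, h2]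
  obtain ⟨s1, s2, s3, s4, a1, a2, a3, a4, ⟨c1, c2, c3, c4⟩, e1, e2⟩ :=
    signs C α (.inr h1) (.inr h2)
      (.inr (by rw [m.map_mul n2 n1, h1, h2, Z2_comm C n2' n1, mul_inv_rev]))
      (.inr (by rw [h4, Z2_comm C n2' (inv_mem n1), mul_inv_rev]))
  obtain ⟨rfl, rfl, rfl⟩ := (signs3 C a1 a2 a3).2 (e1.trans h1)
  obtain rfl := (signs4 C a4).2 (e2.trans h4)
  rw [inv_inv] at c1 c2 c3 c4
  exact fun e he => (le_of_t C (H := axisN C α) ⟨m1, c1⟩ ⟨m2, c2⟩ ⟨m3, c3⟩ ⟨mw, c4⟩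
    (fun u hu => ⟨U_le C hu, mul_mem hu ((C.inv1U ⊤).mem trivial hu)⟩) he).2

end Cfsg.Agent.Th3.Sy
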