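import Mathlib
import Cfsg.Agent.Th3.K1

/-! The essential subgroup E1 -/

set_option autoImplicit false
set_option maxRecDepth 100000
set_option synthInstance.maxSize 100000
set_option synthInstance.maxHeartbeats 400000

namespace Cfsg.Agent.Th3.Sy

open Cfsg.Agent.Spor Cfsg.Agent.Rec Cfsg.Agent.Fus Cfsg.FusionSystem Subgroup
open scoped commutatorElement

variable {Ω : Type*} [Group Ω] {S : Subgroup Ω} (C : Sy S)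

theorem g1_U_le : C.U ≤ C.Z5 ∧ C.Z5 ≤ C.Cc ∧ C.Cc ≤ C.D ∧ C.D ≤ C.E1 ∧ C.Z4 ≤ C.U ∧ C.Z3 ≤ C.Z4 ∧ C.Z2 ≤ C.Z3 :=
  ⟨C.lev_mono (s := 5) (t := 6) (by norm_num), C.lev_mono (s := 6) (t := 7) (by norm_num),
    C.lev_mono (s := 7) (t := 8) (by norm_num), C.lev_mono (s := 8) (t := 9) (by norm_num),
    C.lev_mono (s := 4) (t := 5) (by norm_num), C.lev_mono (s := 3) (t := 4) (by norm_num),
    C.lev_mono (s := 2) (t := 3) (by norm_num)⟩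

theorem g1_Z5_le : C.Z5 ≤ C.SS ∧ C.Z5 ≤ C.Wz ∧ C.Z5 ≤ C.N2 := C.fo (by decide +kernel)

/-- The commutator with `x` of `t u` for `u ∈ U`. -/
theorem g1_dmod {H : Subgroup Ω} (hH : C.U ≤ H) (t : Ω) {u : Ω} (hu : u ∈ C.U) :
    (t * u)⁻¹ * (C.x * (t * u) * C.x⁻¹) ∈ H ↔ t⁻¹ * (C.x * t * C.x⁻¹) ∈ H := by
  have h1 : C.x * u * C.x⁻¹ ∈ C.U := (mem_normalizer_iff.1 (C.le_normalizer_lev 5 C.gens_mem.1) u).1 hu
  rw [show (t * u)⁻¹ * (C.x * (t * u) * C.x⁻¹) = u⁻¹ * (t⁻¹ * (C.x * t * C.x⁻¹) * (C.x * u * C.x⁻¹)) by group,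
    mul_mem_cancel_left (inv_mem (hH hu)), mul_mem_cancel_right (hH h1)]

theorem g1_fo : ∀ t ∈ C.R1, (t ∈ C.Cc → t⁻¹ * (C.x * t * C.x⁻¹) ∈ C.U) ∧ t⁻¹ * (C.x * t * C.x⁻¹) ∈ C.SS ∧
    (t ∉ C.D → t⁻¹ * (C.x * t * C.x⁻¹) ∉ C.Cc) ∧
    (t ∈ C.D → t ∉ C.Cc → t⁻¹ * (C.x * t * C.x⁻¹) ∈ C.Z5 ∧ t⁻¹ * (C.x * t * C.x⁻¹) ∉ C.U ∧
      (t ∈ C.SS ∨ t ∈ C.Wz ∨ t ∈ C.N2)) ∧ (t ∈ C.SS → t ∈ C.D) ∧
    (t ∈ C.N2 → t ^ 3 ≠ 1 → t ∈ C.Z5) := C.fo (by decide +kernel)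

theorem g1_E1 {e : Ω} (he : e ∈ C.E1) :
    (e ∈ C.Cc → e⁻¹ * (C.x * e * C.x⁻¹) ∈ C.U) ∧ e⁻¹ * (C.x * e * C.x⁻¹) ∈ C.SS ∧
    (e ∉ C.D → e⁻¹ * (C.x * e * C.x⁻¹) ∉ C.Cc) ∧
    (e ∈ C.D → e ∉ C.Cc → e⁻¹ * (C.x * e * C.x⁻¹) ∈ C.Z5 ∧ e⁻¹ * (C.x * e * C.x⁻¹) ∉ C.U ∧
      (e ∈ C.SS ∨ e ∈ C.Wz ∨ e ∈ C.N2)) ∧ (e ∈ C.SS → e ∈ C.D) ∧
    (e ∈ C.N2 → e ^ 3 ≠ 1 → e ∈ C.Z5) := by
  obtain ⟨t, ht, u, hu, rfl⟩ := C.exists_R1 he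
  obtain ⟨a1, a2, a3, a4, -⟩ := C.g1_U_le
  obtain ⟨b1, b2, b3⟩ := C.g1_Z5_le
  have ht' : t ∈ C.E1 := (mul_mem_cancel_right (a4 (a3 (a2 (a1 hu))))).1 he
  rw [C.g1_dmod le_rfl t hu, C.g1_dmod (a1.trans b1) t hu, C.g1_dmod (a1.trans a2) t hu, C.g1_dmod a1 t hu,
    mul_mem_cancel_right (a2 (a1 hu)), mul_mem_cancel_right (a3 (a2 (a1 hu))), mul_mem_cancel_right (b1 (a1 hu)),
    mul_mem_cancel_right (b2 (a1 hu)), mul_mem_cancel_right (b3 (a1 hu)), mul_mem_cancel_right (a1 hu),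
    C.cube_mul ht' hu]
  exact C.g1_fo t ht

theorem g1_U : ∀ e ∈ C.U, (e ∉ C.Z4 → e⁻¹ * (C.x * e * C.x⁻¹) ∈ C.Z4 ∧ e⁻¹ * (C.x * e * C.x⁻¹) ∉ C.Z3) ∧
    (e ∈ C.Z4 → e ∉ C.Z3 → e⁻¹ * (C.x * e * C.x⁻¹) ∈ C.Z3 ∧ e⁻¹ * (C.x * e * C.x⁻¹) ∉ C.Z2) :=
  C.fo (by decide +kernel)

theorem g1_misc : C.z1 ∈ C.Z1 ∧ C.z1 ∈ C.Z2 ∧ C.z2 ∈ C.Z2 ∧ C.z1 ≠ 1 ∧ C.v ∈ C.Z5 ∧ C.v ∉ C.U ∧ C.v ^ 3 ≠ 1 ∧
    C.w ∈ C.E1 ∧ C.w ∉ C.Wz ∧ C.y ∈ C.E1 ∧ C.u1 ∈ C.Z3 ∧ C.u1 * C.y ≠ C.y * C.u1 ∧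
    ∀ z ∈ C.Z4, z * C.w = C.w * z ∧ z * C.u3 = C.u3 * z ∧ z * C.u2 = C.u2 * z ∧ z * C.u1 = C.u1 * z ∧
      z * C.z2 = C.z2 * z ∧ z * C.z1 = C.z1 * z := C.fo (by decide +kernel)

theorem g1_U_cent : C.U ≤ centralizer (C.Z4 : Set Ω) := by
  have h := C.g1_misc.2.2.2.2.2.2.2.2.2.2.2.2
  obtain ⟨-, -, -, -, -, a6, a7, a8, a9, a10, -⟩ := C.le_iff (H := centralizer (C.Z4 : Set Ω))
  exact a6.2 ⟨fun z hz => (h z hz).2.1, a7.2 ⟨fun z hz => (h z hz).2.2.1, a8.2 ⟨fun z hz => (h z hz).2.2.2.1,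
    a9.2 ⟨fun z hz => (h z hz).2.2.2.2.1, a10.2 fun z hz => (h z hz).2.2.2.2.2⟩⟩⟩⟩

/-- A subgroup containing level `t` and an element of level `t + 1` outside level `t` contains level `t + 1`. -/
theorem g1_lev_le {t : ℕ} (ht : t < 10) {X : Subgroup Ω} (h : C.lev t ≤ X) {e : Ω} (heX : e ∈ X)
    (he : e ∈ C.lev (t + 1)) (he' : e ∉ C.lev t) : C.lev (t + 1) ≤ X := by
  rcases C.eq_or_eq_lev ht (le_inf h (C.lev_mono (Nat.le_succ t))) (inf_le_right (a := X)) with k | k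
  · exact absurd (k.le ⟨heX, he⟩) he'
  · exact k.ge.trans inf_le_left

theorem g1_SS_le {X : Subgroup Ω} (h : C.Z5 ≤ X) {e : Ω} (heX : e ∈ X) (he : e ∈ C.SS) (he' : e ∉ C.Z5) :
    C.SS ≤ X := by
  have c1 : Nat.card C.Z5 = 3 ^ 6 := C.card_lev (by norm_num)
  have c2 : Nat.card C.SS = 3 ^ (6 + 1) := C.card_sub (L := lSS) (closed_of (by simp))
  rcases GT.PG.eq_or_eq_of_relIndex_prime Nat.prime_three (le_inf h C.g1_Z5_le.1) (inf_le_right (a := X))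
    (relIndex_of_card C.g1_Z5_le.1 c1 c2) with k | k
  · exact absurd (k.le ⟨heX, he⟩) he'
  · exact k.ge.trans inf_le_left

/-- An automorphism acting as `-1` on the coordinates of `Z2` inverts it. -/
theorem g1_neg {Γ : Subgroup (MulAut C.E1)} {u γ : MulAut C.E1} {c : Ω → Fin 2 → ZMod 3}
    (h : SL2Sec Γ u C.Z2 ⊥ c) (hγ : γ ∈ Γ) (ha : Acts C.Z2 c γ (-1)) {z : Ω} (hz : z ∈ C.Z2) : totA γ z = z⁻¹ := by
  have e : c (totA γ z) = c z⁻¹ := by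
    rw [ha z hz, h.toCoord.map_inv hz, Matrix.neg_mulVec, Matrix.one_mulVec]
  exact inv_mul_eq_one.1 (mem_bot.1 ((h.toCoord.eq_iff (h.invX.mem hγ hz) (inv_mem hz)).1 e))

variable [Finite S] [Fact (Nat.Prime 3)] {F : FusionSystem S} (hS : IsPGroup 3 S) (hF : F.IsSaturated 3)
include hS hF

theorem sec1 (hE : F.IsEssential 3 C.E1) :
    ∃ c : Ω → Fin 2 → ZMod 3, SL2Sec (F.autGroup C.E1) (cAut C.E1 C.x) C.Z2 ⊥ c := by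
  have := finite_of_le C.E1_le
  obtain ⟨a1, a2, a3, a4, -⟩ := C.g1_U_le
  have hU : C.U ≤ C.E1 := a1.trans (a2.trans (a3.trans a4))
  obtain ⟨-, z1, z2, -⟩ := C.g1_misc
  obtain ⟨⟨c, hc⟩, -⟩ := hE.exists_sl2Sec hF hS (K := ⊤) (fun _ _ _ _ => mem_top _) (C.inv1Z2 _) (invA_bot _)
    bot_le (by rw [normalizer_eq_top]; exact le_top) (by rw [relIndex_bot_left, C.card_Z2])
    (fun α _ _ hco h => by
      have k := C.scalar_one α (inv_mul_eq_one.1 (mem_bot.1 (h _ z1))).symm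
        (inv_mul_eq_one.1 (mem_bot.1 (h _ z2))).symm
      exact eq_one_of_chain3b (hS.to_le C.E1_le) hU le_rfl le_rfl (C.comm_E1.ge.trans le_sup_left) hco k
        (fun x hx => k x (hU hx)) fun x hx => k x (hU hx))
    C.x_mem.1 C.x_mem.2 (mem_top _)
  rw [top_inf_eq] at hc
  exact ⟨c, hc⟩

theorem beta1 (hE : F.IsEssential 3 C.E1) :
    ∃ β ∈ F.autGroup S, totA β C.z1 = C.z1⁻¹ ∧ totA β C.z2 = C.z2⁻¹ := by
  obtain ⟨c, hc⟩ := C.sec1 hS hF hE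
  obtain ⟨-, z1, z2, -⟩ := C.g1_misc
  obtain ⟨γ, -, hγ, -, ha, β, hβ, -, e, -⟩ := hc.exists_torus_ext (hE.receptive hF hS) hE.isCentric le_rfl
    C.x_mem.1 (K := ⊤) (fun _ _ => mem_top _) (l := -1) (neg_ne_zero.2 one_ne_zero)
  have em : (!![-1, 0; 0, (-1)⁻¹] : Matrix (Fin 2) (Fin 2) (ZMod 3)) = -1 := by
    rw [inv_neg_one]
    ext i j
    fin_cases i <;> fin_cases j <;> simp
  rw [em] at ha
  have k : ∀ T : Subgroup Ω, T = S → ∀ β ∈ F.autGroup T, ∃ β' ∈ F.autGroup S, totA β' = totA β := by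
    rintro T rfl β hβ
    exact ⟨β, hβ, rfl⟩
  obtain ⟨β', hβ', e'⟩ := k _ C.E1_sup β hβ
  refine ⟨β', hβ', ?_, ?_⟩
  · rw [e', e _ (hc.invX.le z1), C.g1_neg hc hγ ha z1]
  · rw [e', e _ (hc.invX.le z2), C.g1_neg hc hγ ha z2]

theorem inv1_Z2 (hE : F.IsEssential 3 C.E1) {X : Subgroup Ω} (hX : InvA (F.autGroup C.E1) X)
    (h : C.Z1 ≤ X) : C.Z2 ≤ X := by
  obtain ⟨c, hc⟩ := C.sec1 hS hF hE
  obtain ⟨z0, z1, -, z3, -⟩ := C.g1_misc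
  simpa using hc.le_sup_of_inv (L := X) (fun γ hγ x hx _ => hX.mem hγ hx) (h z0) z1 fun k => z3 (mem_bot.1 k)

theorem g1_step (hE : F.IsEssential 3 C.E1) {M N : Subgroup Ω} (hM : InvA (F.autGroup C.E1) M)
    (hN : InvA (F.autGroup C.E1) N) (hMN : M ≤ N) (hU : C.U ≤ M)
    (h : ∀ n ∈ N, n⁻¹ * (C.x * n * C.x⁻¹) ∈ M) : N ≤ M := by
  have := finite_of_le C.E1_le
  obtain ⟨c, hc⟩ := C.sec1 hS hF hE
  obtain ⟨-, z1, z2, -⟩ := C.g1_misc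
  have hx : cAut C.E1 C.x ∈ secStab C.E1 N M := mem_secStab_of hN.le hMN fun n hn => by
    rw [totA_cAut C.x_mem.1.2 (hN.le hn)]; exact h n hn
  obtain ⟨γ, hK, hγ, ha⟩ := hc.surj_sl (secStab C.E1 N M)
    (fun g hg => conj_mem_secStab hx (hN.le_stabA hg) (hM.le_stabA hg)) (-1)
  have ha' : Acts C.Z2 c γ (-1) := by simpa using ha
  intro n hn
  have k1 := hU (C.scalar_neg γ (C.g1_neg hc hγ ha' z1) (C.g1_neg hc hγ ha' z2) n (hN.le hn))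
  have k2 := (mem_secStab.1 hK).2 n hn (hN.le hn)
  have k3 := mul_mem (hU (C.cube_mem_U (hN.le hn))) (inv_mem (mul_mem k1 (inv_mem k2)))
  rwa [show n ^ 3 * (n * totA γ n * (n⁻¹ * totA γ n)⁻¹)⁻¹ = n by group] at k3

theorem g1_Cc (hE : F.IsEssential 3 C.E1) {X : Subgroup Ω} (hX : InvA (F.autGroup C.E1) X)
    (h : C.U ≤ X) (h' : X ≤ C.Cc) : X ≤ C.U :=
  C.g1_step hS hF hE (C.inv1U _) hX h le_rfl fun _ hn => (C.g1_E1 (hX.le hn)).1 (h' hn)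

theorem inv1_E1 (hE : F.IsEssential 3 C.E1) {X : Subgroup Ω} (hX : InvA (F.autGroup C.E1) X)
    (h : C.U ≤ X) : X ≤ C.Wz ∨ X = C.E1 := by
  obtain ⟨a1, a2, a3, a4, -⟩ := C.g1_U_le
  obtain ⟨b1, b2, b3⟩ := C.g1_Z5_le
  by_cases h1 : X ≤ C.Cc
  · exact Or.inl ((C.g1_Cc hS hF hE hX h h1).trans (a1.trans b2))
  by_cases h2 : C.SS ≤ X
  · exact Or.inr (le_antisymm hX.le
      (C.g1_step hS hF hE hX (invA_top _) hX.le h fun _ hn => h2 (C.g1_E1 hn).2.1))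
  have hd : ∀ e ∈ X, e⁻¹ * (C.x * e * C.x⁻¹) ∈ X := fun e he =>
    mul_mem (inv_mem he) (hX.conj_mem C.E1_le C.x_mem.1 he)
  have h5' : ∀ e ∈ X, e ∈ C.D → e ∉ C.Cc → C.Z5 ≤ X := fun e he k1 k2 =>
    C.g1_lev_le (t := 5) (by norm_num) h (hd e he) ((C.g1_E1 (hX.le he)).2.2.2.1 k1 k2).1
      ((C.g1_E1 (hX.le he)).2.2.2.1 k1 k2).2.1
  have hD : X ≤ C.D := fun e he => by
    by_contra k
    have k1 := (C.g1_E1 (hX.le he)).2.1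
    have k2 := (C.g1_E1 (hX.le he)).2.2.1 k
    exact h2 (C.g1_SS_le (h5' _ (hd e he) ((C.g1_E1 (hX.le (hd e he))).2.2.2.2.1 k1) k2) (hd e he) k1
      fun k3 => k2 (a2 k3))
  obtain ⟨e, he, he'⟩ := SetLike.not_le_iff_exists.1 h1
  have h5 : C.Z5 ≤ X := h5' e he (hD he) he'
  have hW : ∀ g ∈ X, g ∈ C.Wz ∨ g ∈ C.N2 := fun g hg => by
    by_cases k : g ∈ C.Z5
    · exact Or.inl (b2 k)
    by_cases k' : g ∈ C.Cc
    · have k1 : C.D ≤ X := C.g1_lev_le (t := 7) (by norm_num)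
        (C.g1_lev_le (t := 6) (by norm_num) h5 hg k' k) he (hD he) he'
      refine absurd (C.le_iff.2.2.2.2.2.2.2.2.2.2.2.2.1.2 ⟨(C.le_iff.2.2.1.1 k1).1, h5⟩) h2
    rcases ((C.g1_E1 (hX.le hg)).2.2.2.1 (hD hg) k').2.2 with k1 | k1
    · exact absurd (C.g1_SS_le h5 hg k1 k) h2
    · exact k1
  by_contra hc
  obtain ⟨g, hg, hg'⟩ := SetLike.not_le_iff_exists.1 (not_or.1 hc).1
  have hN : X ≤ C.N2 := fun a ha => by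
    have k := (hW g hg).resolve_left hg'
    rcases hW a ha with k1 | k1
    · rcases hW _ (mul_mem hg ha) with k2 | k2
      · exact absurd ((mul_mem_cancel_right k1).1 k2) hg'
      · exact (mul_mem_cancel_left k).1 k2
    · exact k1
  obtain ⟨-, -, -, -, v1, v2, v3, -⟩ := C.g1_misc
  have hY0 : closure {g | g ∈ X ∧ g ^ 3 ≠ 1} ≤ C.Z5 :=
    (closure_le _).2 fun g hg => (C.g1_E1 (hX.le hg.1)).2.2.2.2.2 (hN hg.1) hg.2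
  have hY : InvA (F.autGroup C.E1) (closure {g | g ∈ X ∧ g ^ 3 ≠ 1}) :=
    invA_closure (hY0.trans (a2.trans (a3.trans a4))) fun α hα g hg => subset_closure ⟨hX.mem hα hg.1, fun k => by
      rw [← (mulOn_totA α).map_pow (hX.le hg.1), totA_eq_one_iff α (pow_mem (hX.le hg.1) 3)] at k
      exact hg.2 k⟩
  exact v2 (C.g1_Cc hS hF hE (hY.sup (C.inv1U _)) le_sup_right (sup_le (hY0.trans a2) (a1.trans a2))
    (mem_sup_left (subset_closure ⟨h5 v1, v3⟩)))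

theorem inv1_U (hE : F.IsEssential 3 C.E1) {X : Subgroup Ω} (hX : InvA (F.autGroup C.E1) X)
    (h1 : C.Z2 ≤ X) (h2 : X ≤ C.U) : X = C.Z2 ∨ X = C.U := by
  obtain ⟨a1, a2, a3, a4, a5, a6, a7⟩ := C.g1_U_le
  by_cases h : X ≤ C.Z2
  · exact Or.inl (le_antisymm h h1)
  right
  have hd : ∀ e ∈ X, e⁻¹ * (C.x * e * C.x⁻¹) ∈ X := fun e he =>
    mul_mem (inv_mem he) (hX.conj_mem C.E1_le C.x_mem.1 he)
  have k3 : ∀ e ∈ X, e ∈ C.Z4 → e ∉ C.Z2 → C.Z3 ≤ X := fun e he k1 k2 => by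
    by_cases k : e ∈ C.Z3
    · exact C.g1_lev_le (t := 2) (by norm_num) h1 he k k2
    · exact C.g1_lev_le (t := 2) (by norm_num) h1 (hd e he) ((C.g1_U e (h2 he)).2 k1 k).1
        ((C.g1_U e (h2 he)).2 k1 k).2
  by_cases h4 : X ≤ C.Z4
  · exfalso
    obtain ⟨e, he, he'⟩ := SetLike.not_le_iff_exists.1 h
    obtain ⟨-, -, -, -, -, -, -, w1, w2, y1, u1, u2, hw⟩ := C.g1_misc
    rcases C.inv1_E1 hS hF hE ((invA_top _).inf_centralizer hX) (le_inf (a1.trans (a2.trans (a3.trans a4)))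
      (C.g1_U_cent.trans (centralizer_le h4))) with k | k
    · exact w2 (k ⟨w1, fun z hz => (hw z (h4 hz)).1⟩)
    · exact u2 ((k.ge y1).2 _ (k3 e he (h4 he) he' u1))
  · obtain ⟨e, he, he'⟩ := SetLike.not_le_iff_exists.1 h4
    obtain ⟨k1, k2⟩ := (C.g1_U e (h2 he)).1 he'
    exact le_antisymm h2 (C.g1_lev_le (t := 4) (by norm_num) (C.g1_lev_le (t := 3) (by norm_num)
      (k3 _ (hd e he) k1 fun k => k2 (a7 k)) (hd e he) k1 k2) he (h2 he) he')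

end Cfsg.Agent.Th3.Sy
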