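import Mathlib
import Cfsg.Agent.Th3.K0

/-! Automorphisms of E2 -/

set_option autoImplicit false
set_option maxRecDepth 100000
set_option synthInstance.maxSize 100000
set_option synthInstance.maxHeartbeats 400000

namespace Cfsg.Agent.Th3.Sy

open Cfsg.Agent.Spor Cfsg.Agent.Rec Cfsg.Agent.Fus Cfsg.FusionSystem Subgroup
open scoped commutatorElement

variable {Ω : Type*} [Group Ω] {S : Subgroup Ω} (C : Sy S)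

theorem k2_swap {N : Subgroup Ω} {a b : Ω} (h : ⁅a, b⁆ ∈ N) : ⁅b, a⁆ ∈ N := by
  rw [← commutatorElement_inv]; exact inv_mem h

theorem k2_mul {N : Subgroup Ω} {p q g c : Ω} (hp : p ∈ normalizer (N : Set Ω))
    (hg : g ∈ normalizer (N : Set Ω)) (h1 : ⁅q, g⁆ ∈ N) (h2 : ⁅p * q, c⁆ ∈ N) :
    ⁅p, g⁆⁻¹ * ⁅p * q, g * c⁆ ∈ N := by
  have hn : ⁅p, g⁆⁻¹ * p ∈ normalizer (N : Set Ω) :=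
    mul_mem (inv_mem (mul_mem (mul_mem (mul_mem hp hg) (inv_mem hp)) (inv_mem hg))) hp
  have := mul_mem ((mem_normalizer_iff.1 hn _).1 h1) ((mem_normalizer_iff.1 hg _).1 h2)
  convert this using 1
  simp only [commutatorElement_def]; group

theorem k2_mem : C.x ∈ C.E2 ∧ C.r ∈ C.E2 ∧ C.w ∈ C.E2 ∧ C.u3 ∈ C.E2 ∧ C.u2 ∈ C.Y5 ∧ C.z2 ∈ C.Y5 ∧
    C.v ∈ C.Y5 ∧ C.w ∈ C.Cc ∧ C.v ∈ C.Cc ∧ C.u3 ∈ C.Cc ∧ C.u1 ∈ C.Z3 ∧ C.z2 ∈ C.Z3 ∧ C.z1 ∈ C.Z1 ∧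
    C.Y5 ≤ C.E2 ∧ C.Cc ≤ C.E2 ∧ C.Z4 ≤ C.Y5 := C.fo (by decide +kernel)

theorem k2_eqs : C.v = ⁅C.r⁻¹, C.x⁻¹⁆ ∧ C.u2 = ⁅C.x⁻¹, C.u3⁻¹⁆⁻¹ ∧ C.u1 = ⁅C.x⁻¹, C.u2⁻¹⁆⁻¹ ∧
    C.z2 = ⁅C.r, C.u2⁆ ∧ C.z1 = ⁅C.x⁻¹, C.z2⁻¹⁆⁻¹ := C.fo (by decide +kernel)

/-- `E2` is generated by `x`, `r`, `w`, `u3`. -/
theorem k2_gens {H : Subgroup Ω} (hx : C.x ∈ H) (hr : C.r ∈ H) (hw : C.w ∈ H) (h3 : C.u3 ∈ H) :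
    C.E2 ≤ H := by
  have k : ∀ {a b : Ω}, a ∈ H → b ∈ H → ⁅a, b⁆ ∈ H := fun ha hb =>
    mul_mem (mul_mem (mul_mem ha hb) (inv_mem ha)) (inv_mem hb)
  obtain ⟨e1, e2, e3, e4, e5⟩ := C.k2_eqs
  have h2 : C.u2 ∈ H := e2 ▸ inv_mem (k (inv_mem hx) (inv_mem h3))
  have z2 : C.z2 ∈ H := e4 ▸ k hr h2
  obtain ⟨-, -, a3, a4, a5, a6, a7, a8, a9, a10, a11, -⟩ := C.le_iff (H := H)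
  exact a11.2 ⟨hx, a3.2 ⟨hr, a4.2 ⟨hw, a5.2 ⟨e1 ▸ k (inv_mem hr) (inv_mem hx), a6.2 ⟨h3, a7.2 ⟨h2,
    a8.2 ⟨e3 ▸ inv_mem (k (inv_mem hx) (inv_mem h2)), a9.2 ⟨z2,
      a10.2 (e5 ▸ inv_mem (k (inv_mem hx) (inv_mem z2)))⟩⟩⟩⟩⟩⟩⟩⟩

theorem k2_cmd {B : Subgroup Ω} (hn : C.E2 ≤ normalizer (B : Set Ω)) {a : Ω}
    (h : ⁅C.x, a⁆ ∈ B ∧ ⁅C.r, a⁆ ∈ B ∧ ⁅C.w, a⁆ ∈ B ∧ ⁅C.u3, a⁆ ∈ B) {g : Ω} (hg : g ∈ C.E2) :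
    ⁅g, a⁆ ∈ B := by
  obtain ⟨m1, m2, m3, m4, -⟩ := C.k2_mem
  exact (C.k2_gens (H := TermA.cmd {a} B) ⟨hn m1, fun _ e => e ▸ h.1⟩ ⟨hn m2, fun _ e => e ▸ h.2.1⟩
    ⟨hn m3, fun _ e => e ▸ h.2.2.1⟩ ⟨hn m4, fun _ e => e ▸ h.2.2.2⟩ hg).2 a rfl

theorem k2_norm (t : ℕ) : C.E2 ≤ normalizer (C.lev t : Set Ω) := C.E2_le.trans (C.le_normalizer_lev t)

theorem k2_normY : C.E2 ≤ normalizer (C.Y5 : Set Ω) := by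
  have := C.finite
  have : Finite C.Y5 := finite_of_le (C.k2_mem.2.2.2.2.2.2.2.2.2.2.2.2.2.1.trans C.E2_le)
  have h : ∀ a ∈ C.Y5, C.x * a * C.x⁻¹ ∈ C.Y5 ∧ C.r * a * C.r⁻¹ ∈ C.Y5 ∧ C.w * a * C.w⁻¹ ∈ C.Y5 ∧
      C.u3 * a * C.u3⁻¹ ∈ C.Y5 := C.fo (by decide +kernel)
  exact C.k2_gens (mem_normalizer_fintype fun a ha => (h a ha).1)
    (mem_normalizer_fintype fun a ha => (h a ha).2.1) (mem_normalizer_fintype fun a ha => (h a ha).2.2.1)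
    (mem_normalizer_fintype fun a ha => (h a ha).2.2.2)

theorem comm_E2 : ⁅C.E2, C.E2⁆ = C.Y5 := by
  have h : (⁅C.x, C.x⁆ ∈ C.Y5 ∧ ⁅C.r, C.x⁆ ∈ C.Y5 ∧ ⁅C.w, C.x⁆ ∈ C.Y5 ∧ ⁅C.u3, C.x⁆ ∈ C.Y5) ∧
      (⁅C.x, C.r⁆ ∈ C.Y5 ∧ ⁅C.r, C.r⁆ ∈ C.Y5 ∧ ⁅C.w, C.r⁆ ∈ C.Y5 ∧ ⁅C.u3, C.r⁆ ∈ C.Y5) ∧
      (⁅C.x, C.w⁆ ∈ C.Y5 ∧ ⁅C.r, C.w⁆ ∈ C.Y5 ∧ ⁅C.w, C.w⁆ ∈ C.Y5 ∧ ⁅C.u3, C.w⁆ ∈ C.Y5) ∧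
      (⁅C.x, C.u3⁆ ∈ C.Y5 ∧ ⁅C.r, C.u3⁆ ∈ C.Y5 ∧ ⁅C.w, C.u3⁆ ∈ C.Y5 ∧ ⁅C.u3, C.u3⁆ ∈ C.Y5) :=
    C.fo (by decide +kernel)
  have n := C.k2_normY
  refine le_antisymm (commutator_le.2 fun g hg a ha => C.k2_cmd n ⟨k2_swap (C.k2_cmd n h.1 ha),
    k2_swap (C.k2_cmd n h.2.1 ha), k2_swap (C.k2_cmd n h.2.2.1 ha), k2_swap (C.k2_cmd n h.2.2.2 ha)⟩ hg) ?_
  obtain ⟨m1, m2, -, m4, m5, m6, -, -, -, -, -, -, -, hY, -⟩ := C.k2_mem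
  obtain ⟨e1, e2, e3, e4, e5⟩ := C.k2_eqs
  obtain ⟨-, -, -, -, -, -, a7, a8, a9, a10, -, -, -, a14, -⟩ := C.le_iff (H := ⁅C.E2, C.E2⁆)
  have k : ∀ {a b : Ω}, a ∈ C.E2 → b ∈ C.E2 → ⁅a, b⁆ ∈ ⁅C.E2, C.E2⁆ := commutator_mem_commutator
  exact a14.2 ⟨e1 ▸ k (inv_mem m2) (inv_mem m1), a7.2 ⟨e2 ▸ inv_mem (k (inv_mem m1) (inv_mem m4)),
    a8.2 ⟨e3 ▸ inv_mem (k (inv_mem m1) (inv_mem (hY m5))), a9.2 ⟨e4 ▸ k m2 (hY m5),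
      a10.2 (e5 ▸ inv_mem (k (inv_mem m1) (inv_mem (hY m6))))⟩⟩⟩⟩

theorem k2_Z3 : ⁅C.E2, C.Y5⁆ = C.Z3 := by
  have h : ∀ a ∈ C.Y5, ⁅C.x, a⁆ ∈ C.Z3 ∧ ⁅C.r, a⁆ ∈ C.Z3 ∧ ⁅C.w, a⁆ ∈ C.Z3 ∧ ⁅C.u3, a⁆ ∈ C.Z3 :=
    C.fo (by decide +kernel)
  refine le_antisymm (commutator_le.2 fun g hg a ha => C.k2_cmd (C.k2_norm 3) (h a ha) hg) ?_
  obtain ⟨m1, m2, -, -, m5, m6, -⟩ := C.k2_mem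
  obtain ⟨-, -, e3, e4, e5⟩ := C.k2_eqs
  obtain ⟨-, -, -, -, -, -, -, a8, a9, a10, -⟩ := C.le_iff (H := ⁅C.E2, C.Y5⁆)
  have k : ∀ {a b : Ω}, a ∈ C.E2 → b ∈ C.Y5 → ⁅a, b⁆ ∈ ⁅C.E2, C.Y5⁆ := commutator_mem_commutator
  exact a8.2 ⟨e3 ▸ inv_mem (k (inv_mem m1) (inv_mem m5)), a9.2 ⟨e4 ▸ k m2 m5,
    a10.2 (e5 ▸ inv_mem (k (inv_mem m1) (inv_mem m6)))⟩⟩

theorem k2_Cc : C.E2 ⊓ centralizer (C.Z3 : Set Ω) = C.Cc := by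
  have h : (∀ t ∈ C.RS, t ∈ C.E2 → C.u1 * t = t * C.u1 → C.z2 * t = t * C.z2 → t ∈ C.Cc) ∧
      ∀ z ∈ C.Z3, z * C.w = C.w * z ∧ z * C.v = C.v * z ∧ ∀ u ∈ C.U, z * u = u * z :=
    C.fo (by decide +kernel)
  have hU : C.U ≤ centralizer (C.Z3 : Set Ω) := fun u hu z hz => (h.2 z hz).2.2 u hu
  have hUC : C.U ≤ C.Cc := C.lev_mono (s := 5) (t := 7) (by norm_num)
  obtain ⟨-, -, -, -, -, -, -, -, -, -, m1, m2, -, -, hC, -⟩ := C.k2_mem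
  refine le_antisymm (fun g hg => ?_) (le_inf hC ?_)
  · obtain ⟨t, ht, u, hu, e⟩ := C.exists_RS (C.E2_le hg.1)
    have k := (mul_mem_cancel_right (hU hu)).1 (e ▸ hg.2)
    exact e ▸ mul_mem (h.1 t ht ((mul_mem_cancel_right (hC (hUC hu))).1 (e ▸ hg.1)) (k _ m1) (k _ m2))
      (hUC hu)
  · obtain ⟨-, -, -, a4, a5, -⟩ := C.le_iff (H := centralizer (C.Z3 : Set Ω))
    exact a4.2 ⟨fun z hz => (h.2 z hz).1, a5.2 ⟨fun z hz => (h.2 z hz).2.1, hU⟩⟩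

theorem center_E2 : C.E2 ⊓ centralizer (C.E2 : Set Ω) = C.Z1 := by
  have h : ∀ g ∈ C.Cc, C.x * g = g * C.x → C.r * g = g * C.r → C.w * g = g * C.w →
      C.u3 * g = g * C.u3 → g ∈ C.Z1 := C.fo (by decide +kernel)
  obtain ⟨m1, m2, m3, m4, -, -, -, -, -, -, -, -, -, -, hC, -⟩ := C.k2_mem
  refine le_antisymm (fun g hg => h g (C.k2_Cc.le ⟨hg.1, fun z hz => hg.2 z
    (hC (C.lev_mono (s := 3) (t := 7) (by norm_num) hz))⟩) (hg.2 _ m1) (hg.2 _ m2) (hg.2 _ m3) (hg.2 _ m4))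
    fun z hz => ⟨hC (C.lev_mono (s := 1) (t := 7) (by norm_num) hz), fun g hg =>
      (C.center_S.ge hz).2 g (C.E2_le hg)⟩

theorem inv2Z1 (A : Subgroup (MulAut C.E2)) : InvA A C.Z1 :=
  C.center_E2 ▸ (invA_top A).inf_centralizer (invA_top A)

theorem inv2Y5 (A : Subgroup (MulAut C.E2)) : InvA A C.Y5 :=
  C.comm_E2 ▸ (invA_top A).commutator (invA_top A)

theorem inv2Z3 (A : Subgroup (MulAut C.E2)) : InvA A C.Z3 :=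
  C.k2_Z3 ▸ (invA_top A).commutator (C.inv2Y5 A)

theorem inv2Cc (A : Subgroup (MulAut C.E2)) : InvA A C.Cc :=
  C.k2_Cc ▸ (invA_top A).inf_centralizer (C.inv2Z3 A)

theorem k2_A {g c : Ω} (hg : g ∈ C.E2) (hc : c ∈ C.Cc) : ⁅g, c⁆ ∈ C.Z4 := by
  have h : ∀ a ∈ C.Cc, ⁅C.x, a⁆ ∈ C.Z4 ∧ ⁅C.r, a⁆ ∈ C.Z4 ∧ ⁅C.w, a⁆ ∈ C.Z4 ∧ ⁅C.u3, a⁆ ∈ C.Z4 :=
    C.fo (by decide +kernel)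
  exact C.k2_cmd (C.k2_norm 4) (h c hc) hg

theorem k2_cmdC {t : ℕ} {a : Ω} (h : ⁅C.w, a⁆ ∈ C.lev t ∧ ⁅C.v, a⁆ ∈ C.lev t ∧ ⁅C.u3, a⁆ ∈ C.lev t)
    (h4 : ∀ p ∈ C.Z4, ⁅p, a⁆ ∈ C.lev t) {c : Ω} (hc : c ∈ C.Cc) : ⁅c, a⁆ ∈ C.lev t := by
  obtain ⟨-, -, -, -, -, -, -, m1, m2, m3, -, -, -, -, hC, -⟩ := C.k2_mem
  have n := hC.trans (C.k2_norm t)
  obtain ⟨-, -, -, a4, a5, a6, -⟩ := C.le_iff (H := TermA.cmd {a} (C.lev t))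
  exact (a4.2 ⟨⟨n m1, fun _ e => e ▸ h.1⟩, a5.2 ⟨⟨n m2, fun _ e => e ▸ h.2.1⟩,
    a6.2 ⟨⟨n m3, fun _ e => e ▸ h.2.2⟩, fun p hp => ⟨C.le_normalizer_lev t (C.lev_le 4 hp),
      fun _ e => e ▸ h4 p hp⟩⟩⟩⟩ hc).2 a rfl

theorem k2_C {c p : Ω} (hc : c ∈ C.Cc) (hp : p ∈ C.Z4) : ⁅c, p⁆ ∈ C.Z1 := by
  have h : ∀ a ∈ C.Z4, (⁅C.w, a⁆ ∈ C.Z1 ∧ ⁅C.v, a⁆ ∈ C.Z1 ∧ ⁅C.u3, a⁆ ∈ C.Z1) ∧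
      ∀ p ∈ C.Z4, p * a = a * p := C.fo (by decide +kernel)
  refine C.k2_cmdC (t := 1) (h p hp).1 (fun q hq => ?_) hc
  rw [commutatorElement_eq_one_iff_mul_comm.2 ((h p hp).2 q hq)]; exact one_mem _

theorem k2_B {c d : Ω} (hc : c ∈ C.Cc) (hd : d ∈ C.Cc) : ⁅c, d⁆ ∈ C.Z3 := by
  have h : ∀ a ∈ C.Cc, ⁅C.w, a⁆ ∈ C.Z3 ∧ ⁅C.v, a⁆ ∈ C.Z3 ∧ ⁅C.u3, a⁆ ∈ C.Z3 := C.fo (by decide +kernel)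
  exact C.k2_cmdC (t := 3) (h d hd)
    (fun p hp => C.lev_mono (s := 1) (t := 3) (by norm_num) (k2_swap (C.k2_C hd hp))) hc

theorem k2_E {g z : Ω} (hg : g ∈ C.E2) (hz : z ∈ C.Z3) : ⁅z, g⁆ ∈ C.Z1 := by
  have h : ∀ a ∈ C.Z3, ⁅C.x, a⁆ ∈ C.Z1 ∧ ⁅C.r, a⁆ ∈ C.Z1 ∧ ⁅C.w, a⁆ ∈ C.Z1 ∧ ⁅C.u3, a⁆ ∈ C.Z1 :=
    C.fo (by decide +kernel)
  exact k2_swap (C.k2_cmd (C.k2_norm 1) (h z hz) hg)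

theorem k2_f {g c d : Ω} (hg : g ∈ C.E2) (hc : c ∈ C.Cc) (hd : d ∈ C.Cc) :
    ⁅⁅c, g⁆, g⁆⁻¹ * ⁅⁅c, g * d⁆, g * d⁆ ∈ C.Z1 := by
  have hp : ⁅c, g⁆ ∈ C.Z4 := k2_swap (C.k2_A hg hc)
  have hq : g * ⁅c, d⁆ * g⁻¹ ∈ C.Z3 := (mem_normalizer_iff.1 (C.k2_norm 3 hg) _).1 (C.k2_B hc hd)
  have e : ⁅c, g * d⁆ = ⁅c, g⁆ * (g * ⁅c, d⁆ * g⁻¹) := by simp only [commutatorElement_def]; group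
  rw [e]
  exact k2_mul (C.le_normalizer_lev 1 (C.lev_le 4 hp)) (C.k2_norm 1 hg) (C.k2_E hg hq)
    (k2_swap (C.k2_C hd (mul_mem hp (C.lev_mono (s := 3) (t := 4) (by norm_num) hq))))

theorem k2_fo : (∀ z ∈ C.Z4, (⁅C.x, C.r⁆ * z) ^ 3 = C.z1⁻¹) ∧
    (∀ z ∈ C.Z3, ∀ z' ∈ C.Z3, ⁅z', C.x⁆ = ⁅z, C.x⁆ → ⁅z', C.r⁆ = ⁅z, C.r⁆ → z⁻¹ * z' ∈ C.Z1) :=
  C.fo (by decide +kernel)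

theorem k2_fow : ∀ d ∈ C.Cc, Let ⁅d, C.x⁆ fun p => ⁅⁅C.w, C.x⁆, C.x⁆⁻¹ * ⁅p, C.x⁆ ∈ C.Z1 →
    Let ⁅d, C.r⁆ fun q => ⁅⁅C.w, C.r⁆, C.r⁆⁻¹ * ⁅q, C.r⁆ ∈ C.Z1 → C.w⁻¹ * d ∈ C.Y5 :=
  (C.fo (P := Let ⁅⁅C.w, C.x⁆, C.x⁆⁻¹ fun a => Let ⁅⁅C.w, C.r⁆, C.r⁆⁻¹ fun b => ∀ d ∈ C.Cc,
    Let ⁅d, C.x⁆ fun p => a * ⁅p, C.x⁆ ∈ C.Z1 →
      Let ⁅d, C.r⁆ fun q => b * ⁅q, C.r⁆ ∈ C.Z1 → C.w⁻¹ * d ∈ C.Y5) (by decide +kernel) :)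

theorem k2_fou : ∀ d ∈ C.Cc, Let ⁅d, C.x⁆ fun p => ⁅⁅C.u3, C.x⁆, C.x⁆⁻¹ * ⁅p, C.x⁆ ∈ C.Z1 →
    Let ⁅d, C.r⁆ fun q => ⁅⁅C.u3, C.r⁆, C.r⁆⁻¹ * ⁅q, C.r⁆ ∈ C.Z1 → C.u3⁻¹ * d ∈ C.Y5 :=
  (C.fo (P := Let ⁅⁅C.u3, C.x⁆, C.x⁆⁻¹ fun a => Let ⁅⁅C.u3, C.r⁆, C.r⁆⁻¹ fun b => ∀ d ∈ C.Cc,
    Let ⁅d, C.x⁆ fun p => a * ⁅p, C.x⁆ ∈ C.Z1 →
      Let ⁅d, C.r⁆ fun q => b * ⁅q, C.r⁆ ∈ C.Z1 → C.u3⁻¹ * d ∈ C.Y5) (by decide +kernel) :)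

theorem triv_E2 (α : MulAut C.E2) (h : ∀ e ∈ C.E2, e⁻¹ * totA α e ∈ C.Cc) :
    ∀ c ∈ C.Cc, c⁻¹ * totA α c ∈ C.Y5 := by
  have m := mulOn_totA α
  obtain ⟨m1, m2, m3, m4, -, -, m7, m8, -, m10, -, -, m13, hY, hC, h4⟩ := C.k2_mem
  have hk : ∀ {a b : Ω}, a ∈ C.E2 → b ∈ C.E2 → ⁅a, b⁆ ∈ C.E2 := fun ha hb =>
    mul_mem (mul_mem (mul_mem ha hb) (inv_mem ha)) (inv_mem hb)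
  have he : ∀ g, totA α g = g * (g⁻¹ * totA α g) := fun g => (mul_inv_cancel_left _ _).symm
  have hz1 : C.z1 ∈ C.E2 := (C.inv2Z1 ⊤).1 m13
  have f1 : totA α C.z1 = C.z1 := by
    have k := k2_mul (C.k2_norm 4 m1) (C.k2_norm 4 m2) (k2_swap (C.k2_A m2 (h _ m1)))
      (C.k2_A (mul_mem m1 (hC (h _ m1))) (h _ m2))
    have e1 := C.k2_fo.1 _ k
    have e2 := C.k2_fo.1 1 (one_mem _)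
    rw [mul_inv_cancel_left, ← he, ← he, ← m.map_commutatorElement m1 m2, ← m.map_pow (hk m1 m2)] at e1
    rw [mul_one] at e2
    rw [e2, m.map_inv hz1] at e1
    exact inv_injective e1
  have f2 : ∀ z ∈ C.Z1, totA α z = z := fun z hz => by
    rcases C.mem_Z1.1 hz with rfl | rfl | rfl
    exacts [m.map_one, f1, by rw [m.map_inv hz1, f1]]
  have f3 : ∀ z ∈ C.Z3, z⁻¹ * totA α z ∈ C.Z1 := fun z hz => by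
    have hz' := (C.inv2Z3 ⊤).2 α trivial z hz
    have k : ∀ g ∈ C.E2, ⁅totA α z, g⁆ = ⁅z, g⁆ := fun g hg => by
      have e : totA α z * (g⁻¹ * totA α g) = g⁻¹ * totA α g * totA α z := (C.k2_Cc.ge (h g hg)).2 _ hz'
      rw [← f2 _ (C.k2_E hg hz), m.map_commutatorElement ((C.inv2Z3 ⊤).1 hz) hg, he g]
      generalize g⁻¹ * totA α g = c at e
      calc ⁅totA α z, g⁆ = totA α z * g * ((totA α z)⁻¹ * (totA α z * c) * (c * totA α z)⁻¹ * (totA α z)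
            * (totA α z)⁻¹) * g⁻¹ := by rw [e, commutatorElement_def]; group
        _ = _ := by rw [commutatorElement_def]; group
    exact C.k2_fo.2 z hz _ hz' (k _ m1) (k _ m2)
  have f4 : ∀ c ∈ C.Cc, ∀ g ∈ C.E2, ⁅⁅c, g⁆, g⁆⁻¹ * ⁅⁅totA α c, g⁆, g⁆ ∈ C.Z1 := fun c hc g hg => by
    have k1 := C.k2_f hg ((C.inv2Cc ⊤).2 α trivial c hc) (h g hg)
    have k2 := f3 _ (k2_swap (C.k2_Z3.le (commutator_mem_commutator hg (h4 (k2_swap (C.k2_A hg hc))))))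
    rw [m.map_commutatorElement (hk (hC hc) hg) hg, m.map_commutatorElement (hC hc) hg] at k2
    rw [← he] at k1
    simpa only [mul_inv_rev, inv_inv, mul_assoc, mul_inv_cancel_left] using mul_mem k2 (inv_mem k1)
  have hA : C.Y5 ≤ axis α C.Y5 C.k2_normY := fun a ha =>
    ⟨hY ha, mul_mem (inv_mem ha) ((C.inv2Y5 ⊤).2 α trivial a ha)⟩
  obtain ⟨-, -, -, a4, a5, a6, -⟩ := C.le_iff (H := axis α C.Y5 C.k2_normY)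
  exact fun c hc => (a4.2 ⟨⟨m3, C.k2_fow _ ((C.inv2Cc ⊤).2 α trivial _ m8) (f4 _ m8 _ m1) (f4 _ m8 _ m2)⟩,
    a5.2 ⟨hA m7, a6.2 ⟨⟨m4, C.k2_fou _ ((C.inv2Cc ⊤).2 α trivial _ m10) (f4 _ m10 _ m1) (f4 _ m10 _ m2)⟩,
      h4.trans hA⟩⟩⟩ hc).2

end Cfsg.Agent.Th3.Sy
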