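import Mathlib
import Cfsg.Agent.Th3.K2
import Cfsg.Agent.Fus.EssSL2b

/-! The essential subgroup E2 -/

set_option autoImplicit false
set_option maxRecDepth 100000
set_option synthInstance.maxSize 100000
set_option synthInstance.maxHeartbeats 400000

namespace Cfsg.Agent.Th3.Sy

open Cfsg.Agent.Spor Cfsg.Agent.Rec Cfsg.Agent.Fus Cfsg.FusionSystem Subgroup
open scoped commutatorElement

variable {Ω : Type*} [Group Ω] {S : Subgroup Ω} (C : Sy S)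

theorem g2_facts : C.Cc ≤ C.E2 ∧ C.Y5 ≤ C.Cc ∧ C.x ∈ C.E2 ∧ C.r ∈ C.E2 ∧ C.r ∈ C.E1 ∧ C.r ∉ C.Cc :=
  C.fo (by decide +kernel)

theorem g2_comm_Z5 : ⁅C.Z5, C.Z5⁆ = C.Z2 := by
  have h : ∀ a ∈ C.Z5, ⁅C.v, a⁆ ∈ C.Z2 ∧ ⁅C.u3, a⁆ ∈ C.Z2 ∧ ⁅C.u2, a⁆ ∈ C.Z2 ∧ ⁅C.u1, a⁆ ∈ C.Z2 ∧
      ⁅C.z2, a⁆ ∈ C.Z2 ∧ ⁅C.z1, a⁆ ∈ C.Z2 := C.fo (by decide +kernel)
  have h2 : (C.v ∈ S ∧ C.u3 ∈ S ∧ C.u2 ∈ S ∧ C.u1 ∈ S ∧ C.z2 ∈ S ∧ C.z1 ∈ S) ∧ C.v ∈ C.Z5 ∧ C.u3 ∈ C.Z5 ∧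
      C.u2 ∈ C.Z5 ∧ C.z1 = ⁅C.v, C.u2⁆⁻¹ ∧ C.z2 = (⁅C.v, C.u3⁆ * ⁅C.v, C.u2⁆)⁻¹ := C.fo (by decide +kernel)
  obtain ⟨⟨s1, s2, s3, s4, s5, s6⟩, m1, m2, m3, e1, e2⟩ := h2
  have n := C.le_normalizer_lev 2
  refine le_antisymm (commutator_le.2 fun g hg a ha => ?_) ?_
  · obtain ⟨-, -, -, -, a5, a6, a7, a8, a9, a10, -⟩ := C.le_iff (H := TermA.cmd (C.Z5 : Set Ω) C.Z2)
    exact (a5.2 ⟨⟨n s1, fun a ha => (h a ha).1⟩, a6.2 ⟨⟨n s2, fun a ha => (h a ha).2.1⟩,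
      a7.2 ⟨⟨n s3, fun a ha => (h a ha).2.2.1⟩, a8.2 ⟨⟨n s4, fun a ha => (h a ha).2.2.2.1⟩,
      a9.2 ⟨⟨n s5, fun a ha => (h a ha).2.2.2.2.1⟩, a10.2 ⟨n s6, fun a ha => (h a ha).2.2.2.2.2⟩⟩⟩⟩⟩⟩ hg).2 a ha
  · obtain ⟨-, -, -, -, -, -, -, -, a9, a10, -⟩ := C.le_iff (H := ⁅C.Z5, C.Z5⁆)
    refine a9.2 ⟨?_, a10.2 ?_⟩
    · rw [e2]
      exact Subgroup.inv_mem _ (mul_mem (commutator_mem_commutator m1 m2) (commutator_mem_commutator m1 m3))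
    · rw [e1]
      exact Subgroup.inv_mem _ (commutator_mem_commutator m1 m3)

variable [Finite S] [Fact (Nat.Prime 3)] {F : FusionSystem S} (hS : IsPGroup 3 S) (hF : F.IsSaturated 3)
include hS hF

theorem g2_sec (hE : F.IsEssential 3 C.E2) :
    ∃ c : Ω → Fin 2 → ZMod 3, SL2Sec (F.autGroup C.E2) (cAut C.E2 C.y) C.E2 C.Cc c := by
  have : Finite C.E2 := finite_of_le C.E2_le
  obtain ⟨h1, h2, -⟩ := C.g2_facts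
  have hi : C.Cc.relIndex C.E2 ∣ 3 ^ 2 := by
    have := card_eq_of_relIndex h1
    rw [C.card_E2, C.card_Cc] at this
    exact Dvd.intro 1 (by omega)
  have := (hE.exists_sl2Sec hF hS (K := ⊤) (fun _ _ _ _ => trivial) (invA_top _) (C.inv2Cc _) h1
    (C.E2_le.trans (C.le_normalizer_lev 7)) hi (fun α _ _ hco h =>
      eq_one_of_chain3b (hS.to_le C.E2_le) h1 h2 le_rfl (C.comm_E2 ▸ le_sup_left) hco h (C.triv_E2 α h)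
        fun x hx => mul_mem (Subgroup.inv_mem _ hx) ((C.inv2Y5 ⊤).mem trivial hx))
    C.y_mem.1 C.y_mem.2 trivial).1
  rwa [top_inf_eq] at this

theorem beta2 (hE : F.IsEssential 3 C.E2) : ∃ β ∈ F.autGroup S, C.x * totA β C.x ∈ C.E1 := by
  obtain ⟨c, h⟩ := C.g2_sec hS hF hE
  obtain ⟨γ, -, hγ, -, ha, β, hβ, -, e, -⟩ := h.exists_torus_ext (hE.receptive hF hS) hE.isCentric le_rfl C.y_mem.1
    (K := ⊤) (fun _ _ => trivial) (l := -1) (neg_ne_zero.2 one_ne_zero)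
  have hx := C.g2_facts.2.2.1
  have h1 : c C.x⁻¹ = c (totA γ C.x) := by
    rw [ha _ hx, h.map_inv hx, inv_neg, inv_one]
    ext i
    fin_cases i <;> simp [Matrix.mulVec, dotProduct]
  rw [h.eq_iff (Subgroup.inv_mem _ hx) (h.invX.mem hγ hx), inv_inv, ← e _ hx] at h1
  have h2 := C.lev_mono (s := 7) (t := 9) (by norm_num) h1
  have key : ∀ T : Subgroup Ω, S = T → ∀ β ∈ F.autGroup T, ∃ β' ∈ F.autGroup S, totA β' C.x = totA β C.x := by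
    rintro _ rfl β hβ
    exact ⟨β, hβ, rfl⟩
  obtain ⟨β', h3, h4⟩ := key _ C.E2_sup.symm β hβ
  exact ⟨β', h3, h4 ▸ h2⟩

theorem inv2_E2 (hE : F.IsEssential 3 C.E2) {X : Subgroup Ω} (hX : InvA (F.autGroup C.E2) X)
    (h : C.Cc ≤ X) : X = C.Cc ∨ X = C.E2 :=
  (C.g2_sec hS hF hE).elim fun _ hc => hc.eq_or_eq hX h hX.le

theorem not_inv2_Z2 (hE : F.IsEssential 3 C.E2) : ¬ InvA (F.autGroup C.E2) C.Z2 := by
  intro h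
  obtain ⟨h1, -, h3, h4, h5, h6⟩ := C.g2_facts
  have k : C.E1 ≤ centralizer (C.Z2 : Set Ω) := C.centralizer_Z2.ge.trans inf_le_right
  rcases C.inv2_E2 hS hF hE ((invA_top _).inf_centralizer h)
    (le_inf h1 ((C.lev_mono (s := 7) (t := 9) (by norm_num)).trans k)) with e | e
  · exact h6 (e.le ⟨h4, k h5⟩)
  · exact C.x_mem.2 (C.centralizer_Z2.le ⟨C.gens_mem.1, (e.ge h3).2⟩)

theorem not_inv2_Z5 (hE : F.IsEssential 3 C.E2) : ¬ InvA (F.autGroup C.E2) C.Z5 := fun h =>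
  C.not_inv2_Z2 hS hF hE (C.g2_comm_Z5 ▸ h.commutator h)

end Cfsg.Agent.Th3.Sy
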