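import Mathlib
import Cfsg.Agent.Th3.Term

/-! Subgroups that are not essential -/

set_option autoImplicit false

namespace Cfsg.Agent.Th3

open Cfsg.Agent.Spor Cfsg.Agent.Rec Cfsg.Agent.Fus Subgroup
open scoped commutatorElement

section kill

variable {Ω : Type*} [Group Ω]

/-- The condition `x⁻¹ * (s * x * s⁻¹) ∈ W` passes from generators to the generated subgroup. -/
theorem kill_ext {T : Set Ω} {W : Subgroup Ω} (hn : closure T ≤ normalizer (W : Set Ω)) {s : Ω}
    (h : ∀ x ∈ T, x⁻¹ * (s * x * s⁻¹) ∈ W) : ∀ x ∈ closure T, x⁻¹ * (s * x * s⁻¹) ∈ W := by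
  intro x hx
  induction hx using closure_induction with
  | mem x hx => exact h x hx
  | one => simp
  | mul x y hx hy h1 h2 =>
    have h3 := (mem_normalizer_iff''.1 (hn hy) _).1 h1
    simpa [mul_assoc] using mul_mem h3 h2
  | inv x hx h1 =>
    have h3 := (mem_normalizer_iff.1 (hn hx) _).1 (inv_mem h1)
    simpa [mul_assoc] using h3

theorem kill_norm {E : Subgroup Ω} [Finite E] {s : Ω} (h : ∀ x ∈ E, x⁻¹ * (s * x * s⁻¹) ∈ E) :
    s ∈ normalizer (E : Set Ω) := by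
  refine mem_normalizer_fintype (S := (E : Set Ω)) fun x hx => ?_
  simpa [mul_assoc] using mul_mem (show x ∈ E from hx) (h x hx)

theorem kill_conj {E X : Subgroup Ω} (hX : InvA (⊤ : Subgroup (MulAut E)) X) {s : Ω}
    (hs : s ∈ normalizer (E : Set Ω)) {x : Ω} (hx : x ∈ X) : s * x * s⁻¹ ∈ X := by
  rw [← totA_cAut hs (hX.le hx)]
  exact hX.mem (mem_top _) hx

theorem kill_le_norm {E X : Subgroup Ω} (hX : InvA (⊤ : Subgroup (MulAut E)) X) :
    normalizer (E : Set Ω) ≤ normalizer (X : Set Ω) := by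
  intro s hs
  refine mem_normalizer_iff.2 fun x => ⟨kill_conj hX hs, fun hx => ?_⟩
  simpa [mul_assoc] using kill_conj hX (inv_mem hs) hx

theorem kill_three {E : Subgroup Ω} {s t : Ω} (hs : s ∈ normalizer (E : Set Ω)) (h3 : s ^ 3 ∈ E)
    (ht : t ∈ E ⊔ zpowers s) : t ∈ E ∨ t * s ∈ E ∨ t * s⁻¹ ∈ E := by
  obtain ⟨e, he, i, rfl⟩ := (GT.PG.mem_sup_zpowers_of_mem_normalizer hs).1 ht
  have key : ∀ j : ℤ, e * s ^ (3 * j) ∈ E := fun j => by
    rw [_root_.zpow_mul]
    exact mul_mem he (zpow_mem (by exact_mod_cast h3) j)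
  obtain ⟨j, hj | hj | hj⟩ : ∃ j : ℤ, i = 3 * j ∨ i + 1 = 3 * j ∨ i - 1 = 3 * j :=
    ⟨(i + 1) / 3, by omega⟩
  · exact Or.inl (hj ▸ key j)
  · refine Or.inr (Or.inl ?_)
    rw [mul_assoc, ← zpow_add_one, hj]; exact key j
  · refine Or.inr (Or.inr ?_)
    rw [mul_assoc, ← zpow_sub_one, hj]; exact key j

variable {S : Subgroup Ω} (C : Sy S)

theorem Sy.kill_gen {L : PL} {H W : Subgroup Ω} (hL : C.In L H) (hn : C.sub L ≤ normalizer (W : Set Ω))
    {s : ℕ} (hs : s < 59049) {f : ℕ → Bool} (hf : ∀ c < 59049, f c = true → C.elt c ∈ W)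
    (h : (L.all fun x => f (dl s (inv s) x)) = true) :
    ∀ x ∈ C.sub L, x⁻¹ * (C.elt s * x * (C.elt s)⁻¹) ∈ W := by
  refine kill_ext hn ?_
  rintro _ ⟨g, hg, rfl⟩
  obtain ⟨h1, h2⟩ := C.dl_ok hs (hL.gens hg).1
  rw [← h2]
  exact hf _ h1 ((PL.all_iff _ _).1 h g hg)

theorem Sy.kill_chr_nil (E : PL) : C.Chr E .nil :=
  ⟨rfl, by rw [C.sub_nil]; exact invA_bot _⟩

theorem Sy.kill_chr_nth {E : PL} {env : List PL} (h : ∀ L ∈ env, C.Chr E L) : C.Chr E (nthP env 0) := by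
  cases env with
  | nil => exact C.kill_chr_nil E
  | cons a l => exact h a List.mem_cons_self

end kill

theorem Sy.kill_spec {Ω : Type*} [Group Ω] {S : Subgroup Ω} [Finite S] [Fact (Nat.Prime 3)] (C : Sy S)
    (hS : IsPGroup 3 S) {F : FusionSystem S} (hF : F.IsSaturated 3) {E K : PL} (hE : E.closed = true)
    (hK : C.In K (⁅C.sub E, C.sub E⁆ ⊔ powerClosure 3 1 (C.sub E))) {w : ℕ} {ws : List ℕ}
    (h : kill E K w ws = true) : ¬ F.IsEssential 3 (C.sub E) := by
  intro hess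
  have hES : C.sub E ≤ S := C.sub_le hE
  haveI : Finite (C.sub E) := Finite.of_injective _ (inclusion_injective hES)
  have hEI := C.in_sub hE
  have hΦ : InvA (⊤ : Subgroup (MulAut (C.sub E))) (⁅C.sub E, C.sub E⁆ ⊔ powerClosure 3 1 (C.sub E)) :=
    ((invA_top _).commutator (invA_top _)).sup ((invA_top _).powerClosure 3 1)
  have hΦn : C.sub E ≤ normalizer ((⁅C.sub E, C.sub E⁆ ⊔ powerClosure 3 1 (C.sub E) : Subgroup Ω) : Set Ω) :=
    le_normalizer.trans (kill_le_norm hΦ)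
  have hrad := hess.isRadical hS
  have hcen := hess.isCentric
  unfold kill at h
  simp only [force_eq, band_iff, blt_iff, bneg_iff, ifLt_eq] at h
  generalize Nat.land w 15 = ty at h
  generalize Nat.land (Nat.shiftRight w 4) 65535 = s at h
  generalize Nat.land (Nat.shiftRight w 20) 65535 = s2 at h
  generalize Nat.shiftRight w 36 = a at h
  obtain ⟨⟨hs, hsE⟩, h⟩ := h
  rw [C.has_iff hE hs] at hsE
  have hKh : ∀ c < 59049, K.has c = true → C.elt c ∈ ⁅C.sub E, C.sub E⁆ ⊔ powerClosure 3 1 (C.sub E) :=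
    fun c hc h1 => hK.has hc h1
  split_ifs at h with h1 h2
  · have h3 := C.kill_gen hEI hΦn hs hKh h
    have hn : C.elt s ∈ normalizer (C.sub E : Set Ω) := kill_norm fun x hx => hΦ.le (h3 x hx)
    exact hsE (hrad.mem_of_frattini hS hcen ⟨C.elt_mem hs, hn⟩ h3)
  · obtain ⟨env, henv, h⟩ := C.terms_spec hE (env := [E, .nil]) (by
      intro L hL
      simp only [List.mem_cons, List.not_mem_nil, or_false] at hL
      rcases hL with rfl | rfl
      · exact ⟨hE, invA_top _⟩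
      · exact C.kill_chr_nil E) h
    obtain ⟨hc, hX⟩ := C.kill_chr_nth henv
    generalize nthP env 0 = X at h hc hX
    simp only [band_iff] at h
    obtain ⟨ha, hb⟩ := h
    have hXI := C.in_sub hc
    have h3 := C.kill_gen hEI (le_normalizer.trans (kill_le_norm hX)) hs
      (fun c hc h1 => hXI.has hc h1) ha
    have h4 := C.kill_gen hXI (hX.le.trans hΦn) hs hKh hb
    have hn : C.elt s ∈ normalizer (C.sub E : Set Ω) := kill_norm fun x hx => hX.le (h3 x hx)
    refine hsE (hrad.mem_of_chain2 hS hcen ((hX.sup hΦ).anti le_top) (hΦ.anti le_top) le_sup_right le_rfl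
      ⟨C.elt_mem hs, hn⟩ (fun x hx => mem_sup_left (h3 x hx)) ?_)
    have hle := (hX.sup hΦ).le.trans hΦn
    rw [sup_eq_closure (C.sub X)] at hle ⊢
    refine kill_ext hle ?_
    rintro x (hx | hx)
    · exact h4 x hx
    · exact mul_mem (inv_mem hx) (kill_conj hΦ hn hx)
  · simp only [band_iff, blt_iff, bneg_iff] at h
    obtain ⟨⟨⟨ha, haE⟩, h3⟩, ⟨hs2, h4⟩, h5, h6, h7⟩ := h
    rw [C.has_iff hE ha] at haE
    have hLE : (⁅C.sub E, C.sub E⁆ ⊔ powerClosure 3 1 (C.sub E)) ⊔ zpowers (C.elt a) ≤ C.sub E :=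
      sup_le hΦ.le (zpowers_le.2 haE)
    have haL : C.elt a ∈ (⁅C.sub E, C.sub E⁆ ⊔ powerClosure 3 1 (C.sub E)) ⊔ zpowers (C.elt a) :=
      mem_sup_right (mem_zpowers _)
    have h8 := C.kill_gen hEI (le_normalizer_of_comm_le le_sup_left le_sup_left hLE) hs
      (f := fun c => bor (K.has c) (bor (K.has (mul c a)) (K.has (mul c (inv a))))) (by
        intro c hc hh
        simp only [bor_iff] at hh
        rcases hh with hh | hh | hh
        · exact mem_sup_left (hKh c hc hh)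
        · obtain ⟨k1, k2⟩ := C.mul_ok hc ha
          have := mul_mem (mem_sup_left (hKh _ k1 hh)) (inv_mem haL)
          rwa [k2, mul_inv_cancel_right] at this
        · obtain ⟨k3, k4⟩ := C.inv_ok ha
          obtain ⟨k1, k2⟩ := C.mul_ok hc k3
          have := mul_mem (mem_sup_left (hKh _ k1 hh)) haL
          rwa [k2, k4, inv_mul_cancel_right] at this) h3
    have hn : C.elt s ∈ normalizer (C.sub E : Set Ω) := kill_norm fun x hx => hLE (h8 x hx)
    obtain ⟨X, Y, c, hT⟩ := hess.exists_transv hF hS (hΦ.anti le_top) le_sup_left le_rfl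
      ⟨C.elt_mem hs, hn⟩ hsE haE (mem_sup_right (GT.PG.pow_mem_powerClosure_one haE)) h8
    have hn2 : C.elt s2 ∈ normalizer (C.sub E : Set Ω) := by
      refine kill_norm (kill_ext le_normalizer ?_)
      rintro _ ⟨g, hg, rfl⟩
      obtain ⟨k3, k4⟩ := C.inv_ok hs2
      obtain ⟨k1, k2⟩ := C.cj_ok hs2 (hEI.gens hg).1 k3
      have := hEI.has k1 ((PL.all_iff _ _).1 h4 g hg)
      rw [k2, k4] at this
      exact mul_mem (inv_mem (C.mem_sub hg)) this
    have hm : C.elt s2 ∈ FusionSystem.normalizerIn S (C.sub E) := ⟨C.elt_mem hs2, hn2⟩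
    rw [hT.norm] at hm
    obtain ⟨k1, k2⟩ := C.mul_ok hs2 hs
    obtain ⟨k3, k4⟩ := C.inv_ok hs
    obtain ⟨k5, k6⟩ := C.mul_ok hs2 k3
    rcases kill_three hn hT.pow hm with h9 | h9 | h9
    · exact h5 ((C.has_iff hE hs2).2 h9)
    · exact h6 ((C.has_iff hE k1).2 (k2 ▸ h9))
    · exact h7 ((C.has_iff hE k5).2 (by rw [k6, k4]; exact h9))

end Cfsg.Agent.Th3
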