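import Mathlib
import Cfsg.Agent.Th3.K0

/-! The essential subgroup A0: position of the conjugates of Z2 -/

set_option autoImplicit false
set_option maxRecDepth 100000
set_option synthInstance.maxSize 100000
set_option synthInstance.maxHeartbeats 400000

namespace Cfsg.Agent.Th3.Sy

open Cfsg.Agent.Spor Cfsg.Agent.Rec Cfsg.Agent.Fus Cfsg.FusionSystem Subgroup
open scoped commutatorElement

variable {Ω : Type*} [Group Ω] {S : Subgroup Ω} (C : Sy S)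

/-- `y` is one of the nine products of powers of `p` and `q`. -/
abbrev Q9aNine (p q y : Ω) : Prop :=
  y = 1 ∨ y = p ∨ y = p * p ∨ y = q ∨ y = q * q ∨ y = p * q ∨ y = p * (q * q) ∨ y = p * p * q ∨
    y = p * p * (q * q)

theorem q9a_nine {T : Subgroup Ω} {p q y : Ω} (hp : p ∈ T) (hq : q ∈ T) (h : Q9aNine p q y) : y ∈ T := by
  rcases h with h | h | h | h | h | h | h | h | h <;> rw [h] <;>
    first | exact one_mem _ | simp only [mul_mem, hp, hq]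

theorem q9a_gen {H : Subgroup Ω} (h : C.a1 ∈ H ∧ C.a2 ∈ H ∧ C.a3 ∈ H ∧ C.z2 ∈ H ∧ C.z1 ∈ H) : C.A0 ≤ H := by
  obtain ⟨-, -, -, -, -, -, -, -, h9, h10, -, -, -, -, h15, h16⟩ := C.le_iff (H := H)
  exact h16.2 ⟨h.1, h.2.1, h15.2 ⟨h.2.2.1, h9.2 ⟨h.2.2.2.1, h10.2 h.2.2.2.2⟩⟩⟩

theorem q9a_les : C.Z2 ≤ C.Zp ∧ C.Zp ≤ C.A0 ∧ C.Zp ≤ C.U ∧ C.Z4 ≤ C.U ∧ C.A0 ≤ C.PP ∧ C.u1 ∈ C.U ∧
    C.u2 ∈ C.U ∧ C.u1 ∉ C.Zp ∧ C.u1 * C.a3 = C.a3 * C.u1 ∧ (∀ s ∈ C.U, s ∈ C.A0 → s ∈ C.Zp) ∧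
    C.a1 ∈ C.A0 ∧ C.a2 ∈ C.A0 ∧ C.a3 ∈ C.A0 ∧ C.z2 ∈ C.A0 ∧ C.z1 ∈ C.A0 :=
  C.fo (by decide +kernel)

theorem q9a_Z2_le : C.Z2 ≤ C.A0 := C.q9a_les.1.trans C.q9a_les.2.1

theorem comm_A0 {a b : Ω} (ha : a ∈ C.A0) (hb : b ∈ C.A0) : a * b = b * a := by
  have h : ∀ a ∈ C.A0, a * C.a1 = C.a1 * a ∧ a * C.a2 = C.a2 * a ∧ a * C.a3 = C.a3 * a ∧
      a * C.z2 = C.z2 * a ∧ a * C.z1 = C.z1 * a := C.fo (by decide +kernel)
  have h1 : C.A0 ≤ centralizer {a} := C.q9a_gen (by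
    simp only [mem_centralizer_singleton_iff]
    obtain ⟨h1, h2, h3, h4, h5⟩ := h a ha
    exact ⟨h1.symm, h2.symm, h3.symm, h4.symm, h5.symm⟩)
  exact (mem_centralizer_singleton_iff.1 (h1 hb)).symm

theorem cube_A0 {a : Ω} (ha : a ∈ C.A0) : a ^ 3 = 1 := by
  have h : ∀ a ∈ C.A0, a ^ 3 = 1 := C.fo (by decide +kernel)
  exact h a ha

theorem U_le_PP : C.U ≤ C.PP := C.fo (by decide +kernel)

theorem q9a_cent {s a : Ω} (hs : s ∈ C.U) (ha : a ∈ C.Zp) : s * a = a * s := by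
  have h : ∀ s ∈ C.U, ∀ a ∈ C.Zp, s * a = a * s := C.fo (by decide +kernel)
  exact h s hs a ha

theorem q9a_le_norm {W : Subgroup Ω} (hW : W ≤ C.A0) : C.A0 ≤ normalizer (W : Set Ω) := fun a ha =>
  centralizer_le_normalizer _ (mem_centralizer_iff.2 fun _ hw => C.comm_A0 (hW hw) ha)

theorem dl_mem {s a : Ω} (hs : s ∈ C.U) (ha : a ∈ C.A0) : a⁻¹ * (s * a * s⁻¹) ∈ C.Z2 := by
  have h : ∀ s ∈ C.U, C.a1⁻¹ * (s * C.a1 * s⁻¹) ∈ C.Z2 ∧ C.a2⁻¹ * (s * C.a2 * s⁻¹) ∈ C.Z2 ∧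
      C.a3⁻¹ * (s * C.a3 * s⁻¹) ∈ C.Z2 ∧ C.z2⁻¹ * (s * C.z2 * s⁻¹) ∈ C.Z2 ∧
      C.z1⁻¹ * (s * C.z1 * s⁻¹) ∈ C.Z2 := C.fo (by decide +kernel)
  obtain ⟨-, -, -, -, -, -, -, -, -, -, m1, m2, m3, m4, m5⟩ := C.q9a_les
  let T : Subgroup Ω :=
    { carrier := {a | a ∈ C.A0 ∧ a⁻¹ * (s * a * s⁻¹) ∈ C.Z2}
      one_mem' := ⟨one_mem _, by simp⟩
      mul_mem' := by
        rintro x y ⟨hx, hx'⟩ ⟨hy, hy'⟩
        refine ⟨mul_mem hx hy, ?_⟩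
        have h1 := (mem_normalizer_iff''.1 (C.q9a_le_norm C.q9a_Z2_le hy) _).1 hx'
        simpa [mul_assoc] using mul_mem h1 hy'
      inv_mem' := by
        rintro x ⟨hx, hx'⟩
        refine ⟨inv_mem hx, ?_⟩
        have h1 := (mem_normalizer_iff.1 (C.q9a_le_norm C.q9a_Z2_le hx) _).1 (inv_mem hx')
        simpa [mul_assoc] using h1 }
  obtain ⟨h1, h2, h3, h4, h5⟩ := h s hs
  exact (C.q9a_gen (H := T) ⟨⟨m1, h1⟩, ⟨m2, h2⟩, ⟨m3, h3⟩, ⟨m4, h4⟩, ⟨m5, h5⟩⟩ ha).2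

theorem q9a_U_norm {s : Ω} (hs : s ∈ C.U) : s ∈ normalizerIn S C.A0 := by
  have key : ∀ s ∈ C.U, ∀ a ∈ C.A0, s * a * s⁻¹ ∈ C.A0 := fun s hs a ha => by
    simpa using mul_mem ha (C.q9a_Z2_le (C.dl_mem hs ha))
  refine mem_normalizerIn.2 ⟨C.lev_le 5 hs, mem_normalizer_iff.2 fun a => ⟨key s hs a, fun h => ?_⟩⟩
  simpa [mul_assoc] using key _ (inv_mem hs) _ h

theorem q9a_U_dec {u : Ω} (hu : u ∈ C.U) : ∃ s ∈ C.Z4, ∃ a ∈ C.Zp, u = s * a := by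
  have h : ∀ u ∈ C.U, ∃ a ∈ C.Zp, u * a⁻¹ ∈ C.Z4 := C.fo (by decide +kernel)
  obtain ⟨a, ha, h1⟩ := h u hu
  exact ⟨_, h1, a, ha, by simp⟩

theorem q9a_PP_dec {g : Ω} (hg : g ∈ C.PP) : ∃ a ∈ C.A0, ∃ u ∈ C.U, g = a * u := by
  have h : ∀ e ∈ C.RS, e ∈ C.PP → ∃ a ∈ C.A0, a⁻¹ * e ∈ C.U := C.fo (by decide +kernel)
  obtain ⟨t, ht, u, hu, rfl⟩ := C.exists_RS (C.PP_le hg)
  obtain ⟨a, ha, h1⟩ := h t ht (by simpa using mul_mem hg (inv_mem (C.U_le_PP hu)))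
  exact ⟨a, ha, _, mul_mem h1 hu, by simp [mul_assoc]⟩

theorem normalizer_A0 : normalizerIn S C.A0 = C.PP := by
  have h : ∀ e ∈ C.RS, e * C.a1 * e⁻¹ ∈ C.A0 → e * C.a2 * e⁻¹ ∈ C.A0 → e * C.a3 * e⁻¹ ∈ C.A0 → e ∈ C.PP :=
    C.fo (by decide +kernel)
  obtain ⟨-, -, -, -, -, -, -, -, -, -, m1, m2, m3, -⟩ := C.q9a_les
  refine le_antisymm (fun g hg => ?_) fun g hg => ?_
  · obtain ⟨t, ht, u, hu, rfl⟩ := C.exists_RS (normalizerIn_le hg)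
    have h1 : t ∈ normalizerIn S C.A0 := by simpa using mul_mem hg (inv_mem (C.q9a_U_norm hu))
    exact mul_mem (h t ht (conj_mem_of_mem_normalizerIn h1 m1) (conj_mem_of_mem_normalizerIn h1 m2)
      (conj_mem_of_mem_normalizerIn h1 m3)) (C.U_le_PP hu)
  · obtain ⟨a, ha, u, hu, rfl⟩ := C.q9a_PP_dec hg
    exact mul_mem (le_normalizerIn C.A0_le ha) (C.q9a_U_norm hu)

theorem q9a_cAut_one {a : Ω} (ha : a ∈ C.A0) : cAut C.A0 a = 1 :=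
  (cAut_eq_one_iff (le_normalizer ha)).2 (mem_centralizer_iff.2 fun _ hb => C.comm_A0 hb ha)

/-- `Aut_S(A0)` is induced by `Z4`. -/
theorem exists_cAut {α : MulAut C.A0} (h : α ∈ autInducedBy S C.A0) : ∃ s ∈ C.Z4, α = cAut C.A0 s := by
  obtain ⟨g, hg, rfl⟩ := mem_autInducedBy_iff_cAut.1 h
  rw [C.normalizer_A0] at hg
  obtain ⟨a, ha, u, hu, rfl⟩ := C.q9a_PP_dec hg
  obtain ⟨s, hs, b, hb, rfl⟩ := C.q9a_U_dec hu
  have hs' := normalizerIn_le_normalizer (C.q9a_U_norm (C.q9a_les.2.2.2.1 hs))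
  have hb' := C.q9a_les.2.1 hb
  refine ⟨s, hs, ?_⟩
  rw [cAut_mul (le_normalizer ha) (mul_mem hs' (le_normalizer hb')), cAut_mul hs' (le_normalizer hb'),
    C.q9a_cAut_one ha, C.q9a_cAut_one hb', one_mul, mul_one]

theorem dl_eq_one {s a : Ω} (hs : s ∈ C.U) (ha : a ∈ C.A0) :
    a⁻¹ * (s * a * s⁻¹) = 1 ↔ s ∈ C.Zp ∨ a ∈ C.Zp := by
  have h : ∀ s ∈ C.Z4, ∀ a ∈ C.A0, s * a = a * s → s ∈ C.Zp ∨ a ∈ C.Zp := C.fo (by decide +kernel)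
  have e : a⁻¹ * (s * a * s⁻¹) = 1 ↔ s * a = a * s := by
    rw [inv_mul_eq_one, eq_mul_inv_iff_mul_eq, eq_comm]
  rw [e]
  refine ⟨fun h1 => ?_, fun h1 => ?_⟩
  · obtain ⟨t, ht, b, hb, rfl⟩ := C.q9a_U_dec hs
    have h2 := C.comm_A0 (C.q9a_les.2.1 hb) ha
    rw [mul_assoc, h2, ← mul_assoc, ← mul_assoc, mul_left_inj] at h1
    exact (h t ht a ha h1).imp_left fun h3 => mul_mem h3 hb
  · rcases h1 with h1 | h1
    · exact C.comm_A0 (C.q9a_les.2.1 h1) ha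
    · exact C.q9a_cent hs h1

theorem q9a_mulOn {a : Ω} (ha : a ∈ C.A0) : MulOn C.U fun s => a⁻¹ * (s * a * s⁻¹) := by
  intro s hs t ht
  have h := C.q9a_cent hs (C.q9a_les.1 (C.dl_mem ht ha))
  calc a⁻¹ * (s * t * a * (s * t)⁻¹) = a⁻¹ * (s * a * s⁻¹) * (s * (a⁻¹ * (t * a * t⁻¹)) * s⁻¹) := by group
    _ = _ := by rw [h, mul_inv_cancel_right]

theorem exists_dl {a z : Ω} (ha : a ∈ C.A0) (ha' : a ∉ C.Zp) (hz : z ∈ C.Z2) :
    ∃ s ∈ C.U, a⁻¹ * (s * a * s⁻¹) = z := by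
  have h : ∀ a ∈ C.A0, ¬ a ∈ C.Zp → Let (a⁻¹ * (C.u1 * a * C.u1⁻¹)) fun p =>
      Let (a⁻¹ * (C.u2 * a * C.u2⁻¹)) fun q => ∀ z ∈ C.Z2, Q9aNine p q z := C.fo (by decide +kernel)
  obtain ⟨-, -, -, -, -, m1, m2, -⟩ := C.q9a_les
  exact (C.q9a_mulOn ha).mem_img.1 (q9a_nine (mem_img_of_mem (f := fun s => a⁻¹ * (s * a * s⁻¹)) m1)
    (mem_img_of_mem (f := fun s => a⁻¹ * (s * a * s⁻¹)) m2) (h a ha ha' z hz))

theorem q9a_two {z : Ω} (hz : z ∈ C.Z2) (h1 : z ≠ 1) :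
    ∃ y ∈ C.Z2, ∀ T : Subgroup Ω, z ∈ T → y ∈ T → C.Z2 ≤ T := by
  have h : ∀ z ∈ C.Z2, z ≠ 1 → ∃ y ∈ C.Z2, ∀ x ∈ C.Z2, Q9aNine z y x := C.fo (by decide +kernel)
  obtain ⟨y, hy, h2⟩ := h z hz h1
  exact ⟨y, hy, fun T h3 h4 x hx => q9a_nine h3 h4 (h2 x hx)⟩

theorem q9a_exists {z b : Ω} (hz : z ∈ C.Z2) (h1 : z ≠ 1) (hb : b ∈ C.A0) :
    ∃ s ∈ C.U, s ∉ C.A0 ∧ b⁻¹ * (s * b * s⁻¹) ∈ zpowers z := by
  obtain ⟨-, -, -, -, -, m1, -, m2, -, m3, -⟩ := C.q9a_les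
  by_cases h : b ∈ C.Zp
  · exact ⟨_, m1, fun h2 => m2 (m3 _ m1 h2), by rw [(C.dl_eq_one m1 hb).2 (Or.inr h)]; exact one_mem _⟩
  · obtain ⟨s, hs, e⟩ := C.exists_dl hb h hz
    refine ⟨s, hs, fun h2 => h1 ?_, by rw [e]; exact mem_zpowers z⟩
    rw [← e]
    exact (C.dl_eq_one hs hb).2 (Or.inl (m3 s hs h2))

theorem q9a_totA {s a : Ω} (hs : s ∈ C.U) (ha : a ∈ C.A0) : totA (cAut C.A0 s) a = s * a * s⁻¹ :=
  totA_cAut (normalizerIn_le_normalizer (C.q9a_U_norm hs)) ha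

theorem q9a_fix {s a : Ω} (hs : s ∈ C.U) (ha : a ∈ C.Zp) : totA (cAut C.A0 s) a = a := by
  rw [C.q9a_totA hs (C.q9a_les.2.1 ha), C.q9a_cent hs ha, mul_inv_cancel_right]

/-- The displacement of a conjugate automorphism. -/
theorem q9a_conj {E : Subgroup Ω} (l t : MulAut E) {a : Ω} (ha : a ∈ E) :
    (totA l a)⁻¹ * totA (l * t * l⁻¹) (totA l a) = totA l (a⁻¹ * totA t a) := by
  rw [totA_mul _ _ (totA_mem l ha), totA_inv_totA l ha, totA_mul _ _ ha,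
    (mulOn_totA l).map_mul (inv_mem ha) (totA_mem t ha), (mulOn_totA l).map_inv ha]

variable [Finite S] [Fact (Nat.Prime 3)] {F : FusionSystem S} (hS : IsPGroup 3 S) (hF : F.IsSaturated 3)
include hS hF

theorem q9_Z2 (hA : F.IsEssential 3 C.A0) {l : MulAut C.A0} (hl : l ∈ F.autGroup C.A0)
    (hl' : l ∉ F.extAut C.A0) {z : Ω} (hz : z ∈ C.Z2) (h : totA l z ∈ C.Z2) : z = 1 := by
  by_contra h1
  have := finite_of_le C.A0_le
  have hD := hA.essData hF hS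
  have hZ := C.q9a_Z2_le
  have hZp := C.q9a_les.1
  have h1' : totA l z ≠ 1 := fun e => h1 (by
    rw [← totA_inv_totA l (hZ hz), e, (mulOn_totA _).map_one])
  obtain ⟨y, hy, hyT⟩ := C.q9a_two hz h1
  obtain ⟨y', hy', hyT'⟩ := C.q9a_two h h1'
  obtain ⟨s, hs, hsA, es⟩ := C.q9a_exists h h1' (totA_mem l (hZ hy))
  obtain ⟨s', hs', hsA', es'⟩ := C.q9a_exists hz h1 (totA_mem l⁻¹ (hZ hy'))
  set t := cAut C.A0 s with ht
  set t' := l * cAut C.A0 s' * l⁻¹ with ht'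
  have hn : C.A0 ≤ normalizer (zpowers (totA l z) : Set Ω) := C.q9a_le_norm (zpowers_le.2 (hZ h))
  have f1 : totA t (totA l z) = totA l z := C.q9a_fix hs (hZp h)
  have f2 : ∀ a ∈ C.Z2, (totA l a)⁻¹ * totA t' (totA l a) = 1 := fun a ha => by
    rw [q9a_conj l _ (hZ ha), C.q9a_fix hs' (hZp ha), inv_mul_cancel, (mulOn_totA l).map_one]
  have hW1 : C.Z2 ≤ axis t _ hn ⊓ axis t' _ hn := by
    refine le_inf (fun a ha => mem_axis.2 ⟨hZ ha, ?_⟩) (hyT' _ (mem_axis.2 ⟨hZ h, ?_⟩) (mem_axis.2 ⟨hZ hy', ?_⟩))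
    · rw [C.q9a_fix hs (hZp ha), inv_mul_cancel]; exact one_mem _
    · rw [f2 z hz]; exact one_mem _
    · rw [← totA_totA_inv l (hZ hy'), q9a_conj l _ (totA_mem _ (hZ hy')), C.q9a_totA hs' (totA_mem _ (hZ hy'))]
      obtain ⟨k, hk⟩ := mem_zpowers_iff.1 es'
      rw [← hk, (mulOn_totA l).map_zpow (hZ hz)]
      exact zpow_mem (mem_zpowers _) k
  have hW2 : ∀ a ∈ C.Z2, totA l a ∈ axis t _ hn ⊓ axis t' _ hn := by
    intro a ha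
    refine ⟨?_, mem_axis.2 ⟨totA_mem l (hZ ha), by rw [f2 a ha]; exact one_mem _⟩⟩
    have h2 := hyT (zpowers z ⊔ zpowers y) (mem_sup_left (mem_zpowers z)) (mem_sup_right (mem_zpowers y)) ha
    refine ((mulOn_totA l).mono (sup_le (zpowers_le.2 (hZ hz)) (zpowers_le.2 (hZ hy)))).mapsTo_sup
      (R := axis t _ hn) ?_ ?_ a h2
    · intro x hx
      obtain ⟨k, rfl⟩ := mem_zpowers_iff.1 hx
      rw [(mulOn_totA l).map_zpow (hZ hz)]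
      exact zpow_mem (mem_axis.2 ⟨hZ h, by rw [f1, inv_mul_cancel]; exact one_mem _⟩) k
    · intro x hx
      obtain ⟨k, rfl⟩ := mem_zpowers_iff.1 hx
      rw [(mulOn_totA l).map_zpow (hZ hy)]
      exact zpow_mem (mem_axis.2 ⟨totA_mem l (hZ hy), by rw [C.q9a_totA hs (totA_mem l (hZ hy))]; exact es⟩) k
  let ch : ℕ → Subgroup Ω := fun i => match i with
    | 0 => C.A0
    | 1 => axis t _ hn ⊓ axis t' _ hn
    | 2 => zpowers (totA l z)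
    | _ => ⊥
  have anti : ∀ i < 3, ch (i + 1) ≤ ch i := by
    intro i hi
    interval_cases i
    · exact inf_le_left.trans axis_le
    · exact zpowers_le.2 (hW1 h)
    · exact bot_le
  have fz : ∀ α : MulAut C.A0, totA α (totA l z) = totA l z →
      ∀ x ∈ zpowers (totA l z), x⁻¹ * totA α x ∈ (⊥ : Subgroup Ω) := by
    intro α e x hx
    obtain ⟨k, rfl⟩ := mem_zpowers_iff.1 hx
    rw [(mulOn_totA α).map_zpow (hZ h), e, inv_mul_cancel]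
    exact one_mem _
  have m1 : t ∈ chainStab C.A0 ch 3 := by
    refine mem_chainStab_of le_rfl anti fun i hi => ?_
    interval_cases i
    · intro x hx
      rw [C.q9a_totA hs hx]
      exact hW1 (C.dl_mem hs hx)
    · exact fun x hx => (mem_axis.1 hx.1).2
    · exact fz t f1
  have m2 : t' ∈ chainStab C.A0 ch 3 := by
    refine mem_chainStab_of le_rfl anti fun i hi => ?_
    interval_cases i
    · intro x hx
      have hx' := totA_mem l⁻¹ hx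
      rw [← totA_totA_inv l hx, q9a_conj l _ hx', C.q9a_totA hs' hx']
      exact hW2 _ (C.dl_mem hs' hx')
    · exact fun x hx => (mem_axis.1 hx.2).2
    · exact fz t' (inv_mul_eq_one.1 (f2 z hz)).symm
  have hp : IsPGroup 3 (chainStab C.A0 ch 3) := isPGroup_chainStab (hS.to_le C.A0_le) rfl bot_le
  have n1 := C.q9a_U_norm hs
  have n2 := C.q9a_U_norm hs'
  have g2 : t' ∈ F.autGroup C.A0 := mul_mem (mul_mem hl (F.cAut_mem_autGroup C.A0_le n2)) (inv_mem hl)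
  have h3 := hD.pgroup_le (chainStab C.A0 ch 3 ⊓ F.autGroup C.A0) inf_le_right (hp.to_le inf_le_left) t
    ⟨m1, F.cAut_mem_autGroup C.A0_le n1⟩ (hD.cAut_mem n1) (hD.cAut_notMem_inn n1 hsA) ⟨m2, g2⟩
  exact hl' (hD.mem_of_conj_cAut hS n2 hsA' hl h3)

theorem q9_Zp (hA : F.IsEssential 3 C.A0) {l : MulAut C.A0} (hl : l ∈ F.autGroup C.A0)
    (hl' : l ∉ F.extAut C.A0) {z : Ω} (hz : z ∈ C.Z2) (h : totA l z ∈ C.Zp) : z = 1 := by
  have hD := hA.essData hF hS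
  obtain ⟨-, -, -, -, -, m1, -, m2, -, m3, -⟩ := C.q9a_les
  have n1 := C.q9a_U_norm m1
  have hz' := C.q9a_Z2_le hz
  refine C.q9_Z2 hS hF hA (l := l⁻¹ * cAut C.A0 C.u1 * l⁻¹⁻¹)
    (mul_mem (mul_mem (inv_mem hl) (F.cAut_mem_autGroup C.A0_le n1)) (inv_mem (inv_mem hl)))
    (fun h1 => hl' ?_) hz ?_
  · simpa using inv_mem (hD.mem_of_conj_cAut hS n1 (fun h2 => m2 (m3 _ m1 h2)) (inv_mem hl) h1)
  · rw [inv_inv, totA_mul _ _ hz', totA_mul _ _ (totA_mem l hz'), C.q9a_fix m1 h, totA_inv_totA l hz']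
    exact hz

/-- An automorphism normalizing `Z2` normalizes `Aut_S(A0)`. -/
theorem q9_norm (hA : F.IsEssential 3 C.A0) {k : MulAut C.A0} (hk : k ∈ F.autGroup C.A0)
    (h : ∀ z ∈ C.Z2, totA k z ∈ C.Z2) :
    ∀ a ∈ autInducedBy S C.A0, k * a * k⁻¹ ∈ autInducedBy S C.A0 := by
  have := finite_of_le C.A0_le
  let ch : ℕ → Subgroup Ω := fun i => match i with
    | 0 => C.A0
    | 1 => C.Z2
    | _ => ⊥
  have anti : ∀ i < 2, ch (i + 1) ≤ ch i := by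
    intro i hi
    interval_cases i
    · exact C.q9a_Z2_le
    · exact bot_le
  have hp : IsPGroup 3 (chainStab C.A0 ch 2) := isPGroup_chainStab (hS.to_le C.A0_le) rfl bot_le
  have h1 : autInducedBy S C.A0 ≤ chainStab C.A0 ch 2 := by
    intro a ha
    obtain ⟨s, hs, rfl⟩ := C.exists_cAut ha
    have hs' := C.q9a_les.2.2.2.1 hs
    refine mem_chainStab_of le_rfl anti fun i hi => ?_
    interval_cases i
    · intro x hx
      rw [C.q9a_totA hs' hx]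
      exact C.dl_mem hs' hx
    · intro x hx
      rw [C.q9a_fix hs' (C.q9a_les.1 hx), inv_mul_cancel]
      exact one_mem _
  have h2 := F.autInducedBy_le_autGroup C.A0_le
  intro a ha
  refine (hA.fullyAutomized hF hS).le_of_isPGroup hS (A := chainStab C.A0 ch 2 ⊓ F.autGroup C.A0)
    (hp.to_le inf_le_left) inf_le_right (le_inf h1 h2)
    ⟨conj_mem_chainStab (h1 ha) fun i hi => ?_,
      (F.autGroup C.A0).mul_mem ((F.autGroup C.A0).mul_mem hk (h2 ha)) ((F.autGroup C.A0).inv_mem hk)⟩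
  interval_cases i
  · exact mem_stabA_of_maps le_rfl fun x hx => totA_mem k hx
  · exact mem_stabA_of_maps C.q9a_Z2_le h
  · refine mem_stabA_of_maps bot_le fun x hx => ?_
    rw [mem_bot.1 hx, (mulOn_totA k).map_one]
    exact one_mem _

end Cfsg.Agent.Th3.Sy
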