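import Mathlib
import Cfsg.Agent.Th3.G1
import Cfsg.Agent.Th3.G2
import Cfsg.Agent.Th3.Q9a

/-! Strongly closed subgroups -/

set_option autoImplicit false
set_option maxRecDepth 100000
set_option synthInstance.maxSize 100000
set_option synthInstance.maxHeartbeats 400000

namespace Cfsg.Agent.Th3.Sy

open Cfsg.Agent.Spor Cfsg.Agent.Rec Cfsg.Agent.Fus Cfsg.FusionSystem Subgroup
open scoped commutatorElement

variable {Ω : Type*} [Group Ω] {S : Subgroup Ω} (C : Sy S)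

theorem lad_facts : C.z1 ≠ 1 ∧ C.z1 ∈ C.Z2 ∧ C.z1 ∈ C.A0 ∧ C.u1 ∈ C.Z3 ∧ C.u1 ∈ C.U ∧ C.u1 ∉ C.Z2 ∧ C.v ∈ C.Y5 ∧
    C.Y5 ≤ C.Wz ∧ C.Y5 ≤ C.Cc ∧ C.w ∈ C.Cc ∧ C.w ∉ C.Wz ∧ C.r ∈ C.E1 ∧ C.r ∈ C.E2 ∧ C.r ∉ C.Cc ∧ C.x ∈ C.E2 ∧
    C.x ∈ S ∧ C.y ∈ S := C.fo (by decide +kernel)

theorem lad_A0 : ∀ a ∈ C.A0, a ∈ C.Zp ∨ (a ∉ C.Wz ∧ a ∈ C.E1 ∧
    Let ⁅a, C.x⁆ fun b => Let ⁅b, C.y⁆ fun c => c ∈ C.U ∧ c ∉ C.Z2) := C.fo (by decide +kernel)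

theorem lad_D : C.D ≤ C.E2 := (C.le_iff.2.2.2.2.2.2.2.2.2.2.1.1 le_rfl).2

variable [Finite S] [Fact (Nat.Prime 3)] {F : FusionSystem S} (hS : IsPGroup 3 S) (hF : F.IsSaturated 3)
include hS hF

omit hF in
theorem lad_Z1 {R : Subgroup Ω} (hR : F.StronglyClosed R) (hne : R ≠ ⊥) : C.Z1 ≤ R := by
  have hn : (R.subgroupOf S).Normal := ⟨fun a ha g => hR.conj_mem g.2 ha⟩
  obtain ⟨z, h1, h2, h3, -⟩ := GT.PG.exists_mem_center_of_normal hS (R.subgroupOf S) fun e =>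
    hne ((subgroupOf_eq_bot.1 e).eq_bot_of_le hR.le)
  have h4 : (z : Ω) ∈ C.Z1 := C.center_S ▸ ⟨z.2, mem_centralizer_iff.2 fun g hg =>
    congrArg Subtype.val (mem_center_iff.1 h2 ⟨g, hg⟩)⟩
  refine C.le_iff.2.2.2.2.2.2.2.2.2.1.2 ?_
  rcases C.mem_Z1.1 h4 with e | e | e
  · exact absurd (Subtype.ext e) h3
  · exact e ▸ h1
  · exact (inv_mem_iff (x := C.z1)).1 (e ▸ h1)

theorem lad_U (h1 : F.IsEssential 3 C.E1) {R : Subgroup Ω} (hR : F.StronglyClosed R) (hZ : C.Z2 ≤ R) {u : Ω}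
    (hu : u ∈ R) (hu1 : u ∈ C.U) (hu2 : u ∉ C.Z2) : C.U ≤ R := by
  rcases C.inv1_U hS hF h1 ((hR.invA C.E1_le).inf (C.inv1U _))
    (le_inf (le_inf hZ (C.lev_mono (by norm_num))) (C.lev_mono (by norm_num))) inf_le_right with e | e
  · exact absurd (e ▸ (⟨⟨hu, C.lev_mono (s := 5) (by norm_num) hu1⟩, hu1⟩ : u ∈ R ⊓ C.E1 ⊓ C.U)) hu2
  · exact e.ge.trans (inf_le_left.trans inf_le_left)

theorem lad_E1 (h1 : F.IsEssential 3 C.E1) {R : Subgroup Ω} (hR : F.StronglyClosed R) (hU : C.U ≤ R)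
    (hW : ¬ R ⊓ C.E1 ≤ C.Wz) : C.E1 ≤ R :=
  ((C.inv1_E1 hS hF h1 (hR.invA C.E1_le) (le_inf hU (C.lev_mono (by norm_num)))).resolve_left hW).ge.trans inf_le_left

theorem ladder (h1 : F.IsEssential 3 C.E1) (h2 : F.IsEssential 3 C.E2 ∨ F.IsEssential 3 C.A0) {R : Subgroup Ω}
    (hR : F.StronglyClosed R) (hne : R ≠ ⊥) : R = S ∨ (R = C.E1 ∧ ¬ F.IsEssential 3 C.E2) := by
  obtain ⟨f1, f2, f3, f4, f5, f6, f7, f8, f9, f10, f11, f12, f13, f14, f15, f16, f17⟩ := C.lad_facts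
  have hZ1 := C.lad_Z1 hS hR hne
  have hZ2 : C.Z2 ≤ R := (C.inv1_Z2 hS hF h1 (hR.invA C.E1_le)
    (le_inf hZ1 (C.lev_mono (by norm_num)))).trans inf_le_left
  have lE2 : ∀ t ≤ 8, C.lev t ≤ C.E2 := fun t ht => (C.lev_mono ht).trans C.lad_D
  by_cases hE : F.IsEssential 3 C.E2
  · left
    have i2 := hR.invA (F := F) C.E2_le
    have hZ3 : C.Z3 ≤ R := by
      rcases C.eq_or_eq_lev (t := 2) (X := R ⊓ C.E2 ⊓ C.Z3) (by norm_num)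
        (le_inf (le_inf hZ2 (lE2 2 (by norm_num))) (C.lev_mono (by norm_num))) inf_le_right with e | e
      · exact absurd (show InvA _ (C.lev 2) from e ▸ i2.inf (C.inv2Z3 _)) (C.not_inv2_Z2 hS hF hE)
      · exact e.ge.trans (inf_le_left.trans inf_le_left)
    have hU := C.lad_U hS hF h1 hR hZ2 (hZ3 f4) f5 f6
    have hC : C.Cc ≤ R ⊓ C.E2 ⊓ C.Cc ⊔ C.Y5 := by
      rcases C.eq_or_eq_lev (t := 6) (X := R ⊓ C.E2 ⊓ C.Cc ⊔ C.Y5) (by norm_num)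
        (C.le_iff.2.2.2.2.1.2 ⟨mem_sup_right f7, le_sup_of_le_left
          (le_inf (le_inf hU (lE2 5 (by norm_num))) (C.lev_mono (by norm_num)))⟩) (sup_le inf_le_right f9) with e | e
      · exact absurd (show InvA _ (C.lev 6) from e ▸ (i2.inf (C.inv2Cc _)).sup (C.inv2Y5 _))
          (C.not_inv2_Z5 hS hF hE)
      · exact e.ge
    have hE1 := C.lad_E1 hS hF h1 hR hU fun h => f11 ((hC.trans (sup_le (le_trans
      (le_inf (inf_le_left.trans inf_le_left) (inf_le_right.trans (C.lev_mono (by norm_num)))) h) f8)) f10)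
    rcases C.inv2_E2 hS hF hE i2 (le_inf ((C.lev_mono (s := 7) (by norm_num)).trans hE1) (lE2 7 (by norm_num)))
      with e | e
    · exact absurd (e ▸ (⟨hE1 f12, f13⟩ : C.r ∈ R ⊓ C.E2)) f14
    · exact le_antisymm hR.le (C.le_iff.1.2 ⟨(e.ge f15).1, hE1⟩)
  · have hA := h2.resolve_left hE
    obtain ⟨l, hl, hl'⟩ := (hA.essData hF hS).exists_not_mem
    have ha := (hR.invA (F := F) C.A0_le).mem hl (⟨hZ2 f2, f3⟩ : C.z1 ∈ R ⊓ C.A0)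
    obtain ⟨a1, a2, a3, a4⟩ := (C.lad_A0 _ ha.2).resolve_left fun h => f1 (C.q9_Zp hS hF hA hl hl' f2 h)
    have cm : ∀ a ∈ R, ∀ s ∈ S, ⁅a, s⁆ ∈ R := fun a ha s hs => by
      have := mul_mem ha (hR.conj_mem hs (inv_mem ha))
      rwa [← mul_assoc, ← mul_assoc, ← commutatorElement_def] at this
    have hU := C.lad_U hS hF h1 hR hZ2 (cm _ (cm _ ha.1 _ f16) _ f17) a3 a4
    have hE1 := C.lad_E1 hS hF h1 hR hU fun h => a1 (h ⟨ha.1, a2⟩)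
    exact ((C.eq_or_eq_lev (t := 9) (by norm_num) hE1 (hR.le.trans C.lev_ten.ge)).imp (fun e => ⟨e, hE⟩)
      fun e => e.trans C.lev_ten).symm

end Cfsg.Agent.Th3.Sy
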