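import Mathlib
import Cfsg.Agent.Th3.K0
import Cfsg.Agent.Inv.SPECore

/-! The subgroup PP is not essential -/

set_option autoImplicit false
set_option maxRecDepth 100000
set_option synthInstance.maxSize 100000
set_option synthInstance.maxHeartbeats 400000

namespace Cfsg.Agent.Th3.Sy

open Cfsg.Agent.Spor Cfsg.Agent.Rec Cfsg.Agent.Fus Cfsg.FusionSystem Subgroup
open scoped commutatorElement

variable {Ω : Type*} [Group Ω] {S : Subgroup Ω} (C : Sy S)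

/-- Coprime generation in the automizer of an essential subgroup. -/
theorem nop_le_extAut [Finite S] {p : ℕ} [Fact p.Prime] {F : FusionSystem S} {E : Subgroup Ω} (hS : IsPGroup p S)
    (hF : F.IsSaturated p) (hE : F.IsEssential p E) {N : Subgroup (MulAut E)}
    (hNn : ∀ l ∈ F.autGroup E, ∀ α ∈ N, l * α * l⁻¹ ∈ N) (hN : ∀ s ∈ normalizerIn S E, cAut E s ∈ N → s ∈ E)
    {a b : Ω} (ha : a ∈ normalizerIn S E) (hb : b ∈ normalizerIn S E) (haE : a ∉ E) (hap : a ^ p ∈ E)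
    (hbp : b ^ p ∈ E) (hab : ⁅a, b⁆ ∈ E) (hn : ∀ k < p, (a ^ k)⁻¹ * b ∉ E) : N ⊓ F.autGroup E ≤ F.extAut E := by
  classical
  have := finite_of_le hE.le
  obtain ⟨hc, -, hnorm, -⟩ := id hE
  have hL := hF.liftSPE_of_isEssential hS hE
  have hM := (strEmb_map_iff hL.le hL.lt.le).2 hL
  have D := hE.essData hF hS
  set Γ := F.autGroup E
  set π := QuotientGroup.mk' ((Inn E).subgroupOf Γ) with hπ
  have hπ1 : ∀ a : Γ, π a = 1 ↔ (a : MulAut E) ∈ Inn E := fun a => by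
    rw [hπ, QuotientGroup.mk'_apply, QuotientGroup.eq_one_iff, mem_subgroupOf]
  let φ : normalizerIn S E →* Γ ⧸ (Inn E).subgroupOf Γ :=
    MonoidHom.mk' (fun s => π ⟨cAut E s, F.cAut_mem_autGroup hE.le s.2⟩) fun s t => by
      rw [← map_mul]; exact congrArg π (Subtype.ext (cAut_mul s.2.2 t.2.2))
  have hφ : ∀ s, φ s = 1 ↔ (s : Ω) ∈ E := fun s => (hπ1 _).trans (hc.cAut_mem_inn_iff s.2)
  have o : ∀ s : normalizerIn S E, (s : Ω) ∉ E → (s : Ω) ^ p ∈ E → orderOf (φ s) = p := fun s h1 h2 =>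
    orderOf_eq_prime (by rw [← map_pow, hφ]; exact h2) fun e => h1 ((hφ s).1 e)
  have oa := o ⟨a, ha⟩ haE hap
  obtain ⟨h1, h2, h3⟩ := Inv.SE.closure_pair_noncyclic oa
    (o ⟨b, hb⟩ (by simpa using hn 0 (Fact.out : p.Prime).pos) hbp)
    (commutatorElement_eq_one_iff_mul_comm.1 (by rw [← map_commutatorElement, hφ]; exact hab)) fun h => by
      obtain ⟨k, hk, e⟩ := Finset.mem_image.1 (mem_zpowers_iff_mem_range_orderOf.1 h)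
      refine hn k (by rwa [Finset.mem_range, oa] at hk) ((hφ ((⟨a, ha⟩ ^ k)⁻¹ * ⟨b, hb⟩)).1 ?_)
      rw [map_mul, map_inv, map_pow, e, inv_mul_cancel]
  have nN : (N.subgroupOf Γ).Normal := ⟨fun n hn l => hNn l l.2 n hn⟩
  have nM := nN.map π (QuotientGroup.mk'_surjective _)
  have h4 := hM.le_of_noncyclic (K := (N.subgroupOf Γ).map π) ((closure_le _).2 (by
    rintro _ (rfl | rfl)
    exacts [mem_map_of_mem π (D.cAut_mem ha), mem_map_of_mem π (D.cAut_mem hb)])) h1 h2 h3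
    le_normalizer_of_normal fun h => by
      obtain ⟨_, ⟨n, hn, rfl⟩, e⟩ := Inv.SE.exists_mem_orderOf_eq h
      obtain ⟨k, hk⟩ := isPGroup_inn (hS.to_le hE.le) ⟨_, (hπ1 (n ^ p)).1 (by rw [map_pow, ← e, pow_orderOf_eq_one])⟩
      obtain ⟨χ, hχ, h5⟩ := (hE.fullyAutomized hF hS).exists_conj hS (A := zpowers (n : MulAut E))
        (isPGroup_zpowers_of_pow (j := k + 1) (by rw [pow_succ', pow_mul]; exact congrArg Subtype.val hk))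
        (zpowers_le.2 n.2)
      obtain ⟨s, hs, h6⟩ := mem_autInducedBy_iff_cAut.1 (h5 _ (mem_zpowers _))
      have h7 := (hπ1 (⟨χ, hχ⟩ * n * ⟨χ, hχ⟩⁻¹)).2 (h6 ▸ cAut_mem_inn (hN s hs (h6 ▸ hNn χ hχ n hn)) :)
      rw [map_mul, map_mul, map_inv, conj_eq_one_iff] at h7
      rw [h7, orderOf_one] at e
      exact (Fact.out : p.Prime).one_lt.ne e
  intro n hn
  obtain ⟨m, hm, e⟩ := h4 (mem_map_of_mem π (show (⟨n, hn.2⟩ : Γ) ∈ N.subgroupOf Γ from hn.1))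
  simpa using mul_mem (mem_subgroupOf.1 hm) (hL.le ((hπ1 (m⁻¹ * ⟨n, hn.2⟩)).1 (by
    rw [map_mul, map_inv, e, inv_mul_cancel])))

theorem nop_PP_le {H : Subgroup Ω} (hy : C.y ∈ H) (ha : C.a2 ∈ H) (hU : C.U ≤ H) : C.PP ≤ H := by
  have e : C.a2 = C.elt 3888 * C.u1 :=
    (congrArg C.elt (show 3897 = mul 3888 9 by decide +kernel)).trans (C.mul_ok (by norm_num) (by norm_num)).2
  have h : C.u1 ∈ C.U := C.fo (by decide +kernel)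
  rw [PP, lPP, C.sub_cons, C.sub_cons, ← levL_5]
  exact sup_le (zpowers_le.2 hy) (sup_le (zpowers_le.2 ((mul_mem_cancel_right (hU h)).1 (e ▸ ha))) hU)

theorem nop_le : C.U ≤ C.PP ∧ C.Zp ≤ C.U ∧ C.Z2 ≤ C.Zp ∧ C.a3 ∈ C.Zp ∧ C.z2 ∈ C.Zp ∧ C.y ∈ C.PP ∧ C.a2 ∈ C.PP ∧
    C.u1 ∈ C.PP ∧ C.u2 ∈ C.PP ∧ ∀ t ∈ C.R1, t ∈ C.E1 := C.fo (by decide +kernel)

theorem nop_cent : C.PP ≤ centralizer (C.Zp : Set Ω) := by
  have h : ∀ z ∈ C.Zp, z * C.y = C.y * z ∧ z * C.a2 = C.a2 * z ∧ ∀ u ∈ C.U, z * u = u * z := C.fo (by decide +kernel)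
  exact C.nop_PP_le (fun z hz => (h z hz).1) (fun z hz => (h z hz).2.1) fun u hu z hz => (h z hz).2.2 u hu

theorem nop_Zp : C.PP ⊓ centralizer (C.PP : Set Ω) = C.Zp := by
  have h : ∀ g ∈ C.PP, C.y * g = g * C.y → C.a2 * g = g * C.a2 → C.u1 * g = g * C.u1 → C.u2 * g = g * C.u2 →
      g ∈ C.Zp := C.fo (by decide +kernel)
  obtain ⟨h1, h2, -, -, -, h3, h4, h5, h6, -⟩ := C.nop_le
  exact le_antisymm (fun g hg => h g hg.1 (hg.2 _ h3) (hg.2 _ h4) (hg.2 _ h5) (hg.2 _ h6))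
    (le_inf (h2.trans h1) (le_centralizer_iff.1 C.nop_cent))

theorem nop_Z2 : ⁅C.PP, C.PP⁆ = C.Z2 := by
  have h : ∀ a ∈ C.PP, ⁅C.y, a⁆ ∈ C.Z2 ∧ ⁅C.a2, a⁆ ∈ C.Z2 ∧ ⁅C.u3, a⁆ ∈ C.Z2 ∧ ⁅C.u2, a⁆ ∈ C.Z2 ∧ ⁅C.u1, a⁆ ∈ C.Z2 :=
    C.fo (by decide +kernel)
  have h' : (∃ u ∈ C.U, ⁅C.y, u⁆ = C.z2) ∧ (∃ u ∈ C.U, ⁅C.a2, u⁆ = C.z1) ∧ C.u3 ∈ S ∧ C.u2 ∈ S ∧ C.u1 ∈ S :=
    C.fo (by decide +kernel)
  obtain ⟨⟨u, hu, e⟩, ⟨u', hu', e'⟩, m3, m2, m1⟩ := h'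
  obtain ⟨h1, -, -, -, -, h3, h4, -⟩ := C.nop_le
  have n := C.le_normalizer_lev 2
  obtain ⟨-, -, -, -, -, a6, a7, a8, -⟩ := C.le_iff (H := TermA.cmd (C.PP : Set Ω) C.Z2)
  obtain ⟨-, -, -, -, -, -, -, -, a9, a10, -⟩ := C.le_iff (H := ⁅C.PP, C.PP⁆)
  refine le_antisymm (commutator_le.2 fun a ha => (C.nop_PP_le (H := TermA.cmd (C.PP : Set Ω) C.Z2)
    ⟨n (C.PP_le h3), fun a ha => (h a ha).1⟩ ⟨n (C.PP_le h4), fun a ha => (h a ha).2.1⟩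
    (a6.2 ⟨⟨n m3, fun a ha => (h a ha).2.2.1⟩, a7.2 ⟨⟨n m2, fun a ha => (h a ha).2.2.2.1⟩,
      a8.2 ⟨⟨n m1, fun a ha => (h a ha).2.2.2.2⟩, fun z hz => ⟨le_normalizer hz, fun a ha => ?_⟩⟩⟩⟩) ha).2)
    (a9.2 ⟨e ▸ commutator_mem_commutator h3 (h1 hu), a10.2 (e' ▸ commutator_mem_commutator h4 (h1 hu'))⟩)
  rw [commutatorElement_def, mul_assoc, mul_assoc, ← mul_assoc a]
  exact mul_mem hz ((mem_normalizer_iff.1 (n (C.PP_le ha)) _).1 (inv_mem hz))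

theorem nop_norm : C.E1 ≤ normalizerIn S C.PP := fun g hg => by
  have := C.finite
  have : Finite C.PP := finite_of_le C.PP_le
  have h : ∀ t ∈ C.R1, t * C.y * t⁻¹ ∈ C.PP ∧ t * C.a2 * t⁻¹ ∈ C.PP := C.fo (by decide +kernel)
  obtain ⟨t, ht, u, hu, rfl⟩ := C.exists_R1 hg
  refine ⟨C.E1_le hg, mul_mem (mem_normalizer_fintype fun x hx => ?_) (le_normalizer (C.nop_le.1 hu))⟩
  exact C.nop_PP_le (H := C.PP.comap (MulAut.conj t).toMonoidHom) (h t ht).1 (h t ht).2 (fun v hv => C.nop_le.1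
    ((mem_normalizer_iff.1 (C.le_normalizer_lev 5 (C.E1_le (C.nop_le.2.2.2.2.2.2.2.2.2 t ht))) v).1 hv)) hx

variable [Finite S] [Fact (Nat.Prime 3)] {F : FusionSystem S} (hS : IsPGroup 3 S) (hF : F.IsSaturated 3)
include hS hF

theorem not_ess_PP : ¬ F.IsEssential 3 C.PP := fun hE => by
  have : Finite C.PP := finite_of_le C.PP_le
  have D := hE.essData hF hS
  obtain ⟨h1, h2, h3, h4, h5, -, -, -, -, h6⟩ := C.nop_le
  have f1 : (∀ t ∈ C.RS, C.a3 * t = t * C.a3 → C.z2 * t = t * C.z2 → t ∈ C.PP) ∧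
      (∀ z ∈ C.Z2, ∃ s ∈ C.R1, s * C.a3 * s⁻¹ = C.a3 * z) ∧ (∀ z ∈ C.Zp, z⁻¹ * (C.r * z * C.r⁻¹) ∈ C.Z2) ∧
      C.r ∈ C.E1 ∧ C.w ∈ C.E1 ∧ C.r ∉ C.PP ∧ C.r ^ 3 ∈ C.PP ∧ C.w ^ 3 ∈ C.PP ∧ ⁅C.r, C.w⁆ ∈ C.PP ∧
      (C.r ^ 0)⁻¹ * C.w ∉ C.PP ∧ (C.r ^ 1)⁻¹ * C.w ∉ C.PP ∧ (C.r ^ 2)⁻¹ * C.w ∉ C.PP := C.fo (by decide +kernel)
  obtain ⟨f1, f2, f3, r1, w1, r2, r3, w3, rw, k0, k1, k2⟩ := f1
  have iP : InvA (F.autGroup C.PP) C.Zp := C.nop_Zp ▸ (invA_top _).inf_centralizer (invA_top _)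
  have i2 : InvA (F.autGroup C.PP) C.Z2 := C.nop_Z2 ▸ (invA_top _).commutator (invA_top _)
  have i0 := invA_bot (F.autGroup C.PP)
  have c2 : ∀ s ∈ C.E1, ∀ z ∈ C.Z2, totA (cAut C.PP s) z = z := fun s hs z hz => by
    rw [totA_cAut (C.nop_norm hs).2 (i2.le hz), conj_eq_of_mem_centralizer (C.centralizer_Z2.ge hs).2 hz]
  have hN := nop_le_extAut hS hF hE (N := secStab C.PP C.Zp ⊥)
    (fun l hl α hα => conj_mem_secStab hα (iP.le_stabA hl) (i0.le_stabA hl)) (fun s hs h => by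
      obtain ⟨t, ht, u, hu, e⟩ := C.exists_RS hs.1
      have a1 : s ∈ centralizer (C.Zp : Set Ω) := mem_centralizer_of_conj_eq fun z hz => by
        rw [← totA_cAut hs.2 (iP.le hz)]
        exact (inv_mul_eq_one.1 (mem_bot.1 (h.2 z hz (iP.le hz)))).symm
      have a2 := (mul_mem_cancel_right (C.nop_cent (h1 hu))).1 (e ▸ a1)
      exact e ▸ mul_mem (f1 t ht (a2 _ h4) (a2 _ h5)) (h1 hu))
    (C.nop_norm r1) (C.nop_norm w1) r2 r3 w3 rw fun k hk => by interval_cases k <;> assumption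
  refine D.not_le_of_normal hS (K := secStab C.PP C.Zp C.Z2 ⊓ secStab C.PP C.Z2 ⊥)
    (fun l hl α hα => ⟨conj_mem_secStab hα.1 (iP.le_stabA hl) (i2.le_stabA hl),
      conj_mem_secStab hα.2 (i2.le_stabA hl) (i0.le_stabA hl)⟩) (C.nop_norm r1) r2
    ⟨mem_secStab_of iP.le h3 fun z hz => by rw [totA_cAut (C.nop_norm r1).2 (iP.le hz)]; exact f3 z hz,
      mem_secStab_of i2.le bot_le fun z hz => by rw [c2 _ r1 z hz, inv_mul_cancel]; exact one_mem _⟩ fun κ hκ => ?_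
  obtain ⟨s, hs, e⟩ := f2 _ (hκ.1.1.2 _ h4 (iP.le h4))
  have hs' := C.nop_norm (h6 s hs)
  have a1 : C.Zp ≤ fixA (zpowers (κ⁻¹ * cAut C.PP s)) := C.le_iff.2.2.2.2.2.2.2.2.2.2.2.2.2.2.1.2
    ⟨mem_fixA_zpowers.2 ⟨iP.le h4, by
      rw [totA_mul _ _ (iP.le h4), totA_cAut hs'.2 (iP.le h4), e, mul_inv_cancel_left, totA_inv_totA _ (iP.le h4)]⟩,
    fun z hz => mem_fixA_zpowers.2 ⟨i2.le hz, by
      rw [totA_mul _ _ (i2.le hz), c2 _ (h6 s hs) z hz]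
      exact totA_inv_fix (i2.le hz) (inv_mul_eq_one.1 (mem_bot.1 (hκ.1.2.2 z hz (i2.le hz)))).symm⟩⟩
  have a2 := hN (x := κ⁻¹ * cAut C.PP s) ⟨mem_secStab_of iP.le bot_le fun z hz => by
    rw [(mem_fixA_zpowers.1 (a1 hz)).2, inv_mul_cancel]; exact one_mem _,
    mul_mem (Subgroup.inv_mem _ hκ.2) (F.cAut_mem_autGroup C.PP_le hs')⟩
  exact inv_mem_iff.1 ((mul_mem_cancel_right (D.cAut_mem hs')).1 a2)

end Cfsg.Agent.Th3.Sy
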