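import Mathlib
import Cfsg.Agent.Th3.K1

/-! The automizer of S -/

set_option autoImplicit false
set_option maxRecDepth 100000
set_option synthInstance.maxSize 100000
set_option synthInstance.maxHeartbeats 400000

namespace Cfsg.Agent.Th3.Sy

open Cfsg.Agent.Spor Cfsg.Agent.Rec Cfsg.Agent.Fus Cfsg.FusionSystem Subgroup
open scoped commutatorElement

variable {Ω : Type*} [Group Ω] {S : Subgroup Ω} (C : Sy S)

namespace Out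

theorem mems : C.z1 ∈ S ∧ C.z2 ∈ S ∧ C.z1 ∈ C.Z1 ∧ C.z2 ∈ C.Z2 ∧ C.z1 ≠ 1 ∧ C.z2 ∉ C.Z1 ∧ C.Z1 ≤ C.Z2 ∧
    C.x * C.z2 * C.x⁻¹ = C.z2 * C.z1 ^ 2 := C.fo (by decide +kernel)

/-- The signs of an automorphism on `Z1` and on `Z2/Z1`. -/
def Sg (α : MulAut S) (c d : Ω) : Prop := totA α C.z1 = c ∧ d⁻¹ * totA α C.z2 ∈ C.Z1

theorem z1_cases (α : MulAut S) : totA α C.z1 = C.z1 ∨ totA α C.z1 = C.z1⁻¹ := by
  obtain ⟨m1, -, m3, -, m5, -⟩ := mems C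
  exact (C.mem_Z1.1 ((C.invS_Z1 ⊤).mem (α := α) trivial m3)).resolve_left fun e =>
    m5 ((totA_eq_one_iff α m1).1 e)

theorem z2_cases (α : MulAut S) : C.z2⁻¹ * totA α C.z2 ∈ C.Z1 ∨ C.z2⁻¹⁻¹ * totA α C.z2 ∈ C.Z1 := by
  have h : ∀ z ∈ C.Z2, z ∈ C.Z1 ∨ C.z2⁻¹ * z ∈ C.Z1 ∨ C.z2⁻¹⁻¹ * z ∈ C.Z1 := C.fo (by decide +kernel)
  obtain ⟨-, m2, -, m4, -, m6, -⟩ := mems C
  exact (h _ ((C.invS_Z2 ⊤).mem (α := α) trivial m4)).resolve_left fun e =>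
    m6 (((C.invS_Z1 ⊤).mem_iff (α := α) trivial m2).1 e)

theorem sg_gamma {γ : MulAut S} (h3 : C.x * totA γ C.x ∈ C.E1) : Sg C γ C.z1 C.z2⁻¹ ∨ Sg C γ C.z1⁻¹ C.z2 := by
  have h : ∀ z ∈ C.Z2, ∀ c ∈ C.Z1, C.x⁻¹ * z * C.x = z * c ^ 2 → c ≠ 1 →
      (c = C.z1 ∧ C.z2⁻¹⁻¹ * z ∈ C.Z1) ∨ (c = C.z1⁻¹ ∧ C.z2⁻¹ * z ∈ C.Z1) := C.fo (by decide +kernel)
  obtain ⟨m1, m2, m3, m4, m5, -, -, e⟩ := mems C
  have m := mulOn_totA γ
  have hz := (C.invS_Z2 ⊤).mem (α := γ) trivial m4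
  refine h _ hz _ ((C.invS_Z1 ⊤).mem (α := γ) trivial m3) ?_ fun e => m5 ((totA_eq_one_iff γ m1).1 e)
  rw [← m.map_pow m1, ← m.map_mul m2 (pow_mem m1 2), ← e, m.map_conj C.gens_mem.1 m2]
  have e2 := K1.Z2_comm C hz h3
  calc C.x⁻¹ * totA γ C.z2 * C.x = C.x⁻¹ * (totA γ C.z2 * (C.x * totA γ C.x)) * (totA γ C.x)⁻¹ := by group
    _ = _ := by rw [e2]; group

theorem sg_mul {β γ : MulAut S} (h1 : totA β C.z1 = C.z1⁻¹) (h2 : totA β C.z2 = C.z2⁻¹) :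
    (Sg C γ C.z1 C.z2⁻¹ → Sg C (β * γ) C.z1⁻¹ C.z2) ∧ (Sg C γ C.z1⁻¹ C.z2 → Sg C (β * γ) C.z1 C.z2⁻¹) := by
  obtain ⟨m1, m2, -⟩ := mems C
  have m := mulOn_totA β
  refine ⟨fun h => ⟨by rw [totA_mul _ _ m1, h.1, h1], ?_⟩,
    fun h => ⟨by rw [totA_mul _ _ m1, h.1, m.map_inv m1, h1, inv_inv], ?_⟩⟩
  · have := (C.invS_Z1 ⊤).mem (α := β) trivial h.2
    rwa [inv_inv, m.map_mul m2 (totA_mem γ m2), h2, ← totA_mul _ _ m2] at this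
  · have := (C.invS_Z1 ⊤).mem (α := β) trivial h.2
    rwa [m.map_mul (inv_mem m2) (totA_mem γ m2), m.map_inv m2, h2, ← totA_mul _ _ m2] at this

theorem centr_E1 : S ⊓ centralizer (C.E1 : Set Ω) ≤ C.E1 := fun _ hg =>
  C.centralizer_Z2.le (mem_inf.2 ⟨(mem_inf.1 hg).1,
    centralizer_le ((K1.Z2_le C).trans (K1.U_le C)) (mem_inf.1 hg).2⟩)

variable [Finite S]

theorem mem_K {φ : MulAut S} (h : Sg C φ C.z1 C.z2) : φ ∈ secStab S C.Z2 C.Z1 ⊓ secStab S C.Z1 ⊥ := by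
  obtain ⟨m1, m2, m3, -, -, -, m7, -⟩ := mems C
  have k : ∀ z ∈ C.Z1, totA φ z = z := fun z hz => by
    rcases C.mem_Z1.1 hz with rfl | rfl | rfl
    exacts [(mulOn_totA φ).map_one, h.1, by rw [(mulOn_totA φ).map_inv m1, h.1]]
  refine ⟨mem_secStab_of (C.lev_le 2) m7 fun z hz => ?_, mem_secStab_of (C.lev_le 1) bot_le fun z hz => ?_⟩
  · obtain ⟨-, -, -, -, -, -, -, -, a9, -⟩ := C.le_iff (H := axis φ C.Z1 (C.le_normalizer_lev 1))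
    exact (a9.2 ⟨⟨m2, h.2⟩, fun z hz => ⟨C.lev_le 1 hz, by rw [k z hz, inv_mul_cancel]; exact one_mem _⟩⟩ hz).2
  · rw [k z hz, inv_mul_cancel]; exact one_mem _

variable [Fact (Nat.Prime 3)] {F : FusionSystem S} (hS : IsPGroup 3 S)
include hS

theorem pgroup_K : IsPGroup 3 ((secStab S C.Z2 C.Z1 ⊓ secStab S C.Z1 ⊥) ⊓ F.autGroup S : Subgroup _) := by
  refine isPGroup_of_forall_coprime fun α ⟨⟨h1, h2⟩, hα⟩ hco => ?_
  have hA := coprime_card_zpowers hco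
  obtain ⟨-, -, m3, m4, -, -, m7, -⟩ := mems C
  have f1 : C.Z1 ≤ fixA (zpowers α) := (commA_eq_bot_iff (C.lev_le 1)).1
    (le_bot_iff.1 (commA_le_of_le_secStab (zpowers_le.2 h2)))
  have f2 : C.Z2 ≤ fixA (zpowers α) := (C.invS_Z2 _).le_fixA_of_commA_le_fixA hS hA
    ((commA_le_of_le_secStab (zpowers_le.2 h1)).trans f1)
  have : Finite C.E1 := finite_of_le C.E1_le
  obtain ⟨α1, -, e⟩ := (((F.mor_totA le_rfl hα).mono C.E1_le).iso_self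
    fun x hx => (C.invS_E1 ⊤).mem trivial hx).exists_aut
  have mz : ∀ z ∈ C.Z2, totA α1 z = z := fun z hz => by
    rw [e z (K1.U_le C (K1.Z2_le C hz))]; exact (mem_fixA_zpowers.1 (f2 hz)).2
  have f3 : C.E1 ≤ fixA (zpowers α) := le_fixA_of_commA_le_frattini hS hA C.E1_le
    ((commA_zpowers_le C.E1_le (fun x hx => (C.invS_E1 ⊤).mem trivial hx) fun x hx =>
      e x hx ▸ C.scalar_one α1 (mz _ (m7 m3)) (mz _ m4) x hx).trans (C.comm_E1 ▸ le_sup_left))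
  exact eq_one_of_forall_totA fun x hx => (mem_fixA_zpowers.1
    ((invA_top _).le_fixA_of_centralizer_le hS hA C.E1_le f3 ((centr_E1 C).trans f3) hx)).2

theorem key (hF : F.IsSaturated 3) {E : FusionSystem S} (hE : E.IsSubsystemOf F) {α δ : MulAut S}
    (hα : α ∈ F.autGroup S) (hδ : δ ∈ E.autGroup S) {c d : Ω} (h1 : Sg C α c d) (h2 : Sg C δ c d) :
    α ∈ E.autGroup S := by
  obtain ⟨m1, m2, -⟩ := mems C
  have k : Sg C (δ⁻¹ * α) C.z1 C.z2 := ⟨by rw [totA_mul _ _ m1, h1.1, ← h2.1, totA_inv_totA _ m1], by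
    have := (C.invS_Z1 ⊤).mem (α := δ⁻¹) trivial (mul_mem (Subgroup.inv_mem _ h2.2) h1.2)
    rw [show (d⁻¹ * totA δ C.z2)⁻¹ * (d⁻¹ * totA α C.z2) = (totA δ C.z2)⁻¹ * totA α C.z2 by group,
      (mulOn_totA δ⁻¹).map_mul (Subgroup.inv_mem _ (totA_mem δ m2)) (totA_mem α m2),
      (mulOn_totA δ⁻¹).map_inv (totA_mem δ m2), totA_inv_totA _ m2, ← totA_mul _ _ m2] at this
    exact this⟩
  have : Finite (MulAut S) := inferInstance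
  have hn : F.autGroup S ≤ normalizer
      (((secStab S C.Z2 C.Z1 ⊓ secStab S C.Z1 ⊥) ⊓ F.autGroup S : Subgroup (MulAut S)) : Set (MulAut S)) :=
    fun l hl => mem_normalizer_fintype fun a ha =>
      ⟨⟨conj_mem_secStab ha.1.1 ((C.invS_Z2 ⊤).le_stabA trivial) ((C.invS_Z1 ⊤).le_stabA trivial),
        conj_mem_secStab ha.1.2 ((C.invS_Z1 ⊤).le_stabA trivial) ((invA_bot ⊤).le_stabA trivial)⟩,
        mul_mem (mul_mem hl ha.2) (Subgroup.inv_mem _ hl)⟩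
  have := E.inn_le_autGroup le_rfl ((hF.isRadical_top hS).le_inn inf_le_right hn (pgroup_K C hS)
    ⟨mem_K C k, mul_mem (Subgroup.inv_mem _ (hE.autGroup_le S hδ)) hα⟩)
  exact (mul_mem_cancel_left (Subgroup.inv_mem _ hδ)).1 this

end Out

open Out

variable [Finite S] [Fact (Nat.Prime 3)] {F : FusionSystem S} (hS : IsPGroup 3 S) (hF : F.IsSaturated 3)
include hS hF

theorem aut_le {E : FusionSystem S} (hE : E.IsSubsystemOf F) {β γ : MulAut S} (hβ : β ∈ E.autGroup S)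
    (h1 : totA β C.z1 = C.z1⁻¹) (h2 : totA β C.z2 = C.z2⁻¹) (hγ : γ ∈ E.autGroup S)
    (h3 : C.x * totA γ C.x ∈ C.E1) : F.autGroup S ≤ E.autGroup S := by
  intro α hα
  obtain ⟨m1, m2, -⟩ := Out.mems C
  have g : (∃ δ ∈ E.autGroup S, Sg C δ C.z1 C.z2⁻¹) ∧ ∃ δ ∈ E.autGroup S, Sg C δ C.z1⁻¹ C.z2 :=
    (sg_gamma C h3).elim (fun h => ⟨⟨γ, hγ, h⟩, _, mul_mem hβ hγ, (sg_mul C h1 h2).1 h⟩)
      fun h => ⟨⟨_, mul_mem hβ hγ, (sg_mul C h1 h2).2 h⟩, γ, hγ, h⟩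
  obtain ⟨⟨δ, hδ, k⟩, δ', hδ', k'⟩ := g
  rcases z1_cases C α with a | a <;> rcases z2_cases C α with b | b
  · exact key C hS hF hE hα (one_mem _) ⟨a, b⟩
      ⟨totA_one m1, by rw [totA_one m2, inv_mul_cancel]; exact one_mem _⟩
  · exact key C hS hF hE hα hδ ⟨a, b⟩ k
  · exact key C hS hF hE hα hδ' ⟨a, b⟩ k'
  · exact key C hS hF hE hα hβ ⟨a, b⟩ ⟨h1, by rw [h2, inv_mul_cancel]; exact one_mem _⟩

end Cfsg.Agent.Th3.Sy
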