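import Mathlib
import Cfsg.Agent.Th3.Q9a

/-! The essential subgroup A0: an element of order 8 on Z2 -/

set_option autoImplicit false
set_option maxRecDepth 100000
set_option synthInstance.maxSize 100000
set_option synthInstance.maxHeartbeats 400000

namespace Cfsg.Agent.Th3.Sy

open Cfsg.Agent.Spor Cfsg.Agent.Rec Cfsg.Agent.Fus Cfsg.FusionSystem Subgroup
open scoped commutatorElement

variable {Ω : Type*} [Group Ω] {S : Subgroup Ω} (C : Sy S)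

theorem q9b_fo : C.Z2 ≤ C.A0 ∧ C.z1 ∈ C.Z2 ∧ C.z2 ∈ C.Z2 ∧ C.z1 ≠ 1 ∧ C.u1 ∈ C.U ∧ C.u2 ∈ C.U ∧ C.u1 ∉ C.Zp ∧
    C.u2 ∉ C.Zp ∧ ∀ a ∈ C.A0, (a⁻¹ * (C.u1 * a * C.u1⁻¹) = C.z1 → a⁻¹ * (C.u2 * a * C.u2⁻¹) = C.z2 ^ 2 * C.z1) ∧
      (a⁻¹ * (C.u1 * a * C.u1⁻¹) = C.z2 → a⁻¹ * (C.u2 * a * C.u2⁻¹) = C.z2 * C.z1) := C.fo (by decide +kernel)

theorem q9b_norm {s : Ω} (hs : s ∈ C.U) : s ∈ normalizerIn S C.A0 := C.normalizer_A0.ge (C.U_le_PP hs)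

theorem q9b_apply (l : MulAut C.A0) {s z : Ω} (hs : s ∈ C.U) (hz : z ∈ C.A0) : totA (l * cAut C.A0 s * l⁻¹) z =
    totA l ((totA l⁻¹ z)⁻¹ * (s * totA l⁻¹ z * s⁻¹)) * z := by
  have h := totA_mem l⁻¹ hz
  have h' := C.q9b_fo.1 (C.dl_mem hs h)
  rw [totA_mul _ _ hz, totA_mul _ _ h, totA_cAut (C.q9b_norm hs).2 h, C.comm_A0 (totA_mem l h') hz]
  nth_rw 2 [← totA_totA_inv l hz]
  rw [← (mulOn_totA l).map_mul h h', mul_inv_cancel_left]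

variable [Finite S] [Fact (Nat.Prime 3)] {F : FusionSystem S} (hS : IsPGroup 3 S) (hF : F.IsSaturated 3)
include hS hF

section

variable (hA : F.IsEssential 3 C.A0) {l : MulAut C.A0} (hl : l ∈ F.autGroup C.A0) (hl' : l ∉ F.extAut C.A0)
include hA hl hl'

theorem q9b_inj {s : Ω} (hs : s ∈ C.U) (hs' : s ∉ C.Zp) {a b : Ω} (ha : a ∈ C.Z2) (hb : b ∈ C.Z2)
    (e : (totA l a)⁻¹ * (s * totA l a * s⁻¹) = (totA l b)⁻¹ * (s * totA l b * s⁻¹)) : a = b := by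
  have h := C.q9b_fo.1
  have m := mul_mem hb (Subgroup.inv_mem _ ha)
  refine (mul_inv_eq_one.1 (C.q9_Zp hS hF hA hl hl' m (((C.dl_eq_one hs (totA_mem l (h m))).1 ?_).resolve_left hs'))).symm
  rw [(mulOn_totA l).map_mul (h hb) (Subgroup.inv_mem _ (h ha)), (mulOn_totA l).map_inv (h ha)]
  calc _ = totA l a * ((totA l b)⁻¹ * (s * totA l b * s⁻¹)) * (s * (totA l a)⁻¹ * s⁻¹) := by group
    _ = 1 := by rw [← e]; group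

theorem q9b_surj {s : Ω} (hs : s ∈ C.U) (hs' : s ∉ C.Zp) {z : Ω} (hz : z ∈ C.Z2) :
    ∃ a ∈ C.Z2, (totA l a)⁻¹ * (s * totA l a * s⁻¹) = z := by
  have : Finite C.Z2 := finite_of_le (C.lev_le 2)
  obtain ⟨a, e⟩ := Finite.injective_iff_surjective.1 (show Function.Injective fun a : C.Z2 =>
    (⟨_, C.dl_mem hs (totA_mem l (C.q9b_fo.1 a.2))⟩ : C.Z2) from fun a b e =>
      Subtype.ext (C.q9b_inj hS hF hA hl hl' hs hs' a.2 b.2 (congrArg Subtype.val e))) ⟨z, hz⟩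
  exact ⟨a, a.2, congrArg Subtype.val e⟩

omit hl' in
theorem q9b_mem {s s' a z : Ω} (hs : s ∈ C.U) (hs' : s' ∈ C.U) (ha : a ∈ C.Z2) (a1 : a ≠ 1) (hz : z ∈ C.Z2)
    (e : (totA l a)⁻¹ * (s * totA l a * s⁻¹) = z) (e' : (totA l⁻¹ z)⁻¹ * (s' * totA l⁻¹ z * s'⁻¹) = a) :
    (l * cAut C.A0 s' * l⁻¹)⁻¹ * (cAut C.A0 s * l) ∈ F.extAut C.A0 := by
  have h := C.q9b_fo.1
  have c := fun s (hs : s ∈ C.U) => F.cAut_mem_autGroup C.A0_le (C.q9b_norm hs)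
  by_contra hn
  refine a1 (C.q9_Z2 hS hF hA (mul_mem (Subgroup.inv_mem _ (mul_mem (mul_mem hl (c _ hs')) (Subgroup.inv_mem _ hl)))
    (mul_mem (c _ hs) hl)) hn ha ?_)
  rwa [totA_mul _ _ (h ha), totA_mul _ _ (h ha), totA_cAut (C.q9b_norm hs).2 (totA_mem l (h ha)),
    ← mul_inv_cancel_left (totA l a) (s * totA l a * s⁻¹), e, ← e', ← C.q9b_apply l hs' (h hz),
    totA_inv_totA _ (h hz)]

theorem q9b_key {s : Ω} (hs : s ∈ C.U) (hs' : s ∉ C.Zp) : ∃ s' ∈ C.U, ∀ a ∈ C.Z2,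
    totA ((l * cAut C.A0 s' * l⁻¹)⁻¹ * cAut C.A0 s) (totA l a) = (totA l a)⁻¹ * (s * totA l a * s⁻¹) := by
  obtain ⟨h, m1, -, n1, -⟩ := C.q9b_fo
  have hi := Subgroup.inv_mem _ hl
  have hi' : l⁻¹ ∉ F.extAut C.A0 := fun e => hl' (inv_mem_iff.1 e)
  have one : ∀ k : MulAut C.A0, ∀ s : Ω, (totA k 1)⁻¹ * (s * totA k 1 * s⁻¹) = 1 := fun k s => by
    rw [(mulOn_totA k).map_one]; group
  obtain ⟨a1, ha1, e1⟩ := C.q9b_surj hS hF hA hl hl' hs hs' m1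
  have n2 : a1 ≠ 1 := fun e => n1 (by rw [← e1, e, one])
  obtain ⟨s', h', e2⟩ := C.exists_dl (totA_mem l⁻¹ (h m1)) (fun e => n1 (C.q9_Zp hS hF hA hi hi' m1 e)) ha1
  have n3 : s' ∉ C.Zp := fun e => n2 (by rw [← e2]; exact (C.dl_eq_one h' (totA_mem _ (h m1))).2 (.inl e))
  have k1 := C.q9b_mem hS hF hA hl hs h' ha1 n2 m1 e1 e2
  refine ⟨s', h', fun a ha => ?_⟩
  have la := totA_mem l (h ha)
  have hz := C.dl_mem hs la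
  generalize ez : (totA l a)⁻¹ * (s * totA l a * s⁻¹) = z at hz
  have hb := C.dl_mem h' (totA_mem l⁻¹ (h hz))
  have ap := C.q9b_apply l h' (h hz)
  generalize eb : (totA l⁻¹ z)⁻¹ * (s' * totA l⁻¹ z * s'⁻¹) = b at hb ap
  have lb := totA_mem l (h hb)
  obtain rfl : b = a := C.q9b_inj hS hF hA hl hl' hs hs' hb ha (by
    rw [ez]
    by_cases z1 : z = 1
    · rw [← eb, z1, one, one]
    have n4 : b ≠ 1 := fun e => ((C.dl_eq_one h' (totA_mem _ (h hz))).1 (eb.trans e)).elim n3 fun e' =>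
      z1 (C.q9_Zp hS hF hA hi hi' hz e')
    obtain ⟨s2, h2, e3⟩ := C.exists_dl lb (fun e => n4 (C.q9_Zp hS hF hA hl hl' hb e)) hz
    have k2 := mul_mem (Subgroup.inv_mem _ (C.q9b_mem hS hF hA hl h2 h' hb n4 hz e3 eb)) k1
    have m := mul_mem (Subgroup.inv_mem _ h2) hs
    have k3 : s2⁻¹ * s ∈ C.A0 := by
      by_contra hn
      refine hi' ((hA.essData hF hS).mem_of_conj_cAut hS (C.q9b_norm m) hn hi ?_)
      rw [cAut_mul (Subgroup.inv_mem _ (C.q9b_norm h2).2) (C.q9b_norm hs).2, cAut_inv (C.q9b_norm h2).2]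
      convert k2 using 1
      group
    rw [← e3]
    calc _ = (totA l b)⁻¹ * (s2 * (s2⁻¹ * s * totA l b) * s⁻¹) := by group
      _ = _ := by rw [C.comm_A0 k3 lb]; group)
  rw [totA_mul _ _ la, totA_cAut (C.q9b_norm hs).2 la, ← mul_inv_cancel_left (totA l b) (s * totA l b * s⁻¹), ez, ← ap,
    totA_inv_totA _ (h hz)]

end

theorem q9 (hA : F.IsEssential 3 C.A0) {K : Subgroup (MulAut C.A0)}
    (hK : ∀ g ∈ F.autGroup C.A0, ∀ s ∈ C.U, g * cAut C.A0 s * g⁻¹ ∈ K) :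
    ∃ k ∈ K, k ∈ F.autGroup C.A0 ∧ totA k C.z1 = C.z2 ^ 2 * C.z1 ∧ totA k C.z2 = C.z2 * C.z1 := by
  obtain ⟨l, hl, hl'⟩ := (hA.essData hF hS).exists_not_mem
  obtain ⟨h, m1, m2, -, u1, u2, n1, n2, f⟩ := C.q9b_fo
  obtain ⟨s1, h1, e1⟩ := C.q9b_key hS hF hA hl hl' u1 n1
  obtain ⟨s2, h2, e2⟩ := C.q9b_key hS hF hA hl hl' u2 n2
  have c := fun s (hs : s ∈ C.U) => F.cAut_mem_autGroup C.A0_le (C.q9b_norm hs)
  have w : ∀ s ∈ C.U, ∀ s' ∈ C.U, (l * cAut C.A0 s' * l⁻¹)⁻¹ * cAut C.A0 s ∈ K ⊓ F.autGroup C.A0 := fun s hs s' hs' =>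
    mul_mem (Subgroup.inv_mem _ ⟨hK l hl s' hs', mul_mem (mul_mem hl (c _ hs')) (Subgroup.inv_mem _ hl)⟩)
      ⟨by simpa using hK 1 (one_mem _) s hs, c _ hs⟩
  have k := mul_mem (w _ u2 _ h2) (Subgroup.inv_mem _ (w _ u1 _ h1))
  have ap : ∀ z ∈ C.Z2, ∃ a ∈ C.A0, a⁻¹ * (C.u1 * a * C.u1⁻¹) = z ∧ totA ((l * cAut C.A0 s2 * l⁻¹)⁻¹ * cAut C.A0 C.u2 *
      ((l * cAut C.A0 s1 * l⁻¹)⁻¹ * cAut C.A0 C.u1)⁻¹) z = a⁻¹ * (C.u2 * a * C.u2⁻¹) := fun z hz => by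
    obtain ⟨a, ha, e⟩ := C.q9b_surj hS hF hA hl hl' u1 n1 hz
    refine ⟨_, totA_mem l (h ha), e, ?_⟩
    rw [totA_mul _ _ (h hz), ← e, ← e1 a ha, totA_inv_totA _ (totA_mem l (h ha)), e2 a ha]
  obtain ⟨a, ha, a1, a2⟩ := ap _ m1
  obtain ⟨b, hb, b1, b2⟩ := ap _ m2
  exact ⟨_, k.1, k.2, a2.trans ((f a ha).1 a1), b2.trans ((f b hb).2 b1)⟩

end Cfsg.Agent.Th3.Sy
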