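import Mathlib
import Cfsg.Agent.Th3.Defs

/-! Kernel checks on the tables of the arithmetic of codes -/

set_option autoImplicit false
set_option Elab.async false

namespace Cfsg.Agent.Th3.Sn

open Cfsg.Agent.Spor Cfsg.Agent.Rec

/-- The recurrence for the table `T` of right multiplication by letter `n`; `m` multiplies below `3 ^ n`. -/
noncomputable def tabChk (n : ℕ) (m : ℕ → ℕ → ℕ) (T : ℕ → ℕ) : Bool :=
  force (Nat.pow 3 n) fun N =>
    band (band (band (Nat.beq (T 0) N) (Nat.beq (T N) (Nat.mul 2 N)))
        (band (Nat.beq (T (Nat.mul 2 N)) (qq n)) (blt (qq n) N)))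
      (allLt n fun t => force (Nat.pow 3 t) fun p => force (cc n t) fun e => band (blt e N)
        (force (Nat.div (Nat.mul 3 N) p) fun len => allRange 0 len fun k => force k fun k =>
          bor (Nat.beq (Nat.mod k 3) 0)
            (force (Nat.mul k p) fun a => force (Nat.sub a p) fun a' => force (T a') fun c =>
              force (Nat.mod c N) fun l => Nat.beq (T a) (Nat.add (Nat.sub c l) (m l e)))))

/-- The iterates of a table. -/
noncomputable def it (T : ℕ → ℕ) (j a : ℕ) : ℕ := sel j a (T a) (force (T a) T)

/-- The top digit is raised by one. -/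
def up (N a : ℕ) : ℕ := Nat.add (Nat.mul N (Nat.mod (Nat.add (Nat.div a N) 1) 3)) (Nat.mod a N)

/-- Two functions agree on a box. -/
noncomputable def eqChk (A B : ℕ) (f f' : ℕ → ℕ → ℕ) : Bool :=
  allRange 0 A fun a => force a fun a => allRange 0 B fun b => force b fun b => Nat.beq (f a b) (f' a b)

/-- The second table is the square of the first. -/
noncomputable def sqChk (A : ℕ) (R : ℕ → ℕ → ℕ) : Bool :=
  allRange 0 A fun a => force a fun a => Nat.beq (R 2 a) (force (R 1 a) (R 1))

/-- Multiplication below `3 ^ 6`. -/
noncomputable def m6 : ℕ → ℕ → ℕ := step 243 m5 (it (r7 1))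

/-- Multiplication below `3 ^ 7`, letter by letter. -/
noncomputable def m7' : ℕ → ℕ → ℕ := step 729 m6 (it (r7 3))

/-- The commutator with `s` is a smaller nonzero code. -/
noncomputable def dn (a s : ℕ) : Bool := force (cm a s) fun c => band (blt 0 c) (blt c a)

theorem chk5 : (allLt 5 fun n => force (Nat.pow 3 n) fun N => band (tabChk n m5 (up N))
    (force (Nat.mul 3 N) fun N' => eqChk N' N' m5 (step N m5 (it (up N))))) = true := by decide +kernel

theorem tab5 : tabChk 5 m5 (r7 1) = true := by decide +kernel

theorem tab6 : tabChk 6 m6 (r7 3) = true := by decide +kernel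

theorem eq7 : eqChk 9 2187 r7 (fun j a => force (Nat.mul j 243) (m7' a)) = true := by decide +kernel

theorem tab7 : tabChk 7 m7 (r8 1) = true := by decide +kernel

theorem sq8 : sqChk 6561 r8 = true := by decide +kernel

theorem tab8 : tabChk 8 m8 (r9 1) = true := by decide +kernel

theorem sq9 : sqChk 19683 r9 = true := by decide +kernel

theorem tab9 : tabChk 9 m9 (r10 1) = true := by decide +kernel

theorem sq10 : sqChk 59049 r10 = true := by decide +kernel

end Cfsg.Agent.Th3.Sn
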