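import Mathlib
import Cfsg.Agent.Th3.SndK

/-! Kernel checks on inverses and on the codes of the identity -/

set_option autoImplicit false
set_option Elab.async false

namespace Cfsg.Agent.Th3.Sn

open Cfsg.Agent.Spor Cfsg.Agent.Rec

/-- The test for inverses. -/
noncomputable def invF (a : ℕ) : Bool :=
  force a fun a => force (inv a) fun i => band (blt i 59049) (Nat.beq (mul i a) 0)

/-- Some commutator is a smaller nonzero code. -/
noncomputable def kerF (a : ℕ) : Bool :=
  force a fun a => ifLt a 3 true (ifLt a 2187 (bor (dn a 19683) (bor (dn a 6561) (dn a 729)))
    (ifLt a 19683 (dn a 9) (dn a 3)))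

theorem inv0 : allRange 0 15000 invF = true := by decide +kernel

theorem inv1 : allRange 15000 15000 invF = true := by decide +kernel

theorem inv2 : allRange 30000 15000 invF = true := by decide +kernel

theorem inv3 : allRange 45000 14049 invF = true := by decide +kernel

theorem invChk : ∀ a < 59049, invF a = true :=
  range_append (b := 59049) 14049 (range_append (b := 45000) 15000 (range_append (b := 30000) 15000 (allRange_zero inv0) inv1) inv2) inv3

theorem ker0 : allRange 0 10000 kerF = true := by decide +kernel

theorem ker1 : allRange 10000 10000 kerF = true := by decide +kernel

theorem ker2 : allRange 20000 10000 kerF = true := by decide +kernel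

theorem ker3 : allRange 30000 10000 kerF = true := by decide +kernel

theorem ker4 : allRange 40000 10000 kerF = true := by decide +kernel

theorem ker5 : allRange 50000 9049 kerF = true := by decide +kernel

theorem kerChk : ∀ a < 59049, kerF a = true :=
  range_append (b := 59049) 9049
    (range_append (b := 50000) 10000
    (range_append (b := 40000) 10000
    (range_append (b := 30000) 10000
    (range_append (b := 20000) 10000
    (allRange_zero ker0) ker1) ker2) ker3) ker4) ker5

end Cfsg.Agent.Th3.Sn
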