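import Mathlib
import Cfsg.Agent.Th3.Defs
import Cfsg.Agent.Th3.SndL

/-! Soundness of the arithmetic of codes -/

set_option autoImplicit false

namespace Cfsg.Agent.Th3

open Cfsg.Agent.Spor Cfsg.Agent.Rec Cfsg.Agent.Fus Subgroup
open scoped commutatorElement

namespace Sn

variable {Ω : Type*} [Group Ω]

theorem nfL_succ (g : ℕ → Ω) (n a : ℕ) : nfL g (n + 1) a = g n ^ (a / 3 ^ n % 3) * nfL g n a := rfl

theorem nfL_hi (g : ℕ → Ω) {t hi : ℕ} (h : 3 ^ t ∣ hi) : ∀ n, n ≤ t → nfL g n hi = 1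
  | 0, _ => rfl
  | n + 1, hn => by
    rw [nfL_succ, nfL_hi g h n (by omega)]
    obtain ⟨k, rfl⟩ := h
    obtain ⟨j, rfl⟩ : ∃ j, t = n + 1 + j := ⟨t - (n + 1), by omega⟩
    have : 3 ^ (n + 1 + j) * k / 3 ^ n % 3 = 0 := by
      rw [pow_add, pow_succ, mul_assoc, mul_assoc, Nat.mul_div_cancel_left _ (by positivity)]
      simp
    simp [this]

theorem nfL_add (g : ℕ → Ω) {t hi lo : ℕ} (h : 3 ^ t ∣ hi) (hlo : lo < 3 ^ t) :
    ∀ n, nfL g n (hi + lo) = nfL g n hi * nfL g n lo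
  | 0 => (one_mul 1).symm
  | n + 1 => by
    by_cases hn : n < t
    · rw [nfL_hi g h (n + 1) hn, one_mul, nfL_succ, nfL_succ, nfL_add g h hlo n, nfL_hi g h n hn.le, one_mul]
      obtain ⟨k, rfl⟩ := h
      obtain ⟨j, rfl⟩ : ∃ j, t = n + 1 + j := ⟨t - (n + 1), by omega⟩
      have : (3 ^ (n + 1 + j) * k + lo) / 3 ^ n % 3 = lo / 3 ^ n % 3 := by
        rw [pow_add, pow_succ, mul_assoc, mul_assoc, Nat.mul_add_div (by positivity), Nat.mul_add_mod]
      rw [this]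
    · rw [nfL_succ, nfL_succ, nfL_succ, nfL_add g h hlo n]
      obtain ⟨k, rfl⟩ := h
      obtain ⟨j, rfl⟩ : ∃ j, n = t + j := ⟨n - t, by omega⟩
      have h1 : lo / 3 ^ (t + j) = 0 :=
        Nat.div_eq_of_lt (hlo.trans_le (Nat.pow_le_pow_right (by norm_num) (by omega)))
      have h2 : (3 ^ t * k + lo) / 3 ^ (t + j) = 3 ^ t * k / 3 ^ (t + j) := by
        rw [pow_add, ← Nat.div_div_eq_div_mul, ← Nat.div_div_eq_div_mul, Nat.mul_add_div (by positivity),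
          Nat.div_eq_of_lt hlo, Nat.mul_div_cancel_left _ (by positivity), add_zero]
      rw [h1, h2]
      simp [mul_assoc]

theorem nf_add (g : ℕ → Ω) {t hi lo : ℕ} (h : 3 ^ t ∣ hi) (hlo : lo < 3 ^ t) :
    nf g (hi + lo) = nf g hi * nf g lo := nfL_add g h hlo 10

theorem nf_zero (g : ℕ → Ω) : nf g 0 = 1 := nfL_hi g (t := 10) (dvd_zero _) 10 le_rfl

theorem nfL_dig (g : ℕ → Ω) {t d : ℕ} (hd : d < 3) : ∀ n, t < n → nfL g n (d * 3 ^ t) = g t ^ d
  | 0, hn => absurd hn (Nat.not_lt_zero _)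
  | n + 1, hn => by
    rw [nfL_succ]
    rcases Nat.lt_succ_iff_lt_or_eq.1 hn with h | rfl
    · rw [nfL_dig g hd n h]
      have : d * 3 ^ t / 3 ^ n = 0 := by
        apply Nat.div_eq_of_lt
        calc d * 3 ^ t < 3 * 3 ^ t := Nat.mul_lt_mul_of_pos_right hd (by positivity)
          _ = 3 ^ (t + 1) := by ring
          _ ≤ 3 ^ n := Nat.pow_le_pow_right (by norm_num) h
      simp [this]
    · rw [nfL_hi g (Dvd.intro_left d rfl) t le_rfl, Nat.mul_div_cancel _ (by positivity), Nat.mod_eq_of_lt hd,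
        mul_one]

theorem nf_dig (g : ℕ → Ω) {t d : ℕ} (ht : t < 10) (hd : d < 3) : nf g (d * 3 ^ t) = g t ^ d :=
  nfL_dig g hd 10 ht

theorem nf_split (g : ℕ → Ω) (t a : ℕ) : nf g a = nf g (a - a % 3 ^ t) * nf g (a % 3 ^ t) := by
  rw [← nf_add g (t := t) (Nat.dvd_sub_mod a) (Nat.mod_lt _ (by positivity)),
    Nat.sub_add_cancel (Nat.mod_le _ _)]

theorem nf_top (g : ℕ → Ω) {t a : ℕ} (ht : t < 10) (ha : a < 3 * 3 ^ t) :
    nf g a = g t ^ (a / 3 ^ t) * nf g (a % 3 ^ t) := by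
  have h3 : a / 3 ^ t < 3 := Nat.div_lt_of_lt_mul (by rwa [mul_comm])
  rw [← nf_dig g ht h3, ← nf_add g (t := t) (Dvd.intro_left _ rfl) (Nat.mod_lt _ (by positivity)),
    Nat.div_add_mod']

theorem nf_peel (g : ℕ → Ω) {t k : ℕ} (ht : t < 10) (hk : k % 3 ≠ 0) :
    nf g (k * 3 ^ t) = nf g (k * 3 ^ t - 3 ^ t) * g t := by
  have hp : 0 < 3 ^ t := by positivity
  obtain ⟨q, d, hd, rfl⟩ : ∃ q d, d < 2 ∧ k = 3 * q + (d + 1) := ⟨k / 3, k % 3 - 1, by omega, by omega⟩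
  have e1 : (3 * q + (d + 1)) * 3 ^ t = 3 ^ (t + 1) * q + (d + 1) * 3 ^ t := by ring
  have e2 : (3 * q + (d + 1)) * 3 ^ t - 3 ^ t = 3 ^ (t + 1) * q + d * 3 ^ t := by
    rw [e1, Nat.sub_eq_iff_eq_add (by nlinarith)]; ring
  have hl : ∀ e < 3, e * 3 ^ t < 3 ^ (t + 1) := fun e he => by
    rw [pow_succ']; exact Nat.mul_lt_mul_of_pos_right he hp
  rw [e2, e1, nf_add g (Dvd.intro _ rfl) (hl _ (by omega)), nf_add g (Dvd.intro _ rfl) (hl _ (by omega)),
    nf_dig g ht (by omega), nf_dig g ht (by omega), pow_succ (g t), mul_assoc]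

theorem exists_low {n a : ℕ} (h : a % 3 ^ n ≠ 0) : ∃ t < n, ∃ k, k % 3 ≠ 0 ∧ a = k * 3 ^ t := by
  induction n with
  | zero => simp [Nat.mod_one] at h
  | succ n ih =>
    by_cases h1 : a % 3 ^ n = 0
    · obtain ⟨k, rfl⟩ := Nat.dvd_of_mod_eq_zero h1
      refine ⟨n, Nat.lt_succ_self n, k, fun hk => h ?_, mul_comm _ _⟩
      obtain ⟨j, rfl⟩ := Nat.dvd_of_mod_eq_zero hk
      rw [← mul_assoc, ← pow_succ, Nat.mul_mod_right]
    · obtain ⟨t, ht, hk⟩ := ih h1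
      exact ⟨t, Nat.lt_succ_of_lt ht, hk⟩

/-- `m` multiplies the codes below `N`. -/
def Snd (g : ℕ → Ω) (N : ℕ) (m : ℕ → ℕ → ℕ) : Prop :=
  ∀ a < N, ∀ b < N, m a b < N ∧ nf g (m a b) = nf g a * nf g b

/-- `T` is right multiplication by letter `n`. -/
def RD (g : ℕ → Ω) (n : ℕ) (T : ℕ → ℕ) : Prop :=
  ∀ a < 3 * 3 ^ n, nf g (T a) = nf g a * g n ∧ T a / 3 ^ n = (a / 3 ^ n + 1) % 3

/-- Products below `3 ^ (n + 1)` and their top digits. -/
def Dg (g : ℕ → Ω) (n : ℕ) : Prop :=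
  ∀ a < 3 * 3 ^ n, ∀ b < 3 * 3 ^ n, ∃ c < 3 * 3 ^ n,
    nf g c = nf g a * nf g b ∧ c / 3 ^ n = (a / 3 ^ n + b / 3 ^ n) % 3

variable {g : ℕ → Ω}

theorem tab_snd (h : Rel g) {n : ℕ} (hn : n < 10) {m : ℕ → ℕ → ℕ} (hm : Snd g (3 ^ n) m) {T : ℕ → ℕ}
    (hT : tabChk n m T = true) : RD g n T := by
  have hp : 0 < 3 ^ n := by positivity
  delta tabChk at hT
  simp only [force_eq, band_iff, nbeq_iff, blt_iff, allLt_iff, Nat.pow_eq, Nat.mul_eq] at hT
  obtain ⟨⟨⟨h0, h1⟩, h2, hq⟩, hT⟩ := hT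
  intro a
  induction a using Nat.strong_induction_on with
  | _ a ih =>
    intro ha
    by_cases hz : a % 3 ^ n = 0
    · obtain ⟨d, rfl⟩ := Nat.dvd_of_mod_eq_zero hz
      have hd : d < 3 := by
        by_contra hd
        nlinarith
      rw [Nat.mul_div_cancel_left _ hp, mul_comm (3 ^ n) d, nf_dig g hn hd]
      interval_cases d
      · rw [zero_mul, h0, Nat.div_self hp]
        exact ⟨by simpa using nf_dig g hn (d := 1) (by norm_num), rfl⟩
      · rw [one_mul, h1, Nat.mul_div_cancel _ hp, nf_dig g hn (by norm_num)]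
        exact ⟨pow_succ _ _, rfl⟩
      · rw [h2, Nat.div_eq_of_lt hq, ← h.cube n hn]
        exact ⟨pow_succ _ _, rfl⟩
    · obtain ⟨t, ht, k, hk, rfl⟩ := exists_low hz
      have hpt : 0 < 3 ^ t := by positivity
      obtain ⟨he, hT⟩ := hT t ht
      have hk1 : k < Nat.div (3 * 3 ^ n) (3 ^ t) := by
        obtain ⟨j, rfl⟩ : ∃ j, n = t + j := ⟨n - t, by omega⟩
        show k < 3 * 3 ^ (t + j) / 3 ^ t
        rw [pow_add, mul_left_comm, Nat.mul_div_cancel_left _ hpt]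
        rw [pow_add, mul_left_comm, mul_comm] at ha
        exact Nat.lt_of_mul_lt_mul_left ha
      have h3 := allRange_zero hT k hk1
      simp only [bor_iff, nbeq_iff] at h3
      replace h3 : T (k * 3 ^ t) = T (k * 3 ^ t - 3 ^ t) - T (k * 3 ^ t - 3 ^ t) % 3 ^ n +
        m (T (k * 3 ^ t - 3 ^ t) % 3 ^ n) (cc n t) := h3.resolve_left hk
      have hk0 : 3 ^ t ≤ k * 3 ^ t := Nat.le_mul_of_pos_left _ (by omega)
      obtain ⟨i1, i2⟩ := ih (k * 3 ^ t - 3 ^ t) (by omega) (by omega)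
      set c := T (k * 3 ^ t - 3 ^ t) with hc
      obtain ⟨j1, j2⟩ := hm (c % 3 ^ n) (Nat.mod_lt _ hp) _ he
      rw [h3]
      constructor
      · rw [nf_add g (Nat.dvd_sub_mod c) j1, j2, ← mul_assoc, ← nf_split, i1, nf_peel g (by omega) hk,
          mul_assoc, mul_assoc, h.conj n hn t ht]
      · have e1 : c - c % 3 ^ n = 3 ^ n * (c / 3 ^ n) := by
          have := Nat.div_add_mod c (3 ^ n); omega
        rw [e1, Nat.mul_add_div hp, Nat.div_eq_of_lt j1, add_zero, i2]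
        have e2 : (k * 3 ^ t - 3 ^ t) / 3 ^ n = k * 3 ^ t / 3 ^ n := by
          obtain ⟨j, rfl⟩ : ∃ j, n = t + 1 + j := ⟨n - (t + 1), by omega⟩
          have e3 : k * 3 ^ t - 3 ^ t = (k - 1) * 3 ^ t := by rw [Nat.sub_mul, one_mul]
          rw [e3, pow_add, pow_add, mul_assoc, ← Nat.div_div_eq_div_mul, ← Nat.div_div_eq_div_mul (k * 3 ^ t),
            Nat.mul_div_cancel _ hpt, Nat.mul_div_cancel _ hpt, ← Nat.div_div_eq_div_mul,
            ← Nat.div_div_eq_div_mul k]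
          congr 1
          omega
        rw [e2]

theorem step_eq (N : ℕ) (m R : ℕ → ℕ → ℕ) (a b : ℕ) :
    step N m R a b = R (b / N) a - R (b / N) a % N + m (R (b / N) a % N) (b % N) := rfl

theorem step_snd {n K : ℕ} {m R : ℕ → ℕ → ℕ} (hm : Snd g (3 ^ n) m)
    (hR : ∀ j < K, ∀ a < K * 3 ^ n, R j a < K * 3 ^ n ∧ nf g (R j a) = nf g a * nf g (j * 3 ^ n)) {a b : ℕ}
    (ha : a < K * 3 ^ n) (hb : b < K * 3 ^ n) :
    (step (3 ^ n) m R a b < K * 3 ^ n ∧ nf g (step (3 ^ n) m R a b) = nf g a * nf g b) ∧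
      step (3 ^ n) m R a b / 3 ^ n = R (b / 3 ^ n) a / 3 ^ n := by
  have hp : 0 < 3 ^ n := by positivity
  rw [step_eq]
  obtain ⟨i1, i2⟩ := hR (b / 3 ^ n) (Nat.div_lt_of_lt_mul (by rwa [mul_comm])) a ha
  set c := R (b / 3 ^ n) a
  obtain ⟨j1, j2⟩ := hm (c % 3 ^ n) (Nat.mod_lt _ hp) (b % 3 ^ n) (Nat.mod_lt _ hp)
  have e1 : c - c % 3 ^ n = 3 ^ n * (c / 3 ^ n) := by
    have := Nat.div_add_mod c (3 ^ n); omega
  have e2 : (c - c % 3 ^ n + m (c % 3 ^ n) (b % 3 ^ n)) / 3 ^ n = c / 3 ^ n := by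
    rw [e1, Nat.mul_add_div hp, Nat.div_eq_of_lt j1, add_zero]
  refine ⟨⟨?_, ?_⟩, e2⟩
  · rw [← Nat.div_lt_iff_lt_mul hp, e2, Nat.div_lt_iff_lt_mul hp]
    exact i1
  · rw [nf_add g (Nat.dvd_sub_mod c) j1, j2, ← mul_assoc, ← nf_split, i2, mul_assoc,
      ← nf_add g (t := n) (Dvd.intro_left _ rfl) (Nat.mod_lt _ hp), Nat.div_add_mod']

theorem step3 {n : ℕ} (hn : n < 10) {m R : ℕ → ℕ → ℕ} (hm : Snd g (3 ^ n) m) (h0 : ∀ a < 3 * 3 ^ n, R 0 a = a)
    (h1 : RD g n (R 1)) (h2 : ∀ a < 3 * 3 ^ n, R 2 a = R 1 (R 1 a)) :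
    Snd g (3 ^ (n + 1)) (step (3 ^ n) m R) ∧ Dg g n := by
  have hp : 0 < 3 ^ n := by positivity
  have hb : ∀ a < 3 * 3 ^ n, R 1 a < 3 * 3 ^ n := fun a ha => by
    rw [← Nat.div_lt_iff_lt_mul hp, (h1 a ha).2]
    exact Nat.mod_lt _ (by norm_num)
  have key : ∀ j < 3, ∀ a < 3 * 3 ^ n, (R j a < 3 * 3 ^ n ∧ nf g (R j a) = nf g a * nf g (j * 3 ^ n)) ∧
      R j a / 3 ^ n = (a / 3 ^ n + j) % 3 := by
    intro j hj a ha
    rw [nf_dig g hn hj]
    have ha3 : a / 3 ^ n < 3 := Nat.div_lt_of_lt_mul (by rwa [mul_comm])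
    interval_cases j
    · rw [h0 a ha]
      exact ⟨⟨ha, by simp⟩, by rw [add_zero, Nat.mod_eq_of_lt ha3]⟩
    · exact ⟨⟨hb a ha, by rw [(h1 a ha).1, pow_one]⟩, (h1 a ha).2⟩
    · rw [h2 a ha]
      refine ⟨⟨hb _ (hb a ha), by rw [(h1 _ (hb a ha)).1, (h1 a ha).1, pow_two, mul_assoc]⟩, ?_⟩
      rw [(h1 _ (hb a ha)).2, (h1 a ha).2]
      omega
  constructor
  · intro a ha b hb
    rw [pow_succ'] at ha hb ⊢
    exact (step_snd hm (fun j hj a ha => (key j hj a ha).1) ha hb).1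
  · intro a ha b hb
    obtain ⟨⟨i1, i2⟩, i3⟩ := step_snd hm (fun j hj a ha => (key j hj a ha).1) ha hb
    exact ⟨_, i1, i2, by rw [i3, (key _ (Nat.div_lt_of_lt_mul (by rwa [mul_comm])) a ha).2]⟩

theorem step_it (h : Rel g) {n : ℕ} (hn : n < 10) {m : ℕ → ℕ → ℕ} (hm : Snd g (3 ^ n) m) {T : ℕ → ℕ}
    (hT : tabChk n m T = true) : Snd g (3 ^ (n + 1)) (step (3 ^ n) m (it T)) ∧ Dg g n :=
  step3 hn hm (fun _ _ => rfl) (tab_snd h hn hm hT) fun _ _ => rfl

theorem eqChk_spec {A B : ℕ} {f f' : ℕ → ℕ → ℕ} (h : eqChk A B f f' = true) :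
    ∀ a < A, ∀ b < B, f a b = f' a b := fun a ha b hb => by
  delta eqChk at h
  have h1 := allRange_zero h a ha
  simp only [force_eq] at h1
  exact (nbeq_iff _ _).1 (allRange_zero h1 b hb)

theorem sqChk_spec {A : ℕ} {R : ℕ → ℕ → ℕ} (h : sqChk A R = true) : ∀ a < A, R 2 a = R 1 (R 1 a) :=
  fun a ha => (nbeq_iff _ _).1 (allRange_zero h a ha)

theorem lev5 (h : Rel g) : ∀ n ≤ 5, Snd g (3 ^ n) m5 ∧ ∀ t < n, Dg g t := by
  intro n hn
  induction n with
  | zero =>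
    refine ⟨fun a ha b hb => ?_, fun t ht => absurd ht (Nat.not_lt_zero _)⟩
    obtain rfl : a = 0 := by omega
    obtain rfl : b = 0 := by omega
    have : m5 0 0 = 0 := by decide +kernel
    rw [this, nf_zero]
    simp
  | succ n ih =>
    obtain ⟨i1, i2⟩ := ih (by omega)
    have h1 := (allLt_iff _ _).1 chk5 n (by omega)
    simp only [force_eq, band_iff, Nat.pow_eq, Nat.mul_eq] at h1
    obtain ⟨j1, j2⟩ := step_it h (by omega) i1 h1.1
    refine ⟨fun a ha b hb => ?_, fun t ht => ?_⟩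
    · rw [eqChk_spec h1.2 a (by rwa [pow_succ'] at ha) b (by rwa [pow_succ'] at hb)]
      exact j1 a ha b hb
    · rcases Nat.lt_succ_iff_lt_or_eq.1 ht with h2 | rfl
      · exact i2 t h2
      · exact j2

theorem levels (h : Rel g) : (Snd g 243 m5 ∧ Snd g 2187 m7 ∧ Snd g 6561 m8 ∧ Snd g 19683 m9 ∧ Snd g 59049 m10) ∧
    ∀ t < 10, Dg g t := by
  obtain ⟨s5, d4⟩ := lev5 h 5 le_rfl
  obtain ⟨s6, d5⟩ : Snd g (3 ^ 6) m6 ∧ Dg g 5 := step_it h (by norm_num) s5 tab5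
  obtain ⟨s7', d6⟩ : Snd g (3 ^ 7) m7' ∧ Dg g 6 := step_it h (by norm_num) s6 tab6
  have s7 : Snd g (3 ^ 7) m7 := fun a ha b hb => by
    refine (step_snd (K := 9) s5 (fun j hj a ha => ?_) ha hb).1
    rw [eqChk_spec eq7 j hj a ha]
    exact s7' a ha (j * 3 ^ 5) (by omega)
  obtain ⟨s8, d7⟩ : Snd g (3 ^ 8) m8 ∧ Dg g 7 :=
    step3 (by norm_num) s7 (fun _ _ => rfl) (tab_snd h (by norm_num) s7 tab7) (sqChk_spec sq8)
  obtain ⟨s9, d8⟩ : Snd g (3 ^ 9) m9 ∧ Dg g 8 :=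
    step3 (by norm_num) s8 (fun _ _ => rfl) (tab_snd h (by norm_num) s8 tab8) (sqChk_spec sq9)
  obtain ⟨s10, d9⟩ : Snd g (3 ^ 10) m10 ∧ Dg g 9 :=
    step3 (by norm_num) s9 (fun _ _ => rfl) (tab_snd h (by norm_num) s9 tab9) (sqChk_spec sq10)
  refine ⟨⟨s5, s7, s8, s9, s10⟩, fun t ht => ?_⟩
  by_cases h5 : t < 5
  · exact d4 t h5
  · interval_cases t <;> assumption

theorem mul_snd (h : Rel g) : Snd g 59049 mul := by
  obtain ⟨⟨s5, s7, s8, s9, s10⟩, -⟩ := levels h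
  intro a ha b hb
  have e : mul a b = ifLt (a + (b - a)) 2187 (ifLt (a + (b - a)) 243 (m5 a b) (m7 a b))
      (ifLt (a + (b - a)) 19683 (ifLt (a + (b - a)) 6561 (m8 a b) (m9 a b)) (m10 a b)) := rfl
  rw [e]
  simp only [ifLt_eq]
  split_ifs with h1 h2 h3 h4
  · exact (s5 a (by omega) b (by omega)).imp_left fun h => by omega
  · exact (s7 a (by omega) b (by omega)).imp_left fun h => by omega
  · exact (s8 a (by omega) b (by omega)).imp_left fun h => by omega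
  · exact (s9 a (by omega) b (by omega)).imp_left fun h => by omega
  · exact s10 a ha b hb

theorem inv_snd (h : Rel g) {a : ℕ} (ha : a < 59049) : inv a < 59049 ∧ nf g (inv a) = (nf g a)⁻¹ := by
  have h1 : band (blt (inv a) 59049) (Nat.beq (mul (inv a) a) 0) = true := invChk a ha
  simp only [ band_iff, blt_iff, nbeq_iff] at h1
  refine ⟨h1.1, eq_inv_of_mul_eq_one_left ?_⟩
  rw [← (mul_snd h _ h1.1 a ha).2, h1.2, nf_zero]

theorem ker (h : Rel g) : ∀ a < 59049, nf g a = 1 → a = 0 := by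
  intro a
  induction a using Nat.strong_induction_on with
  | _ a ih =>
    intro ha h1
    by_cases h3 : a < 3
    · have h2 : nf g a = g 0 ^ a := by simpa using nf_dig g (t := 0) (by norm_num) h3
      have h4 : g 0 ^ 3 = 1 := by rw [h.cube 0 (by norm_num)]; exact nf_zero g
      rw [h1] at h2
      interval_cases a
      · rfl
      · exact absurd (by simpa using h2.symm) h.ne
      · rw [pow_succ, ← h2, one_mul] at h4
        exact absurd h4 h.ne
    · have hd : ∀ s < 59049, ¬ dn a s = true := fun s hs hd => by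
        delta dn at hd
        simp only [force_eq, band_iff, blt_iff] at hd
        have e : cm a s = mul (mul a s) (inv (mul s a)) := rfl
        obtain ⟨i1, i2⟩ := mul_snd h a ha s hs
        obtain ⟨j1, j2⟩ := mul_snd h s hs a ha
        obtain ⟨k1, k2⟩ := inv_snd h j1
        have := ih _ hd.2 (by omega) (by rw [e, (mul_snd h _ i1 _ k1).2, k2, i2, j2, h1]; simp)
        omega
      have h2 : ifLt a 3 true (ifLt a 2187 (bor (dn a 19683) (bor (dn a 6561) (dn a 729)))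
        (ifLt a 19683 (dn a 9) (dn a 3))) = true := kerChk a ha
      simp only [ ifLt_eq, if_neg h3] at h2
      split_ifs at h2
      · simp only [bor_iff] at h2
        rcases h2 with h2 | h2 | h2 <;> exact absurd h2 (hd _ (by norm_num))
      · exact absurd h2 (hd _ (by norm_num))
      · exact absurd h2 (hd _ (by norm_num))

theorem inj_lev (h : Rel g) : ∀ n ≤ 10, (∀ b < 3 ^ n, ∃ c < 3 ^ n, nf g b * nf g c = 1) ∧
    ∀ a < 3 ^ n, ∀ b < 3 ^ n, nf g a = nf g b → a = b := by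
  intro n hn
  induction n with
  | zero =>
    refine ⟨fun b hb => ⟨0, by norm_num, ?_⟩, fun a ha b hb _ => by omega⟩
    obtain rfl : b = 0 := by omega
    rw [nf_zero, one_mul]
  | succ n ih =>
    obtain ⟨i1, i2⟩ := ih (by omega)
    have hp : 0 < 3 ^ n := by positivity
    have hD := (levels h).2 n (by omega)
    have hle : 3 * 3 ^ n ≤ 59049 := by
      rw [← pow_succ']
      exact Nat.pow_le_pow_right (by norm_num) hn
    have hI : ∀ b < 3 * 3 ^ n, ∃ c < 3 * 3 ^ n, nf g b * nf g c = 1 := fun b hb => by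
      have hb3 : b / 3 ^ n < 3 := Nat.div_lt_of_lt_mul (by rwa [mul_comm])
      have hb1 : (3 - b / 3 ^ n) % 3 * 3 ^ n < 3 * 3 ^ n :=
        Nat.mul_lt_mul_of_pos_right (Nat.mod_lt _ (by norm_num)) hp
      obtain ⟨c, -, c1, c2⟩ := hD b hb _ hb1
      rw [Nat.mul_div_cancel _ hp] at c2
      have hc : c < 3 ^ n := by
        have : c / 3 ^ n < 1 := by omega
        simpa using (Nat.div_lt_iff_lt_mul hp).1 this
      obtain ⟨c', hc', e⟩ := i1 c hc
      obtain ⟨d, hd, d1, -⟩ := hD _ hb1 c' (by omega)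
      exact ⟨d, hd, by rw [d1, ← mul_assoc, ← c1, e]⟩
    rw [pow_succ']
    refine ⟨hI, fun a ha b hb e => ?_⟩
    obtain ⟨c, hc, e1⟩ := hI b hb
    obtain ⟨u, hu, u1, u2⟩ := hD a ha c hc
    obtain ⟨v, hv, v1, v2⟩ := hD b hb c hc
    obtain rfl := ker h u (by omega) (by rw [u1, e, e1])
    obtain rfl := ker h v (by omega) (by rw [v1, e1])
    have ha3 : a / 3 ^ n < 3 := Nat.div_lt_of_lt_mul (by rwa [mul_comm])
    have hb3 : b / 3 ^ n < 3 := Nat.div_lt_of_lt_mul (by rwa [mul_comm])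
    have e2 : a / 3 ^ n = b / 3 ^ n := by
      rw [Nat.zero_div] at u2 v2
      generalize a / 3 ^ n = x, b / 3 ^ n = y, c / 3 ^ n = z at *
      omega
    rw [nf_top g (by omega) ha, nf_top g (by omega) hb, e2, mul_left_cancel_iff] at e
    rw [← Nat.div_add_mod a (3 ^ n), ← Nat.div_add_mod b (3 ^ n), e2,
      i2 _ (Nat.mod_lt _ hp) _ (Nat.mod_lt _ hp) e]

theorem nfL_mem (g : ℕ → Ω) (a : ℕ) : ∀ n ≤ 10, nfL g n a ∈ closure (g '' Set.Iio 10)
  | 0, _ => one_mem _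
  | n + 1, hn => mul_mem (pow_mem (Subgroup.subset_closure (Set.mem_image_of_mem g (Set.mem_Iio.2 hn))) _) (nfL_mem g a n (by omega))

end Sn

/-- The relations give codes for the subgroup generated by the ten letters. -/
theorem exists_sy {Ω : Type*} [Group Ω] {g : ℕ → Ω} (h : Rel g) :
    ∃ C : Sy (closure (g '' Set.Iio 10)), ∀ a, C.elt a = nf g a := by
  have hinj : ∀ a < 59049, ∀ b < 59049, nf g a = nf g b → a = b := (Sn.inj_lev h 10 le_rfl).2
  refine ⟨{ V := fun a => a < 59049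
            elt := nf g
            V_one := show (0 : ℕ) < 59049 by norm_num
            elt_one := Sn.nf_zero g
            V_mul := fun ha hb => (Sn.mul_snd h _ ha _ hb).1
            elt_mul := fun ha hb => (Sn.mul_snd h _ ha _ hb).2
            V_inv := fun ha => (Sn.inv_snd h ha).1
            elt_inv := fun ha => (Sn.inv_snd h ha).2
            inj := fun ha hb e => hinj _ ha _ hb e
            V_iff := fun _ => Iff.rfl
            mem := fun x => ⟨fun hx => ?_, ?_⟩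
            dig := fun t ht a ha b hb => ?_ }, fun _ => rfl⟩
  · induction hx using closure_induction with
    | mem x hx =>
      obtain ⟨t, ht, rfl⟩ := hx
      refine ⟨1 * 3 ^ t, ?_, by rw [Sn.nf_dig g ht (by norm_num), pow_one]⟩
      rw [one_mul]
      exact Nat.pow_lt_pow_right (by norm_num) (show t < 10 from ht)
    | one => exact ⟨0, by norm_num, Sn.nf_zero g⟩
    | mul x y _ _ hx hy =>
      obtain ⟨a, ha, rfl⟩ := hx
      obtain ⟨b, hb, rfl⟩ := hy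
      exact ⟨_, (Sn.mul_snd h a ha b hb).1, (Sn.mul_snd h a ha b hb).2⟩
    | inv x _ hx =>
      obtain ⟨a, ha, rfl⟩ := hx
      exact ⟨_, (Sn.inv_snd h ha).1, (Sn.inv_snd h ha).2⟩
  · rintro ⟨a, -, rfl⟩
    exact Sn.nfL_mem g a 10 le_rfl
  · have hle : 3 * 3 ^ t ≤ 59049 := by
      rw [← pow_succ']
      exact Nat.pow_le_pow_right (by norm_num) (show t + 1 ≤ 10 from ht)
    obtain ⟨c, hc, c1, c2⟩ := (Sn.levels h).2 t ht a ha b hb
    obtain ⟨i1, i2⟩ := Sn.mul_snd h a (by omega) b (by omega)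
    rw [hinj _ i1 c (by omega) (by rw [i2, c1])]
    exact ⟨hc, c2⟩

end Cfsg.Agent.Th3
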