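import Mathlib
import Cfsg.Agent.Th3.ThD

/-! The words and the power relations in degree 248 -/

set_option autoImplicit false
set_option maxRecDepth 100000
set_option exponentiation.threshold 100000

namespace Cfsg.Agent.Th3.Lk

open Cfsg.Agent.Spor Cfsg.Agent.Rec Cfsg.Agent.Spor.NM

set_option Elab.async false

theorem dk0 : allL [11, 12, 14] dchk = true := by decide +kernel

theorem dk1 : allL [13, 15] dchk = true := by decide +kernel

theorem dk2 : allL [16, 17, 18, 19] dchk = true := by decide +kernel

theorem dk3 : allL [20, 21, 22] dchk = true := by decide +kernel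

theorem qk0 : allL [0, 1, 2, 3, 4] qchk = true := by decide +kernel

theorem qk1 : allL [5, 6, 7, 8, 9] qchk = true := by decide +kernel

theorem z1_ne : Nat.beq (hM 22) F3x248.one = false := by decide +kernel

end Cfsg.Agent.Th3.Lk
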