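import Mathlib
import Cfsg.Agent.Th3.ThD

/-! The conjugation relations in degree 248 -/

set_option autoImplicit false
set_option maxRecDepth 100000
set_option exponentiation.threshold 100000

namespace Cfsg.Agent.Th3.Lk

open Cfsg.Agent.Spor Cfsg.Agent.Rec Cfsg.Agent.Spor.NM

set_option Elab.async false

theorem rk0 : allL [10, 20, 21, 30, 31, 32, 40, 41, 42, 43] rchk = true := by decide +kernel

theorem rk1 : allL [50, 51, 52, 53, 54, 60, 61, 62] rchk = true := by decide +kernel

theorem rk2 : allL [63, 64, 65, 70, 71, 72, 73] rchk = true := by decide +kernel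

theorem rk3 : allL [74, 75, 76, 80, 81] rchk = true := by decide +kernel

theorem rk4 : allL [82, 83, 84, 85] rchk = true := by decide +kernel

theorem rk5 : allL [86, 87, 90, 91, 92] rchk = true := by decide +kernel

theorem rk6 : allL [93, 94, 95, 96, 97] rchk = true := by decide +kernel

theorem rk7 : allL [98] rchk = true := by decide +kernel

end Cfsg.Agent.Th3.Lk
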