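import Mathlib
import Cfsg.Agent.Spor.Th.Main
import Cfsg.Agent.Th3.ThC0
import Cfsg.Agent.Th3.ThC1
import Cfsg.Agent.Th3.Snd
import Cfsg.Agent.Th3.PC

/-! A Sylow 3-subgroup of the Thompson group has the codes `Sy` -/

set_option autoImplicit false
set_option maxRecDepth 100000
set_option exponentiation.threshold 100000

namespace Cfsg.Agent.Th3

open Cfsg.Agent.Spor Cfsg.Agent.Rec Cfsg.Agent.Spor.NM Cfsg.Agent.Spor.NM.F3x248 Cfsg.Spor Subgroup

theorem map_nfL {G H : Type*} [Group G] [Group H] (φ : G →* H) {g : ℕ → G} {g' : ℕ → H}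
    (h : ∀ t < 10, φ (g t) = g' t) (a : ℕ) : ∀ n ≤ 10, φ (nfL g n a) = nfL g' n a
  | 0, _ => map_one φ
  | n + 1, hn => by rw [Sn.nfL_succ, Sn.nfL_succ, map_mul, map_pow, h n hn, map_nfL φ h a n (by omega)]

theorem rel_iff {G H : Type*} [Group G] [Group H] {φ : G →* H} (hφ : Function.Injective φ) {g : ℕ → G}
    {g' : ℕ → H} (h : ∀ t < 10, φ (g t) = g' t) : Rel g ↔ Rel g' := by
  have e : ∀ a, nf g' a = φ (nf g a) := fun a => (map_nfL φ h a 10 le_rfl).symm
  have e1 : ∀ n < 10, ∀ t < n, (g' t * g' n = g' n * nf g' (cc n t) ↔ g t * g n = g n * nf g (cc n t)) :=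
    fun n hn t ht => by rw [e, ← h n hn, ← h t (by omega), ← map_mul, ← map_mul, hφ.eq_iff]
  have e2 : ∀ n < 10, (g' n ^ 3 = nf g' (qq n) ↔ g n ^ 3 = nf g (qq n)) := fun n hn => by
    rw [e, ← h n hn, ← map_pow, hφ.eq_iff]
  have e3 : g' 0 ≠ 1 ↔ g 0 ≠ 1 := by rw [← h 0 (by norm_num), map_ne_one_iff φ hφ]
  exact ⟨fun k => ⟨fun n hn t ht => (e1 n hn t ht).2 (k.1 n hn t ht), fun n hn => (e2 n hn).2 (k.2 n hn),
    e3.2 k.3⟩, fun k => ⟨fun n hn t ht => (e1 n hn t ht).1 (k.1 n hn t ht), fun n hn => (e2 n hn).1 (k.2 n hn),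
    e3.1 k.3⟩⟩

namespace Lk

theorem evR_ok {w : List ℕ} (hw : ∀ x ∈ w, MM.V (hM x)) {a : ℕ} (ha : MM.V a) :
    MM.V (evR 248 hM w a) ∧ MM.elt (evR 248 hM w a) = MM.elt a * evalW (MM.g hM) w := by
  induction w generalizing a with
  | nil => exact ⟨ha, (mul_one _).symm⟩
  | cons x w ih =>
    have h1 := hw x List.mem_cons_self
    have e : evR 248 hM (x :: w) a = force (F3x248.mul a (hM x)) (evR 248 hM w) := rfl
    rw [e, force_eq, evalW_cons, ← mul_assoc, Model.g, ← MM.elt_mul ha h1]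
    exact ih (fun y hy => hw y (List.mem_cons_of_mem _ hy)) (MM.V_mul ha h1)

theorem ev_ok {w : List ℕ} (hw : ∀ x ∈ w, MM.V (hM x)) :
    MM.V (ev w) ∧ MM.elt (ev w) = evalW (MM.g hM) w := by
  cases w with
  | nil => exact ⟨MM.V_one, MM.elt_one⟩
  | cons x w => exact evR_ok (fun y hy => hw y (List.mem_cons_of_mem _ hy)) (hw x List.mem_cons_self)

theorem in_range (x : ℕ) (hx : x < 23) : MM.In MTh.rho.range (hM x) := by
  induction x using Nat.strong_induction_on with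
  | _ x ih =>
  by_cases h : x < 11
  · rw [hM, ifLt_eq, if_pos h]
    exact ⟨MTh.lets11 x h, _, MTh.rho_gG x h⟩
  have h1 : dchk x = true := (List.forall_mem_append.2 ⟨List.forall_mem_append.2 ⟨List.forall_mem_append.2
    ⟨(allL_iff _ _).1 dk0, (allL_iff _ _).1 dk1⟩, (allL_iff _ _).1 dk2⟩, (allL_iff _ _).1 dk3⟩) x
      (by simp only [List.mem_append, List.mem_cons, List.not_mem_nil]; omega)
  rw [dchk, band_iff, lettersLt_iff, nbeq_iff] at h1
  have h2 := fun y hy => ih y (h1.1 y hy) ((h1.1 y hy).trans hx)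
  obtain ⟨h3, h4⟩ := ev_ok fun y hy => (h2 y hy).1
  rw [h1.2]
  exact ⟨h3, h4 ▸ evalW_mem fun y hy => (h2 y hy).2⟩

theorem eqW_ok {u v : List ℕ} (h : eqW 23 u v = true) : evalW (MM.g hM) u = evalW (MM.g hM) v := by
  rw [eqW, band_iff, band_iff, lettersLt_iff, lettersLt_iff, nbeq_iff] at h
  rw [← (ev_ok fun y hy => (in_range y (h.1.1 y hy)).1).2, ← (ev_ok fun y hy => (in_range y (h.1.2 y hy)).1).2, h.2]

theorem evalW_nfW {G : Type*} [Group G] (g : ℕ → G) (a : ℕ) :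
    ∀ n, evalW g (nfW n a) = nfL (fun t => g (lt t)) n a
  | 0 => rfl
  | n + 1 => by
    have e : nfW (n + 1) a = List.replicate (a / 3 ^ n % 3) (lt n) ++ nfW n a := rfl
    rw [e, Sn.nfL_succ, evalW_append, evalW_nfW g a n]
    congr 1
    induction a / 3 ^ n % 3 with
    | zero => exact (pow_zero _).symm
    | succ k ih => rw [List.replicate_succ, evalW_cons, ih, pow_succ']

theorem rel_GL : Rel fun t => MM.g hM (lt t) := by
  refine ⟨fun n hn t ht => ?_, fun n hn => ?_, ?_⟩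
  · have h1 : rchk (10 * n + t) = true := (List.forall_mem_append.2 ⟨List.forall_mem_append.2
      ⟨List.forall_mem_append.2 ⟨List.forall_mem_append.2 ⟨List.forall_mem_append.2 ⟨List.forall_mem_append.2
      ⟨List.forall_mem_append.2 ⟨(allL_iff _ _).1 rk0, (allL_iff _ _).1 rk1⟩, (allL_iff _ _).1 rk2⟩,
      (allL_iff _ _).1 rk3⟩, (allL_iff _ _).1 rk4⟩, (allL_iff _ _).1 rk5⟩, (allL_iff _ _).1 rk6⟩,
      (allL_iff _ _).1 rk7⟩) _ (by revert t; revert n; decide)
    rw [rchk, show (10 * n + t) % 10 = t by omega, show (10 * n + t) / 10 = n by omega] at h1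
    have h2 := eqW_ok h1
    rwa [evalW_cons, evalW_cons, evalW_cons, evalW_nil, mul_one, evalW_nfW] at h2
  · have h1 : qchk n = true := (List.forall_mem_append.2 ⟨(allL_iff _ _).1 qk0, (allL_iff _ _).1 qk1⟩) n
      (by revert n; decide)
    have h2 := eqW_ok h1
    rwa [evalW_cons, evalW_cons, evalW_cons, evalW_nil, mul_one, evalW_nfW, ← pow_three] at h2
  · have h := Model.ne_of_not_beq (in_range 22 (by norm_num)).1 MM.V_one z1_ne
    rwa [MM.elt_one, ← Model.g, ← show lt 0 = 22 from rfl] at h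

theorem exists_rel : ∃ g : ℕ → Th, Rel g := by
  have h : ∀ t, ∃ x, t < 10 → MTh.rho x = MM.g hM (lt t) := fun t => by
    by_cases ht : t < 10
    · obtain ⟨x, e⟩ := (in_range (lt t) (by interval_cases t <;> decide +kernel)).2
      exact ⟨x, fun _ => e⟩
    · exact ⟨1, fun k => absurd k ht⟩
  choose g hg using h
  exact ⟨g, (rel_iff MTh.rho_inj hg).2 rel_GL⟩

end Lk

theorem exists_sy_of_sylow {Ω : Type*} [Group Ω] {S : Subgroup Ω} [Fact (Nat.Prime 3)] (T : Sylow 3 Th)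
    (e : S ≃* (T : Subgroup Th)) : Nonempty (Sy S) := by
  have : Finite Th := Nat.finite_of_card_ne_zero (by rw [MTh.card]; norm_num)
  obtain ⟨g, hg⟩ := Lk.exists_rel
  obtain ⟨C, -⟩ := exists_sy hg
  have h1 : Nat.card (closure (g '' Set.Iio 10)) = 3 ^ 10 := C.card
  obtain ⟨Q, hQ⟩ := (IsPGroup.of_card h1).exists_le_sylow
  have h2 : Nat.card S ≤ 3 ^ 10 := by
    obtain ⟨k, hk⟩ := IsPGroup.iff_card.1 T.isPGroup'
    have h3 := card_subgroup_dvd_card (T : Subgroup Th)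
    rw [hk, MTh.card] at h3
    rw [Nat.card_congr e.toEquiv, hk]
    refine Nat.pow_le_pow_right (by norm_num) (not_lt.1 fun h => ?_)
    exact absurd ((pow_dvd_pow 3 h).trans h3) (by norm_num)
  have h4 : ∀ t, ∃ x : (Q : Subgroup Th), t < 10 → (Q : Subgroup Th).subtype x = g t := fun t => by
    by_cases ht : t < 10
    · exact ⟨⟨g t, hQ (subset_closure ⟨t, ht, rfl⟩)⟩, fun _ => rfl⟩
    · exact ⟨1, fun k => absurd k ht⟩
  choose k hk using h4
  let ψ : (Q : Subgroup Th) →* Ω := S.subtype.comp ((Sylow.equiv Q T).trans e.symm).toMonoidHom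
  have hψ : Function.Injective ψ := S.subtype_injective.comp ((Sylow.equiv Q T).trans e.symm).injective
  obtain ⟨D, -⟩ := exists_sy ((rel_iff hψ (g' := fun t => ψ (k t)) fun _ _ => rfl).1
    ((rel_iff (subtype_injective _) hk).2 hg))
  have : Finite S := Finite.of_equiv _ e.symm.toEquiv
  have h5 : closure ((fun t => ψ (k t)) '' Set.Iio 10) = S :=
    eq_of_le_of_card_ge ((closure_le _).2 (by rintro _ ⟨t, -, rfl⟩; exact SetLike.coe_mem _)) (D.card ▸ h2)
  exact ⟨h5 ▸ D⟩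

end Cfsg.Agent.Th3
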